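import Cfsg.Agent.H3.Frame4
import Cfsg.Agent.H2.Simple

set_option autoImplicit false

namespace H3
open Cfsg MulAction

/-- the Leech lattice as a type -/
abbrev Λ : Type := leechLattice

instance instDistribCo0 : DistribMulAction Co0 Λ :=
  { (inferInstance : MulAction Co0 Λ) with
    smul_add := fun g v w => g.2.1 v w
    smul_zero := fun g => by
      have h := g.2.1 0 0
      rw [add_zero] at h
      exact left_eq_add.1 h }

theorem norm_smul (g : Co0) (v : Λ) :
    sqNorm ((g • v : Λ) : GolayPt → ℤ) = sqNorm (v : GolayPt → ℤ) := g.2.2 v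

theorem dot_smul (g : Co0) (v w : Λ) :
    dotInt ((g • v : Λ) : GolayPt → ℤ) (g • w : Λ) = dotInt (v : GolayPt → ℤ) w := by
  have h := norm_smul g (v + w)
  rw [smul_add, AddSubgroup.coe_add, AddSubgroup.coe_add, sqNorm_add, sqNorm_add, norm_smul,
    norm_smul] at h
  omega

theorem Co0_ext {g h : Co0} (e : ∀ v : Λ, g • v = h • v) : g = h :=
  Subtype.ext (Equiv.ext e)

theorem Λ_ext {v w : Λ} (e : ∀ i, (v : GolayPt → ℤ) i = (w : GolayPt → ℤ) i) : v = w :=
  Subtype.ext (funext e)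

/-- build an element of `Co0` from an involution-free description -/
def mkCo0 (f g : Λ → Λ) (h1 : ∀ v, g (f v) = v) (h2 : ∀ v, f (g v) = v)
    (h3 : ∀ v w, f (v + w) = f v + f w)
    (h4 : ∀ v, sqNorm ((f v : Λ) : GolayPt → ℤ) = sqNorm (v : GolayPt → ℤ)) : Co0 :=
  ⟨⟨f, g, h1, h2⟩, h3, h4⟩

/-- a vector from a proof of `IsL` -/
def mkL (x : GolayPt → ℤ) (h : IsL x) : Λ := ⟨x, (mem_leech x).2 h⟩

@[simp] theorem coe_mkL (x : GolayPt → ℤ) (h : IsL x) : (mkL x h : GolayPt → ℤ) = x := rfl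

/-- coordinate permutations -/
def permElt (σ : M24) : Co0 :=
  mkCo0 (fun v => mkL (fun i => v.1 (σ.1⁻¹ i)) ((isL_coe v).perm (M24.inv_mem σ.2)))
    (fun v => mkL (fun i => v.1 (σ.1 i)) ((isL_coe v).perm σ.2))
    (fun v => Λ_ext fun i => by simp) (fun v => Λ_ext fun i => by simp)
    (fun v w => Λ_ext fun i => rfl)
    (fun v => Equiv.sum_comp σ.1⁻¹ (fun i => v.1 i ^ 2))

theorem permElt_apply (σ : M24) (v : Λ) (i : GolayPt) :
    (permElt σ • v : Λ).1 i = v.1 (σ.1⁻¹ i) := rfl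

theorem permElt_apply' (σ : M24) (v : Λ) (i : GolayPt) :
    (permElt σ • v : Λ).1 (σ.1 i) = v.1 i := by rw [permElt_apply]; simp

/-- the embedding of `M24` in `Co0` -/
def permHom : M24 →* Co0 where
  toFun := permElt
  map_one' := Co0_ext fun _ => Λ_ext fun _ => rfl
  map_mul' _ _ := Co0_ext fun _ => Λ_ext fun _ => rfl

theorem permHom_apply (σ : M24) : permHom σ = permElt σ := rfl

/-- sign changes -/
def signElt (c : Finset GolayPt) (hc : c ∈ GC) : Co0 :=
  mkCo0 (fun v => mkL (fun i => if i ∈ c then -v.1 i else v.1 i) ((isL_coe v).sign hc))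
    (fun v => mkL (fun i => if i ∈ c then -v.1 i else v.1 i) ((isL_coe v).sign hc))
    (fun v => Λ_ext fun i => by by_cases h : i ∈ c <;> simp [h])
    (fun v => Λ_ext fun i => by by_cases h : i ∈ c <;> simp [h])
    (fun v w => Λ_ext fun i => by by_cases h : i ∈ c <;> simp [h, add_comm])
    (fun v => Finset.sum_congr rfl fun i _ => by by_cases h : i ∈ c <;> simp [h])

theorem signElt_apply (c : Finset GolayPt) (hc : c ∈ GC) (v : Λ) (i : GolayPt) :
    (signElt c hc • v : Λ).1 i = if i ∈ c then -v.1 i else v.1 i := rfl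

theorem signElt_mul_self (c : Finset GolayPt) (hc : c ∈ GC) : signElt c hc * signElt c hc = 1 :=
  Co0_ext fun v => Λ_ext fun i => by
    rw [mul_smul, signElt_apply, signElt_apply, one_smul]
    split_ifs <;> simp

/-- negation -/
def negElt : Co0 := signElt Finset.univ GC_univ

theorem negElt_smul (v : Λ) : negElt • v = -v := Λ_ext fun i => by simp [negElt, signElt_apply]

theorem negElt_mul_self : negElt * negElt = 1 := signElt_mul_self _ _

theorem negElt_comm (g : Co0) : g * negElt = negElt * g :=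
  Co0_ext fun v => by rw [mul_smul, mul_smul, negElt_smul, negElt_smul, smul_neg]

theorem isL_four (t : GolayPt → ℤ) (ht : (2 : ℤ) ∣ ∑ i, t i) : IsL fun i => 4 * t i := by
  refine ⟨0, fun i => 2 * t i, fun i => by ring, ?_, ?_⟩
  · rw [← Finset.mul_sum]; omega
  · convert GC_empty using 1
    ext i; simp [mem_oddSet]

/-- the vector with entries `4a` at `p` and `4b` at `q` -/
def v2 (p q : GolayPt) (a b : ℤ) (h : (2 : ℤ) ∣ a + b) : Λ :=
  mkL (fun i => 4 * ((Pi.single p a : GolayPt → ℤ) i + (Pi.single q b : GolayPt → ℤ) i))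
    (isL_four _ (by simpa [Finset.sum_add_distrib] using h))

theorem v2_apply (p q : GolayPt) (a b : ℤ) (h : (2 : ℤ) ∣ a + b) (i : GolayPt) :
    (v2 p q a b h).1 i = (if i = p then 4 * a else 0) + (if i = q then 4 * b else 0) := by
  simp only [v2, coe_mkL, Pi.single_apply]
  split_ifs <;> ring

theorem dot_v2 (x : GolayPt → ℤ) (p q : GolayPt) (a b : ℤ) (h : (2 : ℤ) ∣ a + b) :
    dotInt x (v2 p q a b h).1 = 4 * a * x p + 4 * b * x q := by
  unfold dotInt
  simp only [v2_apply, mul_add, mul_ite, mul_zero, Finset.sum_add_distrib, Finset.sum_ite_eq',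
    Finset.mem_univ, if_true]
  ring

theorem norm_v2 {p q : GolayPt} (hpq : p ≠ q) (a b : ℤ) (h : (2 : ℤ) ∣ a + b) :
    sqNorm (v2 p q a b h).1 = 16 * (a ^ 2 + b ^ 2) := by
  rw [← dotInt_self, dot_v2, v2_apply, v2_apply]
  simp only [if_true, hpq, hpq.symm, if_false]
  ring

/-- the vector `8 e_p` -/
def e8 (p : GolayPt) : Λ := v2 p p 1 1 (by norm_num)

theorem e8_apply (p i : GolayPt) : (e8 p).1 i = if i = p then 8 else 0 := by
  rw [e8, v2_apply]; split_ifs <;> norm_num

theorem coe_e8 (p : GolayPt) : (e8 p).1 = Pi.single p 8 := by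
  funext i; rw [e8_apply, Pi.single_apply]

theorem dot_e8 (x : GolayPt → ℤ) (p : GolayPt) : dotInt x (e8 p).1 = 8 * x p := by
  rw [e8, dot_v2]; ring

theorem norm_e8 (p : GolayPt) : sqNorm (e8 p).1 = 64 := by
  rw [← dotInt_self, dot_e8, e8_apply, if_pos rfl]; norm_num

theorem permElt_e8 (σ : M24) (p : GolayPt) : permElt σ • e8 p = e8 (σ.1 p) :=
  Λ_ext fun i => by
    rw [permElt_apply, e8_apply, e8_apply]
    simp [Equiv.symm_apply_eq]

theorem e8_inj {p q : GolayPt} (h : e8 p = e8 q) : p = q := by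
  by_contra hne
  have := congrArg (fun v : Λ => v.1 p) h
  simp [e8_apply, hne] at this

theorem e8_ne_neg (p q : GolayPt) : e8 p ≠ -e8 q := by
  intro h
  have := congrArg (fun v : Λ => v.1 p) h
  simp only [e8_apply, if_true, AddSubgroup.coe_neg, Pi.neg_apply] at this
  split_ifs at this; omega

theorem permHom_injective : Function.Injective permHom := by
  rw [injective_iff_map_eq_one]
  intro σ h
  ext p : 2
  have := permElt_e8 σ p
  rw [← permHom_apply, h, one_smul] at this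
  exact (e8_inj this).symm

/-- coordinates of an image -/
theorem coord_smul {g : Co0} {p q : GolayPt} {s : ℤ} (h : ∀ i, (g • e8 p : Λ).1 i = s * (e8 q).1 i)
    (v : Λ) : s * (g • v : Λ).1 q = v.1 p := by
  have h1 := dot_smul g v (e8 p)
  rw [dot_e8] at h1
  have h2 : dotInt (g • v : Λ).1 (g • e8 p : Λ).1 = s * dotInt (g • v : Λ).1 (e8 q).1 := by
    unfold dotInt
    rw [Finset.mul_sum]
    exact Finset.sum_congr rfl fun i _ => by rw [h i]; ring
  rw [h2, dot_e8] at h1
  linarith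

theorem eq_one_of_e8 {g : Co0} (h : ∀ p, g • e8 p = e8 p) : g = 1 :=
  Co0_ext fun v => Λ_ext fun i => by
    have := coord_smul (g := g) (p := i) (q := i) (s := 1) (fun j => by rw [h, one_mul]) v
    rw [one_smul, ← this, one_mul]

theorem e8_cong (p q : GolayPt) : e8 p - e8 q = (2 : ℕ) • v2 p q 1 (-1) (by norm_num) :=
  Λ_ext fun i => by
    simp only [AddSubgroup.coe_sub, Pi.sub_apply, e8_apply, AddSubgroup.coe_nsmul, Pi.smul_apply,
      v2_apply, nsmul_eq_mul]
    split_ifs <;> norm_num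

/-- A norm 8 vector congruent to `8 e_p` mod `2Λ` is in the standard frame. -/
theorem mem_stdFrame {y z : Λ} {p : GolayPt} (hy : sqNorm y.1 = 64) (hz : y - e8 p = (2 : ℕ) • z) :
    ∃ j, y = e8 j ∨ y = -e8 j := by
  obtain ⟨j, hj⟩ : ∃ j, y.1 j ≠ 0 := by
    by_contra hn
    push Not at hn
    simp [sqNorm, hn] at hy
  have h1 : y - e8 j = (2 : ℕ) • (z + v2 p j 1 (-1) (by norm_num)) := by
    rw [nsmul_add, ← hz, ← e8_cong]; abel
  have a1 := lβ_self y
  have a2 := lβ_self (e8 j)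
  have a3 := lβ_apply y (e8 j)
  rw [norm_e8] at a2
  rw [dot_e8] at a3
  rcases leechLike_leech.short_class (by omega) (by omega) h1 with h | h | h
  · exact ⟨j, Or.inl h⟩
  · exact ⟨j, Or.inr h⟩
  · omega

/-- the vector `(-3, 1^23)` -/
def w3 (p : GolayPt) : Λ := mkL (oddVec p) (isL_oddVec p)

theorem w3_apply (p i : GolayPt) : (w3 p).1 i = if i = p then -3 else 1 := rfl

theorem IsL.three_mem {x : GolayPt → ℤ} (hx : IsL x) :
    (Finset.univ.filter fun i => x i % 4 = 3) ∈ GC := by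
  obtain ⟨m, -, -, h⟩ := (mem_leechSet_iff x).2 hx
  exact h 3

theorem IsL.two_mem {x : GolayPt → ℤ} (hx : IsL x) :
    (Finset.univ.filter fun i => x i % 4 = 2) ∈ GC := by
  obtain ⟨m, -, -, h⟩ := (mem_leechSet_iff x).2 hx
  exact h 2

/-- the vector with entries `2` on a code word -/
def twoVec (c : Finset GolayPt) (hc : c ∈ GC) : Λ :=
  mkL (fun i => 2 * if i ∈ c then 1 else 0) ((isL_even_iff _).2 ⟨by
    rw [sum_ite_mem_const, one_mul]; exact_mod_cast GC_four_dvd hc, by
    convert hc using 1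
    ext i; by_cases h : i ∈ c <;> simp [mem_oddSet, h]⟩)

theorem twoVec_apply (c : Finset GolayPt) (hc : c ∈ GC) (i : GolayPt) :
    (twoVec c hc).1 i = if i ∈ c then 2 else 0 := by
  simp only [twoVec, coe_mkL]; split_ifs <;> rfl

/-- An automorphism preserving the standard frame is monomial. -/
theorem monomial {g : Co0} {p q : GolayPt} (h : g • e8 p = e8 q ∨ g • e8 p = -e8 q) :
    ∃ (σ : M24) (c : Finset GolayPt) (hc : c ∈ GC), g = signElt c hc * permElt σ := by
  have key : ∀ i, ∃ j, g • e8 i = e8 j ∨ g • e8 i = -e8 j := by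
    intro i
    have h1 : g • e8 i - g • e8 p = (2 : ℕ) • g • v2 i p 1 (-1) (by norm_num) := by
      rw [← smul_sub, e8_cong, two_nsmul, two_nsmul, smul_add]
    rcases h with h | h
    · exact mem_stdFrame (by rw [norm_smul, norm_e8]) (h ▸ h1)
    · refine mem_stdFrame (p := q) (z := g • v2 i p 1 (-1) (by norm_num) - e8 q)
        (by rw [norm_smul, norm_e8]) ?_
      rw [nsmul_sub, ← h1, h, two_nsmul]; abel
  choose π hπ using key
  have hinj : Function.Injective π := by
    intro i j hij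
    rcases hπ i with h1 | h1 <;> rcases hπ j with h2 | h2 <;> rw [hij] at h1
    · exact e8_inj (smul_left_cancel g (h1.trans h2.symm))
    · exact absurd (smul_left_cancel g (h1.trans (by rw [smul_neg, h2, neg_neg]))) (e8_ne_neg i j)
    · exact absurd (smul_left_cancel g (h1.trans (by rw [smul_neg, h2]))) (e8_ne_neg i j)
    · exact e8_inj (smul_left_cancel g (h1.trans h2.symm))
  let σ : Equiv.Perm GolayPt := Equiv.ofBijective π (Finite.injective_iff_bijective.1 hinj)
  have hσ : ∀ i, σ i = π i := fun i => rfl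
  let c := Finset.univ.filter fun i => (g • w3 none : Λ).1 i % 4 = 3
  have hc : c ∈ GC := (isL_coe _).three_mem
  have hco : ∀ (v : Λ) i, (g • v : Λ).1 (σ i) = if σ i ∈ c then -v.1 i else v.1 i := by
    intro v i
    simp only [c, Finset.mem_filter, Finset.mem_univ, true_and, hσ]
    have hw : (w3 none).1 i % 4 = 1 := by rw [w3_apply]; split_ifs <;> rfl
    rcases hπ i with h1 | h1
    · have a := coord_smul (g := g) (s := 1) (fun j => by rw [h1, one_mul])
      have a1 := a v
      have a2 := a (w3 none)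
      rw [if_neg] <;> omega
    · have a := coord_smul (g := g) (p := i) (q := π i) (s := -1) (fun j => by rw [h1]; simp)
      have a1 := a v
      have a2 := a (w3 none)
      rw [if_pos] <;> omega
  have hM : σ ∈ M24 := by
    apply mem_M24_of_image
    intro d hd
    convert (isL_coe (g • twoVec d hd)).two_mem using 1
    ext j
    obtain ⟨i, rfl⟩ := σ.surjective j
    simp only [Finset.mem_image, EmbeddingLike.apply_eq_iff_eq, exists_eq_right, Finset.mem_filter,
      Finset.mem_univ, true_and, hco, twoVec_apply]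
    split_ifs <;> simp [*]
  refine ⟨⟨σ, hM⟩, c, hc, Co0_ext fun v => Λ_ext fun j => ?_⟩
  obtain ⟨i, rfl⟩ := σ.surjective j
  rw [hco, mul_smul, signElt_apply, permElt_apply' ⟨σ, hM⟩]

theorem exists_M24_two {a b c d : GolayPt} (hab : a ≠ b) (hcd : c ≠ d) :
    ∃ σ : M24, σ.1 a = c ∧ σ.1 b = d := by
  obtain ⟨g, hg, h⟩ := H2.M24_transOn2.two (Set.mem_univ a) (Set.mem_univ b) (Set.mem_univ c)
    (Set.mem_univ d) hab hcd
  exact ⟨⟨g, hg⟩, h⟩

theorem exists_M24_one (a c : GolayPt) : ∃ σ : M24, σ.1 a = c := by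
  obtain ⟨g, hg, h⟩ := H2.M24_transOn1.one (Set.mem_univ a) (Set.mem_univ c)
  exact ⟨⟨g, hg⟩, h⟩

/-- `Co0` is transitive on the vectors of norm 8. -/
theorem trans8 (f : Λ) (hf : sqNorm f.1 = 64) (p : GolayPt) : ∃ g : Co0, g • f = e8 p := by
  obtain ⟨g, q, h⟩ := exists_Co0_frame f hf
  obtain ⟨σ, hσ⟩ := exists_M24_one q p
  rcases h with h | h
  · have : g • f = e8 q := Subtype.ext (h.trans (coe_e8 q).symm)
    exact ⟨permElt σ * g, by rw [mul_smul, this, permElt_e8, hσ]⟩
  · have : g • f = -e8 q := Λ_ext fun i => by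
      rw [h]; simp only [AddSubgroup.coe_neg, Pi.neg_apply, e8_apply, Pi.single_apply]
      split_ifs <;> rfl
    exact ⟨permElt σ * negElt * g, by
      rw [mul_smul, mul_smul, this, negElt_smul, neg_neg, permElt_e8, hσ]⟩

theorem permElt_w3 (σ : M24) (p : GolayPt) : permElt σ • w3 p = w3 (σ.1 p) :=
  Λ_ext fun i => by
    rw [permElt_apply, w3_apply, w3_apply]
    simp [Equiv.symm_apply_eq]

/-- the stabiliser of `8e_p` and of a vector with no zero coordinate and constant residue mod 4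
consists of permutations -/
theorem perm_of_fix {g : Co0} {p : GolayPt} (h : g • e8 p = e8 p) {v : Λ} (hv : g • v = v)
    (h1 : ∀ i, v.1 i % 4 = 1) : ∃ σ : M24, σ.1 p = p ∧ g = permElt σ := by
  obtain ⟨σ, c, hc, rfl⟩ := monomial (Or.inl h)
  have hce : c = ∅ := by
    rw [Finset.eq_empty_iff_forall_notMem]
    intro i hi
    have a := congrArg (fun v : Λ => v.1 i) hv
    simp only [mul_smul, signElt_apply, permElt_apply, hi, if_true] at a
    have := h1 i
    have := h1 (σ.1⁻¹ i)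
    omega
  subst hce
  have e : signElt ∅ hc = 1 := Co0_ext fun v => Λ_ext fun i => by simp [signElt_apply]
  rw [e, one_mul] at h ⊢
  rw [permElt_e8] at h
  exact ⟨σ, e8_inj h, rfl⟩

/-- the image of `M23` in `Co0` -/
def M23c (p : GolayPt) : Subgroup Co0 := (stabilizer M24 p).map permHom

/-- the image of `M22` in `Co0` -/
def M22c (p q : GolayPt) : Subgroup Co0 := (stabilizer M24 p ⊓ stabilizer M24 q).map permHom

theorem mem_M23c {p : GolayPt} {g : Co0} : g ∈ M23c p ↔ ∃ σ : M24, σ.1 p = p ∧ g = permElt σ :=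
  ⟨fun ⟨σ, h1, h2⟩ => ⟨σ, h1, h2.symm⟩, fun ⟨σ, h1, h2⟩ => ⟨σ, h1, h2.symm⟩⟩

theorem mem_M22c {p q : GolayPt} {g : Co0} :
    g ∈ M22c p q ↔ ∃ σ : M24, σ.1 p = p ∧ σ.1 q = q ∧ g = permElt σ :=
  ⟨fun ⟨σ, h1, h2⟩ => ⟨σ, h1.1, h1.2, h2.symm⟩, fun ⟨σ, h1, h2, h3⟩ => ⟨σ, ⟨h1, h2⟩, h3.symm⟩⟩

theorem stab_e8_w3 (p : GolayPt) : stabilizer Co0 (e8 p) ⊓ stabilizer Co0 (w3 p) = M23c p := by
  ext g
  rw [mem_M23c, Subgroup.mem_inf, mem_stabilizer_iff, mem_stabilizer_iff]
  constructor
  · rintro ⟨h1, h2⟩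
    exact perm_of_fix h1 h2 fun i => by rw [w3_apply]; split_ifs <;> rfl
  · rintro ⟨σ, h1, rfl⟩
    rw [permElt_e8, permElt_w3, h1]; exact ⟨rfl, rfl⟩

end H3
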