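import Cfsg.Agent.H3.CoTrans
import Cfsg.Agent.S0376
import Cfsg.Agent.S0378

set_option autoImplicit false

namespace H3
open Cfsg MulAction

theorem card_M23c (p : GolayPt) : Nat.card (M23c p) = 10200960 := by
  rw [M23c, Subgroup.card_map_of_injective permHom_injective, Cfsg.Agent.S0376.result]

theorem card_M22c {p q : GolayPt} (h : p ≠ q) : Nat.card (M22c p q) = 443520 := by
  rw [M22c, Subgroup.card_map_of_injective permHom_injective, Cfsg.Agent.S0378.result p q h]

theorem ncard_GC_notMem : {c | c ∈ GC ∧ none ∉ c}.ncard = 2048 := by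
  have := H2.ncard_csets (fun s => none ∉ s) (fun n => !n.testBit 23)
    (fun n _ => by rw [H2.mem_fs]; simp [H2.idx])
  exact this.trans (by decide +kernel)

theorem ncard_octads_one : {c | c ∈ GC ∧ (c.card = 8 ∧ none ∈ c)}.ncard = 253 := by
  have := H2.ncard_csets (fun s => s.card = 8 ∧ none ∈ s)
    (fun n => Nat.beq (H2.pop n) 8 && n.testBit 23)
    (fun n _ => by rw [H2.mem_fs, H2.card_fs]; simp [H2.idx])
  exact this.trans (by decide +kernel)

theorem ncard_octads_two : {c | c ∈ GC ∧ (c.card = 8 ∧ none ∈ c ∧ some 0 ∈ c)}.ncard = 77 := by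
  have := H2.ncard_csets (fun s => s.card = 8 ∧ none ∈ s ∧ some 0 ∈ s)
    (fun n => Nat.beq (H2.pop n) 8 && (n.testBit 23 && n.testBit 0))
    (fun n _ => by rw [H2.mem_fs, H2.mem_fs, H2.card_fs]; simp [H2.idx])
  exact this.trans (by decide +kernel)

theorem card_stab_e8 : Nat.card (stabilizer Co0 (e8 none)) = 2048 * 10200960 := by
  let F : Finset GolayPt → GolayPt → ℤ := fun c i => if i ∈ c then -oddVec none i else oddVec none i
  have hinj : Function.Injective F := by
    intro c d h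
    ext i
    have := congrFun h i
    simp only [F, oddVec] at this
    by_cases a : i ∈ c <;> by_cases b : i ∈ d <;> simp only [a, b, if_true, if_false] at this ⊢ <;>
      split_ifs at this <;> omega
  rw [H2.card_eq_orbit_mul (stabilizer Co0 (e8 none)) (w3 none)
    (Subtype.val ⁻¹' (F '' {c | c ∈ GC ∧ none ∉ c})), stab_e8_w3, card_M23c,
    Set.ncard_preimage_of_injective_subset_range Subtype.val_injective,
    Set.ncard_image_of_injective _ hinj, ncard_GC_notMem]
  · rintro _ ⟨c, hc, rfl⟩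
    exact ⟨signElt c hc.1 • w3 none, rfl⟩
  · intro x
    constructor
    · rintro ⟨c, hc, h⟩
      exact ⟨signElt c hc.1, signElt_e8 hc.1 hc.2, Subtype.ext h⟩
    · rintro ⟨g, hg, rfl⟩
      have := coord_of_dot (x := w3 none) (mem_stabilizer_iff.1 hg)
      rw [dot_e8, w3_apply, if_pos rfl] at this
      obtain ⟨c, hc, h1, h2⟩ := shape_three (x := g • w3 none) (p := none)
        (by rw [norm_smul, norm_w3]) (by omega)
      refine ⟨c, ⟨hc, h1⟩, ?_⟩
      have h3 : g • w3 none = signElt c hc • w3 none := by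
        conv_rhs => rw [← h2, ← mul_smul, signElt_mul_self, one_smul]
      rw [h3]; rfl

theorem card_top_eq (a : Λ) (O : Set Λ) (h : ∀ x, x ∈ O ↔ ∃ g : Co0, g • a = x) :
    Nat.card Co0 = O.ncard * Nat.card (stabilizer Co0 a) := by
  have := H2.card_eq_orbit_mul (⊤ : Subgroup Co0) a O (fun x => by simpa using h x)
  rwa [top_inf_eq, Subgroup.card_top] at this

theorem orbit_of_trans {a : Λ} {n : ℤ} (ha : sqNorm a.1 = n)
    (h : ∀ x : Λ, sqNorm x.1 = n → ∃ g : Co0, g • x = a) (x : Λ) :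
    x ∈ {x : Λ | sqNorm x.1 = n} ↔ ∃ g : Co0, g • a = x := by
  constructor
  · intro hx
    obtain ⟨g, hg⟩ := h x hx
    exact ⟨g⁻¹, by rw [← hg, inv_smul_smul]⟩
  · rintro ⟨g, rfl⟩
    exact (norm_smul g a).trans ha

theorem card_Co0 : Nat.card Co0 = 8315553613086720000 := by
  rw [card_top_eq (e8 none) _ (orbit_of_trans (norm_e8 none) fun x hx => trans8 x hx none),
    ncard_leech_norm, ncard_norm64, card_stab_e8]

instance instFiniteCo0 : Finite Co0 := Nat.finite_of_card_ne_zero (by rw [card_Co0]; norm_num)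

theorem trans4' {v w : Λ} (hv : sqNorm v.1 = 32) (hw : sqNorm w.1 = 32) : ∃ g : Co0, g • v = w := by
  obtain ⟨g, hg⟩ := trans4 hv (p := none) (q := some 0) (by simp)
  obtain ⟨h, hh⟩ := trans4 hw (p := none) (q := some 0) (by simp)
  exact ⟨h⁻¹ * g, by rw [mul_smul, hg, ← hh, inv_smul_smul]⟩

theorem trans6' {v w : Λ} (hv : sqNorm v.1 = 48) (hw : sqNorm w.1 = 48) : ∃ g : Co0, g • v = w := by
  obtain ⟨g, hg⟩ := trans6 hv none
  obtain ⟨h, hh⟩ := trans6 hw none
  exact ⟨h⁻¹ * g, by rw [mul_smul, hg, ← hh, inv_smul_smul]⟩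

theorem card_Co2 {v : Λ} (hv : sqNorm v.1 = 32) : Nat.card (stabilizer Co0 v) = 42305421312000 := by
  have := card_top_eq v _ (orbit_of_trans hv fun x hx => trans4' hx hv)
  rw [ncard_leech_norm, ncard_norm32, card_Co0] at this
  omega

theorem card_Co3 {v : Λ} (hv : sqNorm v.1 = 48) : Nat.card (stabilizer Co0 v) = 495766656000 := by
  have := card_top_eq v _ (orbit_of_trans hv fun x hx => trans6' hx hv)
  rw [ncard_leech_norm, ncard_norm48, card_Co0] at this
  omega

/-! ### minimal vectors with inner product 3 with `(5, 1^23)` -/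

theorem even_ip3 {x : Λ} {p : GolayPt} (hn : sqNorm x.1 = 32) (hd : dotInt x.1 (v5 p).1 = 24)
    (he : x.1 p % 2 = 0) : (∃ j, j ≠ p ∧ x = v2 p j 1 1 (by norm_num)) ∨
      ∃ o, ∃ ho : o ∈ GC, o.card = 8 ∧ p ∈ o ∧ x = twoVec o ho := by
  rcases (isL_coe x).cases with ⟨y, h1, -, h3⟩ | ⟨y, h1, -, -⟩
  swap
  · have := h1 p; omega
  have e : x.1 = fun i => 2 * y i := funext h1
  have hn' := hn
  have hd' := hd
  rw [e, sqNorm_two_mul, sqNorm] at hn'
  rw [dot_v5, e, ← Finset.mul_sum] at hd'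
  beta_reduce at hd'
  have hnn : ∀ i ∈ (Finset.univ : Finset GolayPt), 0 ≤ y i ^ 2 - y i := fun i _ => by
    have : y i ≤ 0 ∨ 1 ≤ y i := by omega
    rcases this with h | h <;> nlinarith
  have h5 := Finset.sum_nonneg hnn
  rw [Finset.sum_sub_distrib] at h5
  have h6 := sq_le_sqNorm y p
  unfold sqNorm at h6
  have h7 : y p < 3 := by nlinarith
  have h8 : y p = 1 ∨ y p = 2 := by omega
  rcases h8 with h8 | h8
  · right
    have h9 : ∀ i, y i = if i ∈ oddSet y then 1 else 0 := by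
      intro i
      have := (Finset.sum_eq_zero_iff_of_nonneg hnn).1 (by rw [Finset.sum_sub_distrib]; omega) i
        (Finset.mem_univ i)
      have : y i * (y i - 1) = 0 := by linarith
      simp only [mem_oddSet]
      rcases mul_eq_zero.1 this with h | h <;> split_ifs <;> omega
    refine ⟨_, h3, ?_, by rw [mem_oddSet]; omega, Λ_ext fun i => ?_⟩
    · have : ∑ i, y i = (oddSet y).card := by
        rw [Finset.sum_congr rfl fun i _ => h9 i, sum_ite_mem_const, one_mul]
      omega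
    · rw [twoVec_apply, h1, h9 i]; split_ifs <;> rfl
  · left
    obtain ⟨j, hj, h | h⟩ := shape_four (p := p) hn (by rw [h1, h8]; rfl)
    · exact ⟨j, hj, h⟩
    · rw [h, dotInt_comm, dot_v2, v5_apply, v5_apply, if_pos rfl, if_neg hj] at hd
      omega

theorem dot_v2_v5 {p j : GolayPt} (hj : j ≠ p) :
    dotInt (v2 p j 1 1 (by norm_num)).1 (v5 p).1 = 24 := by
  rw [dotInt_comm, dot_v2, v5_apply, v5_apply, if_pos rfl, if_neg hj]; norm_num

theorem dot_twoVec (x : GolayPt → ℤ) (o : Finset GolayPt) (ho : o ∈ GC) :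
    dotInt x (twoVec o ho).1 = 2 * ∑ i ∈ o, x i := by
  unfold dotInt
  simp only [twoVec_apply, mul_ite, mul_zero, Finset.sum_ite_mem, Finset.univ_inter]
  rw [Finset.mul_sum]; exact Finset.sum_congr rfl fun i _ => mul_comm _ _

theorem dot_twoVec_twoVec (o o' : Finset GolayPt) (ho : o ∈ GC) (ho' : o' ∈ GC) :
    dotInt (twoVec o ho).1 (twoVec o' ho').1 = 4 * (o ∩ o').card := by
  rw [dot_twoVec]
  simp only [twoVec_apply, Finset.sum_ite_mem, Finset.sum_const, nsmul_eq_mul]
  rw [Finset.inter_comm]; ring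

theorem norm_twoVec (o : Finset GolayPt) (ho : o ∈ GC) : sqNorm (twoVec o ho).1 = 4 * o.card := by
  rw [← dotInt_self, dot_twoVec_twoVec, Finset.inter_self]

theorem dot_twoVec_v5 {p : GolayPt} {o : Finset GolayPt} (ho : o ∈ GC) (h8 : o.card = 8)
    (hp : p ∈ o) : dotInt (twoVec o ho).1 (v5 p).1 = 24 := by
  rw [dot_v5]
  simp only [twoVec_apply, hp, if_true, sum_ite_mem_const, h8]; norm_num

theorem twoVec_inj {o o' : Finset GolayPt} {ho : o ∈ GC} {ho' : o' ∈ GC}
    (h : twoVec o ho = twoVec o' ho') : o = o' := by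
  ext i
  have := congrArg (fun v : Λ => v.1 i) h
  simp only [twoVec_apply] at this
  split_ifs at this <;> simp_all

theorem v2_inj {p j k : GolayPt} (hj : j ≠ p)
    (h : v2 p j 1 1 (by norm_num) = v2 p k 1 1 (by norm_num)) : j = k := by
  by_contra hne
  have := congrArg (fun v : Λ => v.1 j) h
  simp [v2_apply, hj, hne] at this

/-- the even ones -/
def Yev (p : GolayPt) : Set Λ := {x | sqNorm x.1 = 32 ∧ dotInt x.1 (v5 p).1 = 24 ∧ x.1 p % 2 = 0}

open Classical in
theorem ncard_Yev : (Yev none).ncard = 276 := by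
  let F : Finset GolayPt → Λ := fun o => if h : o ∈ GC then twoVec o h else 0
  have e : Yev none = (fun j => v2 none j 1 1 (by norm_num)) '' (Finset.univ.erase none : Finset GolayPt) ∪
      F '' {c | c ∈ GC ∧ (c.card = 8 ∧ none ∈ c)} := by
    ext x
    constructor
    · rintro ⟨h1, h2, h3⟩
      rcases even_ip3 h1 h2 h3 with ⟨j, hj, h⟩ | ⟨o, ho, h8, hp, h⟩
      · exact Or.inl ⟨j, by simpa using hj, h.symm⟩
      · exact Or.inr ⟨o, ⟨ho, h8, hp⟩, by simp only [F, dif_pos ho, h]⟩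
    · rintro (⟨j, hj, rfl⟩ | ⟨o, ⟨ho, h8, hp⟩, rfl⟩)
      · have hj' : j ≠ none := by simpa using hj
        exact ⟨by rw [norm_v2 hj'.symm]; norm_num, dot_v2_v5 hj', by
          rw [v2_apply]; split_ifs <;> rfl⟩
      · simp only [F, dif_pos ho]
        exact ⟨by rw [norm_twoVec, h8]; norm_num, dot_twoVec_v5 ho h8 hp, by
          rw [twoVec_apply]; split_ifs <;> rfl⟩
  rw [e, Set.ncard_union_eq, Set.InjOn.ncard_image, Set.InjOn.ncard_image, ncard_octads_one,
    Set.ncard_coe_finset, card_erase_pt]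
  · rintro o ⟨ho, -⟩ o' ⟨ho', -⟩ h
    simp only [F, dif_pos ho, dif_pos ho'] at h
    exact twoVec_inj h
  · intro j hj k _ h
    exact v2_inj (by simpa using hj) h
  · rw [Set.disjoint_left]
    rintro _ ⟨j, hj, rfl⟩ ⟨o, ⟨ho, -⟩, h⟩
    simp only [F, dif_pos ho] at h
    have := congrArg (fun v : Λ => v.1 none) h
    simp only [twoVec_apply, v2_apply] at this
    split_ifs at this <;> omega

theorem ip3_compl {x : Λ} {p : GolayPt} (h1 : sqNorm x.1 = 32) (h2 : dotInt x.1 (v5 p).1 = 24) :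
    sqNorm (v5 p - x).1 = 32 ∧ dotInt (v5 p - x).1 (v5 p).1 = 24 := by
  rw [AddSubgroup.coe_sub, sqNorm_sub, dotInt_sub_left, dotInt_self, norm_v5, dotInt_comm, h1, h2]
  norm_num

theorem ncard_ip3 : {x : Λ | sqNorm x.1 = 32 ∧ dotInt x.1 (v5 none).1 = 24}.ncard = 552 := by
  have e : {x : Λ | sqNorm x.1 = 32 ∧ dotInt x.1 (v5 none).1 = 24} =
      Yev none ∪ (fun x => v5 none - x) '' Yev none := by
    ext x
    constructor
    · rintro ⟨h1, h2⟩
      rcases Int.emod_two_eq_zero_or_one (x.1 none) with h | h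
      · exact Or.inl ⟨h1, h2, h⟩
      · refine Or.inr ⟨v5 none - x, ⟨(ip3_compl h1 h2).1, (ip3_compl h1 h2).2, ?_⟩, by simp⟩
        simp only [AddSubgroup.coe_sub, Pi.sub_apply, v5_apply, if_true]; omega
    · rintro (⟨h1, h2, -⟩ | ⟨y, ⟨h1, h2, -⟩, rfl⟩)
      · exact ⟨h1, h2⟩
      · exact ip3_compl h1 h2
  have hf : (Yev none).Finite := Set.finite_of_ncard_ne_zero (by rw [ncard_Yev]; norm_num)
  rw [e, Set.ncard_union_eq _ hf (hf.image _), Set.ncard_image_of_injective _ sub_right_injective,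
    ncard_Yev]
  rw [Set.disjoint_left]
  rintro _ ⟨-, -, h⟩ ⟨y, ⟨-, -, h'⟩, rfl⟩
  simp only [AddSubgroup.coe_sub, Pi.sub_apply, v5_apply, if_true] at h
  omega

theorem v5_sub_v2 {p q : GolayPt} (_h : p ≠ q) : v5 p - v2 p q 1 1 (by norm_num) = w3 q :=
  Λ_ext fun i => by
    simp only [AddSubgroup.coe_sub, Pi.sub_apply, v5_apply, v2_apply, w3_apply]
    split_ifs with a b <;> simp_all

theorem v2_comm (p q : GolayPt) : v2 p q 1 1 (by norm_num) = v2 q p 1 1 (by norm_num) :=
  Λ_ext fun i => by simp only [v2_apply]; ring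

/-- the McLaughlin group in standard position -/
def McLs : Subgroup Co0 :=
  stabilizer Co0 (v5 none) ⊓ stabilizer Co0 (v2 none (some 0) 1 1 (by norm_num))

/-- the Higman-Sims group in standard position -/
def HSs : Subgroup Co0 :=
  stabilizer Co0 (v5 none) ⊓ stabilizer Co0 (v2 none (some 0) 1 (-1) (by norm_num))

theorem trans_ip3 {x : Λ} {p q : GolayPt} (hpq : p ≠ q) (h1 : sqNorm x.1 = 32) {v : Λ}
    (hv : sqNorm v.1 = 48) (h2 : dotInt x.1 v.1 = 24) :
    ∃ g : Co0, g • v = v5 p ∧ g • x = v2 p q 1 1 (by norm_num) := by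
  obtain ⟨g, a1, a2⟩ := trans_McL (a := x) (b := v - x) h1
    (by rw [AddSubgroup.coe_sub, sqNorm_sub, dotInt_comm]; omega)
    (by rw [AddSubgroup.coe_sub, dotInt_sub_right, dotInt_self]; omega) hpq.symm
  rw [← v2_comm] at a1
  refine ⟨g, ?_, a1⟩
  rw [smul_sub, a1, ← v5_sub_v2 hpq] at a2
  exact sub_left_injective a2

theorem card_McLs : Nat.card McLs = 898128000 := by
  have := H2.card_eq_orbit_mul (stabilizer Co0 (v5 none)) (v2 none (some 0) 1 1 (by norm_num))
    {x : Λ | sqNorm x.1 = 32 ∧ dotInt x.1 (v5 none).1 = 24} (fun x => by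
      constructor
      · rintro ⟨h1, h2⟩
        obtain ⟨g, a1, a2⟩ := trans_ip3 (p := none) (q := some 0) (by simp) h1 (norm_v5 _) h2
        exact ⟨g⁻¹, Subgroup.inv_mem _ a1, by rw [← a2, inv_smul_smul]⟩
      · rintro ⟨g, hg, rfl⟩
        refine ⟨by rw [norm_smul, norm_v2 (by simp)]; norm_num, ?_⟩
        conv_lhs => rw [← mem_stabilizer_iff.1 hg, dot_smul]
        exact dot_v2_v5 (by simp))
  rw [ncard_ip3, card_Co3 (norm_v5 _)] at this
  unfold McLs
  omega

/-- the 100 vectors -/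
def X100 : Set Λ := {x | sqNorm x.1 = 32 ∧ dotInt x.1 (v5 none).1 = 24 ∧ x.1 none = x.1 (some 0)}

theorem mem_X100 {x : Λ} : x ∈ X100 ↔ x = v2 none (some 0) 1 1 (by norm_num) ∨
    (∃ j, j ≠ none ∧ j ≠ some 0 ∧ x = w3 j) ∨
    ∃ o, ∃ ho : o ∈ GC, o.card = 8 ∧ none ∈ o ∧ some 0 ∈ o ∧ x = twoVec o ho := by
  constructor
  · rintro ⟨h1, h2, h3⟩
    rcases Int.emod_two_eq_zero_or_one (x.1 none) with h | h
    · rcases even_ip3 h1 h2 h with ⟨j, hj, rfl⟩ | ⟨o, ho, h8, hp, rfl⟩
      · left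
        by_cases hj0 : some 0 = j
        · rw [hj0]
        · simp [v2_apply, hj0, hj.symm] at h3
      · refine Or.inr (Or.inr ⟨o, ho, h8, hp, ?_, rfl⟩)
        by_contra hn
        simp [twoVec_apply, hp, hn] at h3
    · right; left
      rcases even_ip3 (ip3_compl h1 h2).1 (ip3_compl h1 h2).2 (by
        simp only [AddSubgroup.coe_sub, Pi.sub_apply, v5_apply, if_true]; omega) with
        ⟨j, hj, e⟩ | ⟨o, ho, h8, hp, e⟩
      · have e' : x = w3 j := by rw [← v5_sub_v2 hj.symm, ← e]; abel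
        refine ⟨j, hj, ?_, e'⟩
        rintro rfl
        simp [e', w3_apply] at h3
      · have a := congrArg (fun v : Λ => v.1 none) e
        have b := congrArg (fun v : Λ => v.1 (some 0)) e
        simp only [AddSubgroup.coe_sub, Pi.sub_apply, v5_apply, twoVec_apply, hp, if_true,
          reduceCtorEq, if_false] at a b
        split_ifs at b <;> omega
  · rintro (rfl | ⟨j, h1, h2, rfl⟩ | ⟨o, ho, h8, h1, h2, rfl⟩)
    · exact ⟨by rw [norm_v2 (by simp)]; norm_num, dot_v2_v5 (by simp), by simp [v2_apply]⟩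
    · refine ⟨norm_w3 j, ?_, by simp [w3_apply, h1.symm, h2.symm]⟩
      rw [dot_v5]; simp only [w3_apply, sum_ite_pt, h1.symm, if_false]; norm_num
    · exact ⟨by rw [norm_twoVec, h8]; norm_num, dot_twoVec_v5 ho h8 h1,
        by simp [twoVec_apply, h1, h2]⟩

theorem w3_inj {j k : GolayPt} (h : w3 j = w3 k) : j = k := by
  by_contra hne
  have := congrArg (fun v : Λ => v.1 j) h
  simp [w3_apply, hne] at this

open Classical in
theorem ncard_X100 : X100.ncard = 100 := by
  let F : Finset GolayPt → Λ := fun o => if h : o ∈ GC then twoVec o h else 0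
  have e : X100 = insert (v2 none (some 0) 1 1 (by norm_num))
      (w3 '' ((Finset.univ.erase none).erase (some 0) : Finset GolayPt) ∪
      F '' {c | c ∈ GC ∧ (c.card = 8 ∧ none ∈ c ∧ some 0 ∈ c)}) := by
    ext x
    rw [mem_X100, Set.mem_insert_iff, Set.mem_union]
    refine or_congr Iff.rfl (or_congr ?_ ?_)
    · constructor
      · rintro ⟨j, h1, h2, rfl⟩; exact ⟨j, by simp [h1, h2], rfl⟩
      · rintro ⟨j, h1, rfl⟩
        simp only [Finset.coe_erase, Finset.coe_univ, Set.mem_sdiff, Set.mem_univ,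
          Set.mem_singleton_iff, true_and] at h1
        exact ⟨j, h1.1, h1.2, rfl⟩
    · constructor
      · rintro ⟨o, ho, h8, h1, h2, rfl⟩; exact ⟨o, ⟨ho, h8, h1, h2⟩, by simp only [F, dif_pos ho]⟩
      · rintro ⟨o, ⟨ho, h8, h1, h2⟩, rfl⟩; exact ⟨o, ho, h8, h1, h2, by simp only [F, dif_pos ho]⟩
  rw [e, Set.ncard_insert_of_notMem, Set.ncard_union_eq, Set.InjOn.ncard_image,
    Set.InjOn.ncard_image, ncard_octads_two, Set.ncard_coe_finset, Finset.card_erase_of_mem (by simp),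
    card_erase_pt]
  · rintro o ⟨ho, -⟩ o' ⟨ho', -⟩ h
    simp only [F, dif_pos ho, dif_pos ho'] at h
    exact twoVec_inj h
  · intro j _ k _ h
    exact w3_inj h
  · rw [Set.disjoint_left]
    rintro _ ⟨j, hj, rfl⟩ ⟨o, ⟨ho, -⟩, h⟩
    simp only [F, dif_pos ho] at h
    have := congrArg (fun v : Λ => v.1 none) h
    simp only [twoVec_apply, w3_apply] at this
    split_ifs at this <;> omega
  · rintro (⟨j, hj, h⟩ | ⟨o, ⟨ho, -⟩, h⟩)
    · have := congrArg (fun v : Λ => v.1 none) h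
      simp only [v2_apply, w3_apply] at this
      split_ifs at this <;> omega
    · simp only [F, dif_pos ho] at h
      have := congrArg (fun v : Λ => v.1 none) h
      simp only [twoVec_apply, v2_apply] at this
      split_ifs at this <;> omega

theorem HSs_smul_X100 {g : Co0} (hg : g ∈ HSs) {x : Λ} (hx : x ∈ X100) : g • x ∈ X100 := by
  obtain ⟨h1, h2, h3⟩ := hx
  refine ⟨by rw [norm_smul, h1], by rw [← mem_stabilizer_iff.1 hg.1, dot_smul, h2], ?_⟩
  have := dot_smul g x (v2 none (some 0) 1 (-1) (by norm_num))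
  rw [mem_stabilizer_iff.1 hg.2, dot_v2, dot_v2] at this
  omega

theorem HSs_trans {x : Λ} (hx : x ∈ X100) :
    ∃ g ∈ HSs, g • x = v2 none (some 0) 1 1 (by norm_num) := by
  obtain ⟨h1, h2, h3⟩ := hx
  obtain ⟨g, a1, a2, a3⟩ := nf_HS (v := v5 none) (u := v2 none (some 0) 1 (-1) (by norm_num))
    (t := v5 none - x) (norm_v5 _) (by rw [norm_v2 (by simp)]; norm_num) (ip3_compl h1 h2).1
    (by rw [dotInt_comm, dot_v2]; simp [v5_apply]) (ip3_compl h1 h2).2
    (by rw [dot_v2]; simp [v5_apply]; omega) (p := none) (q := some 0) (by simp)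
  exact ⟨g, ⟨a1, a2⟩, by simpa using a3⟩

theorem perm_of_fix_v5 {g : Co0} {p : GolayPt} (h1 : g • e8 p = e8 p) (h2 : g • v5 p = v5 p) :
    ∃ σ : M24, σ.1 p = p ∧ g = permElt σ :=
  perm_of_fix h1 h2 fun i => by rw [v5_apply]; split_ifs <;> rfl

theorem permElt_v5 (σ : M24) (p : GolayPt) : permElt σ • v5 p = v5 (σ.1 p) := by
  rw [v5, smul_add, permElt_e8, permElt_w3, v5]

theorem HSs_stab : HSs ⊓ stabilizer Co0 (v2 none (some 0) 1 1 (by norm_num)) =
    M22c none (some 0) := by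
  ext g
  rw [mem_M22c, HSs]
  simp only [Subgroup.mem_inf, mem_stabilizer_iff]
  constructor
  · rintro ⟨⟨h1, h2⟩, h3⟩
    have h4 : g • e8 none = e8 none := by
      rw [sub_eq_iff_eq_add.1 (e8_sub_v2 none (some 0)), smul_add, h2, h3]
    obtain ⟨σ, s1, rfl⟩ := perm_of_fix_v5 h4 h1
    rw [permElt_v2, s1] at h3
    exact ⟨σ, s1, (v2_inj (by simp) h3.symm).symm, rfl⟩
  · rintro ⟨σ, s1, s2, rfl⟩
    refine ⟨⟨?_, ?_⟩, ?_⟩
    · rw [permElt_v5, s1]
    · rw [permElt_v2, s1, s2]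
    · rw [permElt_v2, s1, s2]

theorem card_HSs : Nat.card HSs = 44352000 := by
  have := H2.card_eq_orbit_mul HSs (v2 none (some 0) 1 1 (by norm_num)) X100 (fun x => by
    constructor
    · intro hx
      obtain ⟨g, a1, a2⟩ := HSs_trans hx
      exact ⟨g⁻¹, Subgroup.inv_mem _ a1, by rw [← a2, inv_smul_smul]⟩
    · rintro ⟨g, hg, rfl⟩
      exact HSs_smul_X100 hg (mem_X100.2 (Or.inl rfl)))
  rw [ncard_X100, HSs_stab, card_M22c (by simp)] at this
  exact this

end H3
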