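import Cfsg.Agent.H3.CoOrder
import Cfsg.Agent.H3.SimpleCrit
import Cfsg.Prelude.Def_Sporadic
import Cfsg.Agent.S0377
import Cfsg.Agent.S0379

set_option autoImplicit false

namespace H3
open Cfsg MulAction

theorem SCrit.of_subgroup {G : Type*} [Group G] {p : ℕ} (hp : p.Prime) {K H : Subgroup G}
    (hHK : H ≤ K) (hs : IsSimpleGroup H) {σ : G} (hσ : σ ∈ H) (ho : orderOf σ = p)
    (nsq : ¬ p ^ 2 ∣ Nat.card K) (hn : ∀ g ∈ K, g * σ * g⁻¹ ∈ Subgroup.zpowers σ → g ∈ H) :
    SCrit K p (H.subgroupOf K) ⟨σ, hHK hσ⟩ := by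
  refine ⟨hp, (Subgroup.subgroupOfEquivOfLe hHK).isSimpleGroup, hσ, ?_, nsq, fun g hg => ?_⟩
  · rw [← Subgroup.orderOf_coe, ho]
  · obtain ⟨k, hk⟩ := Subgroup.mem_zpowers_iff.1 hg
    exact hn g g.2 (Subgroup.mem_zpowers_iff.2 ⟨k, congrArg Subtype.val hk⟩)

theorem hnum_of_check {n p m : ℕ} (hn : n ∣ 2 ^ 22 * 3 ^ 9 * 5 ^ 4 * 7 ^ 2 * 11 * 13 * 23)
    (h : ∀ r ∈ [2, 3, 5, 7, 11, 13, 23], ∀ k < 23, 0 < k → r ^ k ∣ n → r ^ k % p = 1 % p → r ^ k = m) :
    ∀ r k : ℕ, r.Prime → 0 < k → r ^ k ∣ n → r ^ k ≡ 1 [MOD p] → r ^ k = m := by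
  intro r k hr hk hd hm
  have h1 : r ∣ 2 ^ 22 * 3 ^ 9 * 5 ^ 4 * 7 ^ 2 * 11 * 13 * 23 :=
    ((dvd_pow_self r hk.ne').trans hd).trans hn
  have h2 : r ∈ [2, 3, 5, 7, 11, 13, 23] := by
    simp only [hr.dvd_mul] at h1
    have a : ∀ {q j : ℕ}, q.Prime → r ∣ q ^ j → r = q := fun hq h =>
      (Nat.prime_dvd_prime_iff_eq hr hq).1 (hr.dvd_of_dvd_pow h)
    have b : ∀ {q : ℕ}, q.Prime → r ∣ q → r = q := fun hq h =>
      (Nat.prime_dvd_prime_iff_eq hr hq).1 h
    rcases h1 with (((((h | h) | h) | h) | h) | h) | h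
    · simp [a (by norm_num) h]
    · simp [a (by norm_num) h]
    · simp [a (by norm_num) h]
    · simp [a (by norm_num) h]
    · simp [b (by norm_num) h]
    · simp [b (by norm_num) h]
    · simp [b (by norm_num) h]
  refine h r h2 k ?_ hk hd hm
  by_contra hlt
  have h3 : r ^ 23 ∣ 2 ^ 22 * 3 ^ 9 * 5 ^ 4 * 7 ^ 2 * 11 * 13 * 23 :=
    ((pow_dvd_pow r (by omega)).trans hd).trans hn
  revert h3
  simp only [List.mem_cons, List.not_mem_nil, or_false] at h2
  rcases h2 with rfl | rfl | rfl | rfl | rfl | rfl | rfl <;> decide +kernel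

theorem simple_M23c (p : GolayPt) : IsSimpleGroup (M23c p) := by
  have := Cfsg.Agent.S0377.result p
  exact (Subgroup.equivMapOfInjective _ _ permHom_injective).symm.isSimpleGroup

theorem simple_M22c {p q : GolayPt} (h : p ≠ q) : IsSimpleGroup (M22c p q) := by
  have := Cfsg.Agent.S0379.result p q h
  exact (Subgroup.equivMapOfInjective _ _ permHom_injective).symm.isSimpleGroup

/-- the shift, of order 23 -/
def shift : M24 := ⟨Equiv.optionCongr (Equiv.addRight (1 : ZMod 23)), H2.alpha_mem⟩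

/-- the unit 2 -/
def u2 : (ZMod 23)ˣ := ⟨2, 12, by decide, by decide⟩

/-- doubling, of order 11 -/
def dbl11 : M24 := ⟨Equiv.optionCongr (Units.mulLeft u2),
  H2.mulSquare_mem u2 ⟨⟨5, 14, by decide, by decide⟩, Units.ext (by decide)⟩⟩

theorem order_shift : orderOf (permElt shift) = 23 := by
  rw [← permHom_apply, orderOf_injective _ permHom_injective, ← Subgroup.orderOf_coe]
  have := Fact.mk (show Nat.Prime 23 by norm_num)
  exact orderOf_eq_prime (by decide +kernel) (by decide +kernel)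

theorem order_dbl11 : orderOf (permElt dbl11) = 11 := by
  rw [← permHom_apply, orderOf_injective _ permHom_injective, ← Subgroup.orderOf_coe]
  have := Fact.mk (show Nat.Prime 11 by norm_num)
  exact orderOf_eq_prime (by decide +kernel) (by decide +kernel)

theorem shift_mem : permElt shift ∈ M23c none := mem_M23c.2 ⟨shift, rfl, rfl⟩

theorem dbl11_mem : permElt dbl11 ∈ M22c none (some 0) := mem_M22c.2 ⟨dbl11, rfl, by decide, rfl⟩

theorem inv_smul_fixed {σ g : Co0} (h : g * σ * g⁻¹ ∈ Subgroup.zpowers σ) {x : Λ}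
    (hx : σ • x = x) : σ • g⁻¹ • x = g⁻¹ • x := by
  have h1 : g * σ * g⁻¹ ∈ stabilizer Co0 x := (Subgroup.zpowers_le.2 hx) h
  rw [mem_stabilizer_iff, mul_smul, mul_smul] at h1
  rw [eq_inv_smul_iff, h1]

theorem fixed_shift {x : Λ} (hx : permElt shift • x = x) (i : GolayPt) :
    x.1 i = if i = none then x.1 none else x.1 (some 0) := by
  have h1 : ∀ t : ZMod 23, x.1 (some (t + 1)) = x.1 (some t) := by
    intro t
    conv_lhs => rw [← hx]
    exact permElt_apply' shift x (some t)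
  have h2 : ∀ n : ℕ, x.1 (some (n : ZMod 23)) = x.1 (some 0) := by
    intro n
    induction n with
    | zero => simp
    | succ n ih => rw [Nat.cast_succ, h1, ih]
  rcases i with _ | t
  · simp
  · simpa using h2 t.val

theorem norm_fixed_shift {x : Λ} (hx : permElt shift • x = x) :
    sqNorm x.1 = x.1 none ^ 2 + 23 * x.1 (some 0) ^ 2 := by
  rw [← sum_ite_pt none]
  refine Finset.sum_congr rfl fun i _ => ?_
  rw [fixed_shift hx i]; split_ifs <;> rfl

theorem eq_e8 {x : Λ} {p : GolayPt} (hn : sqNorm x.1 = 64) (hp : x.1 p = 8) : x = e8 p := by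
  have : sqNorm (x - e8 p).1 = 0 := by
    rw [AddSubgroup.coe_sub, sqNorm_sub, hn, norm_e8, dot_e8, hp]; norm_num
  exact sub_eq_zero.1 (Subtype.ext (sqNorm_eq_zero this))

theorem sqNorm_neg' (x : Λ) : sqNorm (-x).1 = sqNorm x.1 := by
  rw [← negElt_smul, norm_smul]

theorem fixed_shift_64 {x : Λ} (hx : permElt shift • x = x) (hn : sqNorm x.1 = 64) :
    x = e8 none ∨ x = -e8 none := by
  have h := norm_fixed_shift hx
  rw [hn] at h
  have a1 : x.1 none ≤ 8 := by nlinarith [sq_nonneg (x.1 (some 0))]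
  have a2 : -8 ≤ x.1 none := by nlinarith [sq_nonneg (x.1 (some 0))]
  have : x.1 none = 8 ∨ x.1 none = -8 := by
    generalize x.1 none = a at *
    generalize x.1 (some 0) ^ 2 = b at *
    interval_cases a <;> omega
  rcases this with h | h
  · exact Or.inl (eq_e8 hn h)
  · right
    rw [← neg_eq_iff_eq_neg]
    exact eq_e8 (by rw [sqNorm_neg', hn]) (by simp [h])

theorem shift_e8 : permElt shift • e8 none = e8 none := permElt_e8 _ _

theorem fix_e8_of_norm_shift {g : Co0}
    (h : g * permElt shift * g⁻¹ ∈ Subgroup.zpowers (permElt shift)) {v : Λ} (hv : g • v = v)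
    (h0 : v.1 none ≠ 0) : g • e8 none = e8 none := by
  rcases fixed_shift_64 (inv_smul_fixed h shift_e8) (by rw [norm_smul, norm_e8]) with e | e
  · exact (inv_smul_eq_iff.1 e).symm
  · have := dot_smul g⁻¹ v (e8 none)
    rw [e, inv_smul_eq_iff.2 hv.symm, AddSubgroup.coe_neg, dotInt_neg_right, dot_e8] at this
    omega

theorem simple_Co2s : IsSimpleGroup (stabilizer Co0 (w3 none)) := by
  have hc := card_Co2 (norm_w3 none)
  refine (SCrit.of_subgroup (p := 23) (by norm_num) (stab_e8_w3 none ▸ inf_le_right)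
    (simple_M23c none) shift_mem order_shift (by rw [hc]; norm_num) fun g hg h => ?_).simple_of_GL
    (n := 11) (a := 125) ?_ (by rw [hc]; norm_num) (by norm_num) (by decide +kernel)
  · rw [← stab_e8_w3]
    exact ⟨fix_e8_of_norm_shift h hg (by simp [w3_apply]), hg⟩
  · rw [hc]; exact hnum_of_check (by norm_num) (by decide +kernel)

theorem M23c_le_Co3 : M23c none ≤ stabilizer Co0 (v5 none) := by
  intro g hg
  obtain ⟨σ, h, rfl⟩ := mem_M23c.1 hg
  rw [mem_stabilizer_iff, permElt_v5, h]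

theorem simple_Co3s : IsSimpleGroup (stabilizer Co0 (v5 none)) := by
  have hc := card_Co3 (norm_v5 none)
  refine (SCrit.of_subgroup (p := 23) (by norm_num) M23c_le_Co3
    (simple_M23c none) shift_mem order_shift (by rw [hc]; norm_num) fun g hg h => ?_).simple_of_zero
    ?_
  · exact mem_M23c.2 (perm_of_fix_v5 (fix_e8_of_norm_shift h hg (by simp [v5_apply])) hg)
  · rw [hc]; exact hnum_of_check (by norm_num) (by decide +kernel)

theorem sum_fixed_dbl11 {x : Λ} (hx : permElt dbl11 • x = x) :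
    (11 : ℤ) ∣ ∑ i, x.1 i - x.1 none - x.1 (some 0) := by
  have h1 : ∀ t : ZMod 23, x.1 (some (2 * t)) = x.1 (some t) := by
    intro t
    conv_lhs => rw [← hx]
    exact permElt_apply' dbl11 x (some t)
  have h2 : ∀ (t : ZMod 23) (n : ℕ), x.1 (some (2 ^ n * t)) = x.1 (some t) := by
    intro t n
    induction n with
    | zero => simp
    | succ n ih => rw [pow_succ', mul_assoc, h1, ih]
  have h3 : (Finset.univ : Finset (ZMod 23)) = insert 0
      ((Finset.range 11).image (fun n => 2 ^ n * 1) ∪ (Finset.range 11).image (fun n => 2 ^ n * 5)) := by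
    decide +kernel
  rw [Fintype.sum_option, h3, Finset.sum_insert (by decide +kernel),
    Finset.sum_union (by decide +kernel), Finset.sum_image (by decide +kernel),
    Finset.sum_image (by decide +kernel)]
  simp only [h2, Finset.sum_const, Finset.card_range, nsmul_eq_mul]
  omega

theorem fix_e8_of_norm_dbl11 {g : Co0}
    (h : g * permElt dbl11 * g⁻¹ ∈ Subgroup.zpowers (permElt dbl11)) (hv : g • v5 none = v5 none)
    {s : ℤ} (hs : s = 1 ∨ s = -1) {hs' : (2 : ℤ) ∣ 1 + s}
    (hu : g • v2 none (some 0) 1 s hs' = v2 none (some 0) 1 s hs') : g ∈ M22c none (some 0) := by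
  have h0 : permElt dbl11 • e8 none = e8 none := permElt_e8 _ _
  have h1 := sum_fixed_dbl11 (inv_smul_fixed h h0)
  have h2 := dot_smul g⁻¹ (e8 none) (v5 none)
  have h3 := dot_smul g⁻¹ (e8 none) (v2 none (some 0) 1 s hs')
  have h4 : sqNorm (g⁻¹ • e8 none : Λ).1 = 64 := by rw [norm_smul, norm_e8]
  rw [inv_smul_eq_iff.2 hv.symm, dot_v5, dotInt_comm, dot_e8, v5_apply, if_pos rfl] at h2
  rw [inv_smul_eq_iff.2 hu.symm, dot_v2, dot_v2, e8_apply, e8_apply, if_pos rfl,
    if_neg (by simp)] at h3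
  have a := sq_le_sqNorm (g⁻¹ • e8 none : Λ).1 none
  have b := sq_le_sqNorm (g⁻¹ • e8 none : Λ).1 (some 0)
  rw [h4] at a b
  have a1 : (g⁻¹ • e8 none : Λ).1 none ≤ 8 := by nlinarith
  have a2 : -8 ≤ (g⁻¹ • e8 none : Λ).1 none := by nlinarith
  have b1 : (g⁻¹ • e8 none : Λ).1 (some 0) ≤ 8 := by nlinarith
  have b2 : -8 ≤ (g⁻¹ • e8 none : Λ).1 (some 0) := by nlinarith
  have h5 : g⁻¹ • e8 none = e8 none := eq_e8 h4 (by rcases hs with rfl | rfl <;> omega)
  obtain ⟨σ, s1, rfl⟩ := perm_of_fix_v5 (inv_smul_eq_iff.1 h5).symm hv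
  refine mem_M22c.2 ⟨σ, s1, ?_, rfl⟩
  rw [permElt_v2, s1] at hu
  by_contra hne
  have := congrArg (fun v : Λ => v.1 (some 0)) hu
  simp only [v2_apply, reduceCtorEq, if_false, Ne.symm hne, if_true] at this
  omega

theorem M22c_le (s : ℤ) (hs' : (2 : ℤ) ∣ 1 + s) : M22c none (some 0) ≤
    stabilizer Co0 (v5 none) ⊓ stabilizer Co0 (v2 none (some 0) 1 s hs') := by
  intro g hg
  obtain ⟨σ, h1, h2, rfl⟩ := mem_M22c.1 hg
  rw [Subgroup.mem_inf, mem_stabilizer_iff, mem_stabilizer_iff, permElt_v5, permElt_v2, h1, h2]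
  exact ⟨rfl, rfl⟩

theorem simple_McLs : IsSimpleGroup McLs := by
  have hc := card_McLs
  refine (SCrit.of_subgroup (K := McLs) (p := 11) (by norm_num) (M22c_le 1 (by norm_num))
    (simple_M22c (by simp)) dbl11_mem order_dbl11 (by rw [hc]; norm_num)
    fun g hg h => ?_).simple_of_prime (m := 243) (q := 7) ?_ (by norm_num) (by rw [hc]; norm_num)
    (by norm_num) ?_
  · exact fix_e8_of_norm_dbl11 h hg.1 (Or.inl rfl) hg.2
  · rw [hc]; exact hnum_of_check (by norm_num) (by decide +kernel)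
  · intro d hd
    have := Nat.le_of_dvd (by norm_num) hd
    revert hd
    unfold Nat.ModEq
    revert d
    decide +kernel

theorem simple_HSs : IsSimpleGroup HSs := by
  have hc := card_HSs
  refine (SCrit.of_subgroup (K := HSs) (p := 11) (by norm_num) (M22c_le (-1) (by norm_num))
    (simple_M22c (by simp)) dbl11_mem order_dbl11 (by rw [hc]; norm_num)
    fun g hg h => ?_).simple_of_zero ?_
  · exact fix_e8_of_norm_dbl11 h hg.1 (Or.inr rfl) hg.2
  · rw [hc]; exact hnum_of_check (by norm_num) (by decide +kernel)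

/-- conjugate stabilisers -/
def stabEquiv (g : Co0) (v : Λ) : stabilizer Co0 v ≃* stabilizer Co0 (g • v) :=
  H2.conjEquiv g fun x => by rw [mem_stabilizer_iff, mem_stabilizer_iff, H2.conj_smul_eq_iff]

/-- conjugate joint stabilisers -/
def stab2Equiv (g : Co0) (v w : Λ) : ↥(stabilizer Co0 v ⊓ stabilizer Co0 w) ≃*
    ↥(stabilizer Co0 (g • v) ⊓ stabilizer Co0 (g • w)) :=
  H2.conjEquiv g fun x => by
    simp only [Subgroup.mem_inf, mem_stabilizer_iff, H2.conj_smul_eq_iff]

theorem isCo2 (v : Λ) (hv : sqNorm v.1 = 32) : IsCo2 (stabilizer Co0 v) := by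
  obtain ⟨g, hg⟩ := trans4' hv (norm_w3 none)
  have : IsSimpleGroup (stabilizer Co0 (g • v)) := hg ▸ simple_Co2s
  exact ⟨(stabEquiv g v).isSimpleGroup, card_Co2 hv⟩

theorem isCo3 (v : Λ) (hv : sqNorm v.1 = 48) : IsCo3 (stabilizer Co0 v) := by
  obtain ⟨g, hg⟩ := trans6 hv none
  have : IsSimpleGroup (stabilizer Co0 (g • v)) := hg ▸ simple_Co3s
  exact ⟨(stabEquiv g v).isSimpleGroup, card_Co3 hv⟩

theorem stab_inf_add (v w : Λ) :
    stabilizer Co0 (v + w) ⊓ stabilizer Co0 v = stabilizer Co0 v ⊓ stabilizer Co0 w := by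
  ext g
  simp only [Subgroup.mem_inf, mem_stabilizer_iff, smul_add]
  constructor
  · rintro ⟨h1, h2⟩; rw [h2] at h1; exact ⟨h2, add_left_cancel h1⟩
  · rintro ⟨h1, h2⟩; rw [h1, h2]; exact ⟨rfl, rfl⟩

theorem McL_equiv {v w : Λ} (hv : sqNorm v.1 = 32) (hw : sqNorm w.1 = 32)
    (hvw : dotInt v.1 w.1 = -8) : Nonempty (↥(stabilizer Co0 v ⊓ stabilizer Co0 w) ≃* McLs) := by
  obtain ⟨g, h1, h2⟩ := trans_ip3 (p := none) (q := some 0) (by simp) hv (v := v + w)
    (by rw [AddSubgroup.coe_add, sqNorm_add]; omega)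
    (by rw [AddSubgroup.coe_add, dotInt_add_right, dotInt_self]; omega)
  rw [← stab_inf_add, McLs, ← h1, ← h2]
  exact ⟨stab2Equiv g _ _⟩

theorem isMcL (v w : Λ) (hv : sqNorm v.1 = 32) (hw : sqNorm w.1 = 32)
    (hvw : dotInt v.1 w.1 = -8) : IsMcL ↥(stabilizer Co0 v ⊓ stabilizer Co0 w) := by
  obtain ⟨e⟩ := McL_equiv hv hw hvw
  have := simple_McLs
  exact ⟨e.isSimpleGroup, (Nat.card_congr e.toEquiv).trans card_McLs⟩

theorem HS_equiv {v w : Λ} (hv : sqNorm v.1 = 48) (hw : sqNorm w.1 = 48)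
    (hvw : dotInt v.1 w.1 = -32) : Nonempty (↥(stabilizer Co0 v ⊓ stabilizer Co0 w) ≃* HSs) := by
  obtain ⟨g, h1, h2⟩ := trans_HS (p := none) (q := some 0) hv (u := v + w)
    (by rw [AddSubgroup.coe_add, sqNorm_add]; omega)
    (by rw [AddSubgroup.coe_add, dotInt_add_left, dotInt_self, dotInt_comm]; omega) (by simp)
  rw [← stab_inf_add, inf_comm, HSs, ← h1, ← h2]
  exact ⟨stab2Equiv g _ _⟩

theorem isHS (v w : Λ) (hv : sqNorm v.1 = 48) (hw : sqNorm w.1 = 48)
    (hvw : dotInt v.1 w.1 = -32) : IsHS ↥(stabilizer Co0 v ⊓ stabilizer Co0 w) := by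
  obtain ⟨e⟩ := HS_equiv hv hw hvw
  have := simple_HSs
  exact ⟨e.isSimpleGroup, (Nat.card_congr e.toEquiv).trans card_HSs⟩

/-! ### The centre and `Co1` -/

theorem fixed_shift_32 {x : Λ} (hx : permElt shift • x = x) (hn : sqNorm x.1 = 32) :
    x = w3 none ∨ x = -w3 none := by
  have h := norm_fixed_shift hx
  rw [hn] at h
  have a1 : x.1 none < 6 := by nlinarith [sq_nonneg (x.1 (some 0))]
  have a2 : -6 < x.1 none := by nlinarith [sq_nonneg (x.1 (some 0))]
  have h1 : (x.1 none = 3 ∨ x.1 none = -3) ∧ x.1 (some 0) ^ 2 = 1 := by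
    generalize x.1 none = a at *
    generalize x.1 (some 0) ^ 2 = b at *
    interval_cases a <;> omega
  have h2 := (isL_coe x).eight_dvd_dot (isL_coe (v5 none))
  rw [dot_v5, Finset.sum_congr rfl fun i _ => fixed_shift hx i, sum_ite_pt] at h2
  have h3 := eq_or_of_sq_one h1.2
  have : (x.1 none = -3 ∧ x.1 (some 0) = 1) ∨ (x.1 none = 3 ∧ x.1 (some 0) = -1) := by omega
  rcases this with h | h
  · left; refine Λ_ext fun i => ?_
    rw [fixed_shift hx i, w3_apply, h.1, h.2]
  · right; refine Λ_ext fun i => ?_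
    rw [fixed_shift hx i, AddSubgroup.coe_neg, Pi.neg_apply, w3_apply, h.1, h.2]
    split_ifs <;> rfl

theorem norm_shift_cases {g : Co0}
    (h : g * permElt shift * g⁻¹ ∈ Subgroup.zpowers (permElt shift)) :
    g ∈ M23c none ∨ negElt * g ∈ M23c none := by
  have h0 : permElt shift • w3 none = w3 none := permElt_w3 _ _
  rw [← stab_e8_w3]
  rcases fixed_shift_32 (inv_smul_fixed h h0) (by rw [norm_smul, norm_w3]) with e | e
  · have e' := (inv_smul_eq_iff.1 e).symm
    exact Or.inl ⟨fix_e8_of_norm_shift h e' (by simp [w3_apply]), e'⟩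
  · have e' : (negElt * g) • w3 none = w3 none := by
      rw [mul_smul, negElt_smul, ← smul_neg, ← e, smul_inv_smul]
    refine Or.inr ⟨fix_e8_of_norm_shift ?_ e' (by simp [w3_apply]), e'⟩
    have : negElt * g * permElt shift * (negElt * g)⁻¹ = g * permElt shift * g⁻¹ := by
      rw [mul_inv_rev, ← mul_assoc, mul_assoc negElt, mul_assoc negElt, ← negElt_comm]; group
    rwa [this]

theorem negElt_ne_one : negElt ≠ 1 := by
  intro h
  have := negElt_smul (e8 none)
  rw [h, one_smul] at this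
  exact e8_ne_neg _ _ this

theorem mem_center_Co0 {z : Co0} : z ∈ Subgroup.center Co0 ↔ z = 1 ∨ z = negElt := by
  constructor
  · intro hz
    have key : ∀ z : Co0, z ∈ Subgroup.center Co0 → z ∈ M23c none → z = 1 := by
      intro z hz hM
      obtain ⟨σ, s1, rfl⟩ := mem_M23c.1 hM
      apply eq_one_of_e8
      intro p
      obtain ⟨τ, rfl⟩ := exists_M24_one none p
      rw [← permElt_e8, ← mul_smul, ← Subgroup.mem_center_iff.1 hz, mul_smul, permElt_e8 σ, s1]
    rcases norm_shift_cases (g := z) (by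
      rw [← Subgroup.mem_center_iff.1 hz, mul_inv_cancel_right]; exact Subgroup.mem_zpowers _)
      with h | h
    · exact Or.inl (key z hz h)
    · right
      have := key _ (Subgroup.mul_mem _ (Subgroup.mem_center_iff.2 negElt_comm) hz) h
      rw [← mul_one negElt, ← this, ← mul_assoc, negElt_mul_self, one_mul]
  · rintro (rfl | rfl)
    · exact Subgroup.one_mem _
    · exact Subgroup.mem_center_iff.2 negElt_comm

theorem card_center_Co0 : Nat.card (Subgroup.center Co0) = 2 := by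
  have : (Subgroup.center Co0 : Set Co0) = {1, negElt} := by
    ext z; exact mem_center_Co0
  rw [← SetLike.coe_sort_coe, this, Nat.card_coe_set_eq, Set.ncard_pair negElt_ne_one.symm]

theorem card_Co1 : Nat.card (Co0 ⧸ Subgroup.center Co0) = 4157776806543360000 := by
  have := Subgroup.card_eq_card_quotient_mul_card_subgroup (Subgroup.center Co0)
  rw [card_Co0, card_center_Co0] at this
  omega

theorem simple_Co1 : IsSimpleGroup (Co0 ⧸ Subgroup.center Co0) := by
  have hc := card_Co1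
  let π := QuotientGroup.mk' (Subgroup.center Co0)
  let φ := π.comp (M23c none).subtype
  have hφ : Function.Injective φ := by
    rw [injective_iff_map_eq_one]
    intro g hg
    rcases mem_center_Co0.1 ((QuotientGroup.eq_one_iff _).1 hg) with h | h
    · exact Subtype.ext h
    · have h2 := mem_stabilizer_iff.1 ((stab_e8_w3 none).ge g.2).1
      rw [show g.1 = negElt from h, negElt_smul] at h2
      exact absurd h2.symm (e8_ne_neg _ _)
  have hs : IsSimpleGroup φ.range := by
    have := simple_M23c none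
    exact (MonoidHom.ofInjective hφ).symm.isSimpleGroup
  have hneg : π negElt = 1 := (QuotientGroup.eq_one_iff _).2 (mem_center_Co0.2 (Or.inr rfl))
  have h : SCrit (Co0 ⧸ Subgroup.center Co0) 23 φ.range (π (permElt shift)) := by
    refine ⟨by norm_num, hs, ⟨⟨_, shift_mem⟩, rfl⟩, ?_, by rw [hc]; norm_num, fun g hg => ?_⟩
    · rw [show π (permElt shift) = φ ⟨_, shift_mem⟩ from rfl, orderOf_injective φ hφ,
        ← Subgroup.orderOf_coe, order_shift]
    · obtain ⟨g, rfl⟩ := QuotientGroup.mk'_surjective _ g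
      obtain ⟨k, hk⟩ := Subgroup.mem_zpowers_iff.1 hg
      have h1 : (permElt shift ^ k)⁻¹ * (g * permElt shift * g⁻¹) ∈ Subgroup.center Co0 := by
        rw [← QuotientGroup.eq]
        exact (map_zpow π _ _).trans hk
      have h2 : g * permElt shift * g⁻¹ ∈ Subgroup.zpowers (permElt shift) := by
        rcases mem_center_Co0.1 h1 with e | e
        · exact Subgroup.mem_zpowers_iff.2 ⟨k, inv_mul_eq_one.1 e⟩
        · exfalso
          have e1 : g * permElt shift * g⁻¹ = permElt shift ^ k * negElt := by rw [← e]; group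
          have e2 : (g * permElt shift * g⁻¹) ^ 23 = 1 := by
            rw [conj_pow, ← order_shift, pow_orderOf_eq_one]; group
          have e3 : (permElt shift ^ k) ^ 23 = 1 := by
            rw [← zpow_natCast, ← zpow_mul, mul_comm, zpow_mul, zpow_natCast, ← order_shift,
              pow_orderOf_eq_one, one_zpow]
          rw [e1, Commute.mul_pow (negElt_comm _), e3, one_mul,
            show 23 = 2 * 11 + 1 from rfl, pow_succ, pow_mul, sq, negElt_mul_self, one_pow,
            one_mul] at e2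
          exact negElt_ne_one e2
      rcases norm_shift_cases h2 with e | e
      · exact ⟨⟨g, e⟩, rfl⟩
      · exact ⟨⟨_, e⟩, by change π (negElt * g) = π g; rw [map_mul, hneg, one_mul]⟩
  refine h.simple_of_prime (m := 2048) (q := 13) ?_ (by norm_num) (by rw [hc]; norm_num)
    (by norm_num) ?_
  · rw [hc]; exact hnum_of_check (by norm_num) (by decide +kernel)
  · intro d hd
    have := Nat.le_of_dvd (by norm_num) hd
    revert hd
    unfold Nat.ModEq
    revert d
    decide +kernel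

end H3
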