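import Cfsg.Agent.H3.Co0

set_option autoImplicit false

namespace H3
open Cfsg MulAction

theorem sum_split (f : GolayPt → ℤ) (p : GolayPt) :
    ∑ i, f i = f p + ∑ i ∈ Finset.univ.erase p, f i :=
  (Finset.add_sum_erase _ _ (Finset.mem_univ p)).symm

theorem card_erase_pt (p : GolayPt) : (Finset.univ.erase p).card = 23 := by
  rw [Finset.card_erase_of_mem (Finset.mem_univ p), Finset.card_univ, card_golayPt]

theorem sq_eq_one_of_odd_rest {x : GolayPt → ℤ} {p : GolayPt} (hx : ∀ i, x i % 2 = 1)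
    (hn : sqNorm x = x p ^ 2 + 23) {i : GolayPt} (hi : i ≠ p) : x i ^ 2 = 1 := by
  have h1 : ∑ i ∈ Finset.univ.erase p, (1 : ℤ) = ∑ i ∈ Finset.univ.erase p, x i ^ 2 := by
    rw [sqNorm, sum_split _ p] at hn
    rw [Finset.sum_const, card_erase_pt]
    simp only [nsmul_eq_mul]; omega
  exact ((Finset.sum_eq_sum_iff_of_le fun i _ => one_le_sq_of_odd (hx i)).1 h1 i (by simp [hi])).symm

theorem sum_sq_eq_one {α : Type*} [DecidableEq α] {s : Finset α} {z : α → ℤ}
    (h : ∑ i ∈ s, z i ^ 2 = 1) : ∃ j ∈ s, z j ^ 2 = 1 ∧ ∀ i ∈ s, i ≠ j → z i = 0 := by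
  obtain ⟨j, hj, hz⟩ : ∃ j ∈ s, z j ≠ 0 := by
    by_contra hn
    push Not at hn
    rw [Finset.sum_eq_zero (fun i hi => by rw [hn i hi]; rfl)] at h
    omega
  rw [← Finset.add_sum_erase _ _ hj] at h
  have h1 : 0 ≤ ∑ i ∈ s.erase j, z i ^ 2 := Finset.sum_nonneg fun _ _ => sq_nonneg _
  have h2 := sq_pos_of_ne_zero hz
  refine ⟨j, hj, by omega, fun i hi hij => ?_⟩
  have := (Finset.sum_eq_zero_iff_of_nonneg (fun _ _ => sq_nonneg _)).1
    (show ∑ i ∈ s.erase j, z i ^ 2 = 0 by omega) i (by simp [hi, hij])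
  simpa using this

theorem eq_or_of_sq_one {a : ℤ} (h : a ^ 2 = 1) : a = 1 ∨ a = -1 := by
  have : (a - 1) * (a + 1) = 0 := by linarith
  rcases mul_eq_zero.1 this with h | h <;> omega

/-- minimal vectors with a coordinate `4` -/
theorem shape_four {x : Λ} {p : GolayPt} (hn : sqNorm x.1 = 32) (hp : x.1 p = 4) :
    ∃ j, j ≠ p ∧ (x = v2 p j 1 1 (by norm_num) ∨ x = v2 p j 1 (-1) (by norm_num)) := by
  rcases (isL_coe x).cases with ⟨y, h1, -, h3⟩ | ⟨y, h1, -, -⟩
  swap
  · have := h1 p; omega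
  have e : x.1 = fun i => 2 * y i := funext h1
  rw [e, sqNorm_two_mul, sqNorm, sum_split _ p] at hn
  have hyp : y p = 2 := by have := h1 p; omega
  have h5 := card_oddSet_le_sumsq (Function.update y p 0)
  have h6 : oddSet (Function.update y p 0) = oddSet y := by
    ext i; by_cases hi : i = p <;> simp [mem_oddSet, hi, hyp]
  have h7 : ∑ i ∈ Finset.univ.erase p, Function.update y p 0 i ^ 2 =
      ∑ i ∈ Finset.univ.erase p, y i ^ 2 :=
    Finset.sum_congr rfl fun i hi => by rw [Function.update_of_ne (Finset.ne_of_mem_erase hi)]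
  rw [h6, sum_split _ p, h7, Function.update_self] at h5
  rw [hyp] at hn
  have h8 : (oddSet y).card = 0 := by rcases GC_card h3 with h | h | h | h | h <;> omega
  have h9 : ∀ i, y i = 2 * (y i / 2) := by
    intro i
    have : i ∉ oddSet y := by rw [Finset.card_eq_zero.1 h8]; simp
    rw [mem_oddSet] at this; omega
  have h10 : ∑ i ∈ Finset.univ.erase p, y i ^ 2 = 4 * ∑ i ∈ Finset.univ.erase p, (y i / 2) ^ 2 := by
    rw [Finset.mul_sum]; exact Finset.sum_congr rfl fun i _ => by rw [h9 i]; ring_nf; simp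
  obtain ⟨j, hj, h11, h12⟩ := sum_sq_eq_one (s := Finset.univ.erase p) (z := fun i => y i / 2)
    (by omega)
  have hjp := Finset.ne_of_mem_erase hj
  refine ⟨j, hjp, ?_⟩
  rcases eq_or_of_sq_one h11 with h | h
  · left
    refine Λ_ext fun i => ?_
    rw [v2_apply]
    have := h1 i; have := h9 i
    split_ifs with a b b
    · exact absurd (b.symm.trans a) hjp
    · rw [a]; omega
    · subst b; omega
    · have := h12 i (by simp [a]) b; omega
  · right
    refine Λ_ext fun i => ?_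
    rw [v2_apply]
    have := h1 i; have := h9 i
    split_ifs with a b b
    · exact absurd (b.symm.trans a) hjp
    · rw [a]; omega
    · subst b; omega
    · have := h12 i (by simp [a]) b; omega

theorem signElt_e8 {c : Finset GolayPt} (hc : c ∈ GC) {p : GolayPt} (hp : p ∉ c) :
    signElt c hc • e8 p = e8 p := Λ_ext fun i => by
  rw [signElt_apply, e8_apply]
  split_ifs with h1 h2 <;> simp_all

theorem permElt_v2 (σ : M24) (p q : GolayPt) (a b : ℤ) (h : (2 : ℤ) ∣ a + b) :
    permElt σ • v2 p q a b h = v2 (σ.1 p) (σ.1 q) a b h :=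
  Λ_ext fun i => by
    rw [permElt_apply, v2_apply, v2_apply]
    simp [Equiv.symm_apply_eq]

theorem coord_of_dot {g : Co0} {f x : Λ} {p : GolayPt} (hg : g • f = e8 p) :
    8 * (g • x : Λ).1 p = dotInt x.1 f.1 := by
  rw [← dot_e8, ← hg, dot_smul]

/-- a minimal vector with coordinate `-3` is a sign change of `w3` -/
theorem shape_three {x : Λ} {p : GolayPt} (hn : sqNorm x.1 = 32) (hp : x.1 p = -3) :
    ∃ c, ∃ hc : c ∈ GC, p ∉ c ∧ signElt c hc • x = w3 p := by
  have hodd : ∀ i, x.1 i % 2 = 1 := fun i => by have := (isL_coe x).parity p i; omega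
  refine ⟨_, (isL_coe x).three_mem, by simp [hp], Λ_ext fun i => ?_⟩
  rw [signElt_apply, w3_apply]
  simp only [Finset.mem_filter, Finset.mem_univ, true_and]
  by_cases hi : i = p
  · simp [hi, hp]
  · have := eq_or_of_sq_one (sq_eq_one_of_odd_rest hodd (p := p) (by rw [hn, hp]; norm_num) hi)
    rw [if_neg hi]
    split_ifs <;> omega

theorem nf_odd {f x : Λ} (hf : sqNorm f.1 = 64) (hx : sqNorm x.1 = 32) (hd : dotInt x.1 f.1 = -24)
    (p : GolayPt) : ∃ g : Co0, g • f = e8 p ∧ g • x = w3 p := by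
  obtain ⟨g, hg⟩ := trans8 f hf p
  have := coord_of_dot (x := x) hg
  obtain ⟨c, hc, hp, h⟩ := shape_three (x := g • x) (p := p) (by rw [norm_smul, hx]) (by omega)
  exact ⟨signElt c hc * g, by rw [mul_smul, hg, signElt_e8 hc hp], by rw [mul_smul, h]⟩

theorem nf_odd2 {f x a : Λ} (hf : sqNorm f.1 = 64) (hx : sqNorm x.1 = 32)
    (hd : dotInt x.1 f.1 = -24) (ha : sqNorm a.1 = 32) (haf : dotInt a.1 f.1 = 32)
    {p q : GolayPt} (hpq : p ≠ q) : ∃ g : Co0, g • f = e8 p ∧ g • x = w3 p ∧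
      (dotInt x.1 a.1 = -8 → g • a = v2 p q 1 1 (by norm_num)) ∧
      (dotInt x.1 a.1 = -16 → g • a = v2 p q 1 (-1) (by norm_num)) := by
  obtain ⟨g, h1, h2⟩ := nf_odd hf hx hd p
  have := coord_of_dot (x := a) h1
  obtain ⟨j, hj, h⟩ := shape_four (x := g • a) (p := p) (by rw [norm_smul, ha]) (by omega)
  obtain ⟨σ, s1, s2⟩ := exists_M24_two hj.symm hpq
  have h3 := dot_smul g x a
  refine ⟨permElt σ * g, by rw [mul_smul, h1, permElt_e8, s1],
    by rw [mul_smul, h2, permElt_w3, s1], fun h4 => ?_, fun h4 => ?_⟩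
  · rcases h with h | h
    · rw [mul_smul, h, permElt_v2, s1, s2]
    · rw [h2, h, dot_v2, w3_apply, w3_apply, if_pos rfl, if_neg hj] at h3; omega
  · rcases h with h | h
    · rw [h2, h, dot_v2, w3_apply, w3_apply, if_pos rfl, if_neg hj] at h3; omega
    · rw [mul_smul, h, permElt_v2, s1, s2]

theorem exists_sep {p q : GolayPt} (hpq : p ≠ q) : ∃ c ∈ GC, p ∉ c ∧ q ∈ c := by
  obtain ⟨σ, s1, s2⟩ := exists_M24_two (a := none) (b := some 0) (by simp) hpq
  have h0 : support₂ (qrWord 0) ∈ GC :=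
    support_mem_GC.2 (Submodule.subset_span (Set.mem_union_left _ ⟨0, rfl⟩))
  refine ⟨_, M24_image_mem σ.2 h0, ?_, ?_⟩
  · rw [← s1]; simp only [Finset.mem_image, EmbeddingLike.apply_eq_iff_eq, exists_eq_right]
    decide
  · rw [← s2]; simp only [Finset.mem_image, EmbeddingLike.apply_eq_iff_eq, exists_eq_right]
    decide

theorem e8_sub_v2 (p q : GolayPt) :
    e8 p - v2 p q 1 1 (by norm_num) = v2 p q 1 (-1) (by norm_num) := Λ_ext fun i => by
  simp only [AddSubgroup.coe_sub, Pi.sub_apply, e8_apply, v2_apply]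
  split_ifs <;> norm_num

/-- transitivity on orthogonal pairs of minimal vectors -/
theorem trans_orth {u t : Λ} (hu : sqNorm u.1 = 32) (ht : sqNorm t.1 = 32)
    (hd : dotInt u.1 t.1 = 0) {p q : GolayPt} (hpq : p ≠ q) :
    ∃ g : Co0, g • u = v2 p q 1 1 (by norm_num) ∧ g • t = v2 p q 1 (-1) (by norm_num) := by
  obtain ⟨g, hg⟩ := trans8 (u + t) (by rw [AddSubgroup.coe_add, sqNorm_add]; omega) p
  have := coord_of_dot (x := u) hg
  rw [AddSubgroup.coe_add, dotInt_add_right, dotInt_self] at this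
  obtain ⟨j, hj, h⟩ := shape_four (x := g • u) (p := p) (by rw [norm_smul, hu]) (by omega)
  obtain ⟨σ, s1, s2⟩ := exists_M24_two hj.symm hpq
  have key : ∀ k : Co0, k • (u + t) = e8 p → k • u = v2 p q 1 1 (by norm_num) →
      k • u = v2 p q 1 1 (by norm_num) ∧ k • t = v2 p q 1 (-1) (by norm_num) := by
    intro k h1 h2
    refine ⟨h2, ?_⟩
    rw [← e8_sub_v2, ← h1, ← h2, smul_add]; abel
  rcases h with h | h
  · exact ⟨permElt σ * g, key _ (by rw [mul_smul, hg, permElt_e8, s1])
      (by rw [mul_smul, h, permElt_v2, s1, s2])⟩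
  · obtain ⟨c, hc, c1, c2⟩ := exists_sep hj.symm
    have : signElt c hc • v2 p j 1 (-1) (by norm_num) = v2 p j 1 1 (by norm_num) :=
      Λ_ext fun i => by
        rw [signElt_apply, v2_apply, v2_apply]
        by_cases a : i = p <;> by_cases b : i = j <;> simp_all
    exact ⟨permElt σ * signElt c hc * g,
      key _ (by rw [mul_smul, mul_smul, hg, signElt_e8 hc c1, permElt_e8, s1])
      (by rw [mul_smul, mul_smul, h, this, permElt_v2, s1, s2])⟩

/-- transitivity on minimal vectors -/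
theorem trans4 {u : Λ} (hu : sqNorm u.1 = 32) {p q : GolayPt} (hpq : p ≠ q) :
    ∃ g : Co0, g • u = v2 p q 1 1 (by norm_num) := by
  obtain ⟨i, -, j, -, hij, h⟩ := Finset.exists_ne_map_eq_of_card_lt_of_maps_to
    (s := (Finset.univ : Finset GolayPt)) (t := Finset.range 6) (f := fun i => (u.1 i).natAbs)
    (by rw [Finset.card_univ, card_golayPt]; simp) (fun i _ => by
      have := sq_le_sqNorm u.1 i
      simp only [Finset.coe_range, Set.mem_Iio]
      have h1 : -6 < u.1 i := by nlinarith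
      have h2 : u.1 i < 6 := by nlinarith
      omega)
  rcases Int.natAbs_eq_natAbs_iff.1 h with h | h
  · obtain ⟨g, hg, -⟩ := trans_orth (t := v2 i j 1 (-1) (by norm_num)) hu
      (by rw [norm_v2 hij]; norm_num) (by rw [dot_v2]; omega) hpq
    exact ⟨g, hg⟩
  · obtain ⟨g, hg, -⟩ := trans_orth (t := v2 i j 1 1 (by norm_num)) hu
      (by rw [norm_v2 hij]; norm_num) (by rw [dot_v2]; omega) hpq
    exact ⟨g, hg⟩

/-- the vector `(5, 1^23)` -/
def v5 (p : GolayPt) : Λ := e8 p + w3 p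

theorem v5_apply (p i : GolayPt) : (v5 p).1 i = if i = p then 5 else 1 := by
  simp only [v5, AddSubgroup.coe_add, Pi.add_apply, e8_apply, w3_apply]
  split_ifs <;> norm_num

theorem dot_v5 (x : GolayPt → ℤ) (p : GolayPt) : dotInt x (v5 p).1 = 4 * x p + ∑ i, x i := by
  have := dotInt_single x p 4
  unfold dotInt at *
  rw [mul_comm 4, ← this, ← Finset.sum_add_distrib]
  apply Finset.sum_congr rfl
  intro i _
  rw [v5_apply, Pi.single_apply]
  split_ifs <;> ring

theorem sum_ite_pt (p : GolayPt) (a b : ℤ) : ∑ i, (if i = p then a else b) = a + 23 * b := by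
  rw [sum_split _ p, if_pos rfl, Finset.sum_congr rfl (g := fun _ => b), Finset.sum_const,
    card_erase_pt]
  · simp
  · intro i hi; rw [if_neg (Finset.ne_of_mem_erase hi)]

theorem norm_v5 (p : GolayPt) : sqNorm (v5 p).1 = 48 := by
  rw [← dotInt_self, dot_v5]
  simp only [v5_apply, sum_ite_pt, if_true]; norm_num

theorem norm_w3 (p : GolayPt) : sqNorm (w3 p).1 = 32 := by
  have : ∀ i, (w3 p).1 i ^ 2 = if i = p then 9 else 1 := fun i => by
    rw [w3_apply]; split_ifs <;> norm_num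
  simp only [sqNorm, this, sum_ite_pt]; norm_num

theorem nf6 {v x : Λ} (hv : sqNorm v.1 = 48) (hx : sqNorm x.1 = 32) (hd : dotInt v.1 x.1 = 8)
    (p : GolayPt) : ∃ g : Co0, g • v = v5 p ∧ g • x = w3 p := by
  obtain ⟨g, h1, h2⟩ := nf_odd (f := v - x) (x := x)
    (by rw [AddSubgroup.coe_sub, sqNorm_sub]; omega) hx
    (by rw [AddSubgroup.coe_sub, dotInt_sub_right, dotInt_self, dotInt_comm]; omega) p
  exact ⟨g, by rw [v5, ← h1, ← h2, smul_sub]; abel, h2⟩

theorem exists_two_of_card {s : Finset GolayPt} (h : 2 ≤ s.card) :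
    ∃ i ∈ s, ∃ j ∈ s, i ≠ j := Finset.one_lt_card.1 h

/-- transitivity on vectors of norm 6 -/
theorem trans6 {v : Λ} (hv : sqNorm v.1 = 48) (p : GolayPt) : ∃ g : Co0, g • v = v5 p := by
  suffices h : ∃ i j, i ≠ j ∧ ∃ a b : ℤ, a ^ 2 = 1 ∧ b ^ 2 = 1 ∧ a * v.1 i + b * v.1 j = 2 by
    obtain ⟨i, j, hij, a, b, ha, hb, h⟩ := h
    have hab : (2 : ℤ) ∣ a + b := by
      rcases eq_or_of_sq_one ha with rfl | rfl <;> rcases eq_or_of_sq_one hb with rfl | rfl <;>
        norm_num
    obtain ⟨g, hg, -⟩ := nf6 (x := v2 i j a b hab) hv (by rw [norm_v2 hij, ha, hb]; norm_num)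
      (by rw [dot_v2]; linarith) p
    exact ⟨g, hg⟩
  rcases (isL_coe v).cases with ⟨y, h1, h2, h3⟩ | ⟨y, h1, h2, h3⟩
  · obtain ⟨i, hi⟩ : ∃ i, v.1 i = 0 := by
      by_contra hn
      push Not at hn
      have : ∑ _i : GolayPt, (4 : ℤ) ≤ sqNorm v.1 := Finset.sum_le_sum fun i _ => by
        have := h1 i; have := hn i
        have : v.1 i ≤ -2 ∨ 2 ≤ v.1 i := by omega
        rcases this with h | h <;> nlinarith
      rw [sum_const_golay] at this; omega
    obtain ⟨j, hj⟩ : ∃ j, v.1 j = 2 ∨ v.1 j = -2 := by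
      by_contra hn
      push Not at hn
      have e : v.1 = fun i => 2 * y i := funext h1
      rw [e, sqNorm_two_mul] at hv
      have h5 : 9 * ((oddSet y).card : ℤ) ≤ sqNorm y := by
        rw [← sum_ite_mem_const]
        refine Finset.sum_le_sum fun i _ => ?_
        split_ifs with h
        · rw [mem_oddSet] at h
          have := h1 i; have := hn i
          have : y i ≤ -3 ∨ 3 ≤ y i := by omega
          rcases this with h | h <;> nlinarith
        · positivity
      have h8 : (oddSet y).card = 0 := by rcases GC_card h3 with h | h | h | h | h <;> omega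
      have h9 : ∀ i, y i = 2 * (y i / 2) := by
        intro i
        have : i ∉ oddSet y := by rw [Finset.card_eq_zero.1 h8]; simp
        rw [mem_oddSet] at this; omega
      have h10 : sqNorm y = 4 * ∑ i, (y i / 2) ^ 2 := by
        rw [Finset.mul_sum]; exact Finset.sum_congr rfl fun i _ => by rw [h9 i]; ring_nf; simp
      have h11 : ∑ i, y i = 2 * ∑ i, (y i / 2) := by
        rw [Finset.mul_sum]; exact Finset.sum_congr rfl fun i _ => h9 i
      have := two_dvd_sumsq_sub_sum (fun i => y i / 2)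
      omega
    have hij : i ≠ j := by rintro rfl; omega
    rcases hj with hj | hj
    · exact ⟨i, j, hij, 1, 1, by norm_num, by norm_num, by omega⟩
    · exact ⟨i, j, hij, 1, -1, by norm_num, by norm_num, by omega⟩
  · obtain ⟨i, hi, j, hj, hij⟩ := exists_two_of_card
      (s := Finset.univ.filter fun i => v.1 i ^ 2 = 1) (by
        have h5 : ∑ i, (9 - if i ∈ Finset.univ.filter (fun i => v.1 i ^ 2 = 1) then (8 : ℤ) else 0)
            ≤ sqNorm v.1 := by
          refine Finset.sum_le_sum fun i _ => ?_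
          simp only [Finset.mem_filter, Finset.mem_univ, true_and]
          split_ifs with h
          · omega
          · have := h1 i
            have h6 : v.1 i ≠ 1 := fun e => h (by rw [e]; norm_num)
            have h7 : v.1 i ≠ -1 := fun e => h (by rw [e]; norm_num)
            have : v.1 i ≤ -3 ∨ 3 ≤ v.1 i := by omega
            rcases this with h | h <;> nlinarith
        rw [Finset.sum_sub_distrib, sum_const_golay, sum_ite_mem_const] at h5
        omega)
    simp only [Finset.mem_filter, Finset.mem_univ, true_and] at hi hj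
    exact ⟨i, j, hij, v.1 i, v.1 j, hi, hj, by linarith⟩

theorem dot_le_of_ne {s u : Λ} (hs : sqNorm s.1 = 32) (hu : sqNorm u.1 = 32) (h : s ≠ u) :
    dotInt s.1 u.1 ≤ 16 := by
  have := (isL_coe (s - u)).min_norm fun e => h (sub_eq_zero.1 (Subtype.ext e))
  rw [AddSubgroup.coe_sub, sqNorm_sub] at this
  omega

theorem nf_HS {v u t : Λ} (hv : sqNorm v.1 = 48) (hu : sqNorm u.1 = 32) (ht : sqNorm t.1 = 32)
    (h1 : dotInt u.1 v.1 = 16) (h2 : dotInt t.1 v.1 = 24) (h3 : dotInt t.1 u.1 = 16)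
    {p q : GolayPt} (hpq : p ≠ q) : ∃ g : Co0, g • v = v5 p ∧ g • u = v2 p q 1 (-1) (by norm_num) ∧
      g • (v - t) = v2 p q 1 1 (by norm_num) := by
  have c1 := dotInt_comm u.1 v.1
  have c2 := dotInt_comm t.1 v.1
  have c3 := dotInt_comm t.1 u.1
  obtain ⟨g, a1, a2, -, a3⟩ := nf_odd2 (f := v - (t - u)) (x := t - u) (a := u)
    (by simp only [AddSubgroup.coe_sub, sqNorm_sub, dotInt_sub_right]; omega)
    (by simp only [AddSubgroup.coe_sub, sqNorm_sub]; omega)
    (by simp only [AddSubgroup.coe_sub, dotInt_sub_right, dotInt_sub_left, ← dotInt_self] at *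
        omega) hu
    (by simp only [AddSubgroup.coe_sub, dotInt_sub_right, dotInt_self]; omega) hpq
  have a4 := a3 (by simp only [AddSubgroup.coe_sub, dotInt_sub_left, dotInt_self]; omega)
  refine ⟨g, by rw [v5, ← a1, ← a2, ← smul_add]; congr 1; abel, a4, ?_⟩
  have : v - t = (v - (t - u)) - u := by abel
  rw [this, smul_sub, a1, a4, ← e8_sub_v2]; abel

/-- transitivity on the pairs of Higman-Sims type -/
theorem trans_HS {v u : Λ} (hv : sqNorm v.1 = 48) (hu : sqNorm u.1 = 32)
    (hd : dotInt u.1 v.1 = 16) {p q : GolayPt} (hpq : p ≠ q) :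
    ∃ g : Co0, g • v = v5 p ∧ g • u = v2 p q 1 (-1) (by norm_num) := by
  obtain ⟨k, hk⟩ := trans6 hv p
  have hu' : sqNorm (k • u : Λ).1 = 32 := by rw [norm_smul, hu]
  have hd' : dotInt (k • u : Λ).1 (v5 p).1 = 16 := by rw [← hk, dot_smul, hd]
  suffices h : ∃ t : Λ, sqNorm t.1 = 32 ∧ dotInt t.1 (v5 p).1 = 24 ∧ dotInt t.1 (k • u : Λ).1 = 16 by
    obtain ⟨t, h1, h2, h3⟩ := h
    obtain ⟨g, a1, a2, -⟩ := nf_HS (norm_v5 p) hu' h1 hd' h2 h3 hpq
    exact ⟨g * k, by rw [mul_smul, hk, a1], by rw [mul_smul, a2]⟩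
  generalize k • u = x at hu' hd'
  by_contra hn
  push Not at hn
  have key : ∀ j, j ≠ p → x.1 j = 2 - x.1 p := by
    intro j hj
    have n1 : sqNorm (v2 p j 1 1 (by norm_num)).1 = 32 := by rw [norm_v2 hj.symm]; norm_num
    have d1 : dotInt (v2 p j 1 1 (by norm_num)).1 (v5 p).1 = 24 := by
      rw [dotInt_comm, dot_v2, v5_apply, v5_apply, if_pos rfl, if_neg hj]; norm_num
    have n2 : sqNorm (v5 p - v2 p j 1 1 (by norm_num)).1 = 32 := by
      rw [AddSubgroup.coe_sub, sqNorm_sub, norm_v5, n1, dotInt_comm, d1]; norm_num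
    have d2 : dotInt (v5 p - v2 p j 1 1 (by norm_num)).1 (v5 p).1 = 24 := by
      rw [AddSubgroup.coe_sub, dotInt_sub_left, dotInt_self, norm_v5, d1]; norm_num
    have e1 := hn _ n1 d1
    have e2 := hn _ n2 d2
    have e3 := dot_le_of_ne n1 hu' (by rintro rfl; omega)
    have e4 := dot_le_of_ne n2 hu' (by rintro rfl; omega)
    rw [AddSubgroup.coe_sub, dotInt_sub_left, dotInt_comm _ x.1, hd'] at e2 e4
    rw [dotInt_comm, dot_v2] at e1 e2 e3 e4
    have := (isL_coe x).parity p j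
    omega
  rw [dot_v5, Finset.sum_congr rfl (g := fun i => if i = p then x.1 p else 2 - x.1 p), sum_ite_pt]
    at hd'
  · omega
  · intro i _
    split_ifs with h
    · rw [h]
    · exact key i h

theorem exists_odd_shape {x : GolayPt → ℤ} (hx : ∀ i, x i % 2 = 1) (hn : sqNorm x = 32) :
    ∃ k, x k = 3 ∨ x k = -3 := by
  by_contra h
  push Not at h
  have h1 : ∀ i, x i ^ 2 = 1 ∨ 25 ≤ x i ^ 2 := fun i => by
    have := hx i; have := h i
    have : x i = 1 ∨ x i = -1 ∨ x i ≤ -5 ∨ 5 ≤ x i := by omega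
    rcases this with h | h | h | h
    · simp [h]
    · simp [h]
    · right; nlinarith
    · right; nlinarith
  by_cases h2 : ∀ i, x i ^ 2 = 1
  · simp only [sqNorm, h2, sum_const_golay] at hn; omega
  · push Not at h2
    obtain ⟨i, hi⟩ := h2
    have h3 := (h1 i).resolve_left hi
    have h4 : ∑ _j ∈ Finset.univ.erase i, (1 : ℤ) ≤ ∑ j ∈ Finset.univ.erase i, x j ^ 2 :=
      Finset.sum_le_sum fun j _ => one_le_sq_of_odd (hx j)
    rw [Finset.sum_const, card_erase_pt] at h4
    rw [sqNorm, sum_split _ i] at hn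
    simp only [nsmul_eq_mul] at h4
    omega

/-- transitivity on the pairs of McLaughlin type -/
theorem trans_McL {a b : Λ} (ha : sqNorm a.1 = 32) (hb : sqNorm b.1 = 32)
    (hd : dotInt a.1 b.1 = -8) {p q : GolayPt} (hpq : p ≠ q) :
    ∃ g : Co0, g • a = v2 p q 1 1 (by norm_num) ∧ g • b = w3 p := by
  suffices h : ∃ t : Λ, sqNorm t.1 = 32 ∧ dotInt a.1 t.1 = 0 ∧ dotInt b.1 t.1 = -16 by
    obtain ⟨t, h1, h2, h3⟩ := h
    have c := dotInt_comm a.1 b.1
    obtain ⟨g, -, a2, a3, -⟩ := nf_odd2 (f := a + t) (x := b) (a := a)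
      (by rw [AddSubgroup.coe_add, sqNorm_add]; omega) hb
      (by rw [AddSubgroup.coe_add, dotInt_add_right]; omega) ha
      (by rw [AddSubgroup.coe_add, dotInt_add_right, dotInt_self]; omega) hpq
    exact ⟨g, a3 (by omega), a2⟩
  obtain ⟨k, hk⟩ := trans4 ha hpq
  have hb' : sqNorm (k • b : Λ).1 = 32 := by rw [norm_smul, hb]
  have hd' : dotInt (k • b : Λ).1 (v2 p q 1 1 (by norm_num)).1 = -8 := by
    rw [← hk, dot_smul, dotInt_comm, hd]
  suffices h : ∃ t : Λ, sqNorm t.1 = 32 ∧ dotInt (v2 p q 1 1 (by norm_num)).1 t.1 = 0 ∧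
      dotInt (k • b : Λ).1 t.1 = -16 by
    obtain ⟨t, h1, h2, h3⟩ := h
    refine ⟨k⁻¹ • t, by rw [norm_smul, h1], ?_, ?_⟩
    · rw [← dot_smul k, smul_inv_smul, hk, h2]
    · rw [← dot_smul k, smul_inv_smul, h3]
  generalize k • b = x at hb' hd'
  rw [dot_v2] at hd'
  have key : ∀ i j, i ≠ j → i ≠ p → i ≠ q → j ≠ p → j ≠ q → ∀ s t : ℤ, s ^ 2 = 1 → t ^ 2 = 1 →
      s * x.1 i + t * x.1 j = -4 → ∃ t : Λ, sqNorm t.1 = 32 ∧
        dotInt (v2 p q 1 1 (by norm_num)).1 t.1 = 0 ∧ dotInt x.1 t.1 = -16 := by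
    intro i j hij h1 h2 h3 h4 s t hs ht h
    have hab : (2 : ℤ) ∣ s + t := by
      rcases eq_or_of_sq_one hs with rfl | rfl <;> rcases eq_or_of_sq_one ht with rfl | rfl <;>
        norm_num
    refine ⟨v2 i j s t hab, by rw [norm_v2 hij, hs, ht]; norm_num, ?_, by rw [dot_v2]; linarith⟩
    rw [dot_v2, v2_apply, v2_apply]; simp [*]
  rcases (isL_coe x).cases with ⟨y, h1, h2, h3⟩ | ⟨y, h1, h2, h3⟩
  · have e : x.1 = fun i => 2 * y i := funext h1
    rw [e, sqNorm_two_mul] at hb'
    have h5 := card_oddSet_le_sumsq y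
    have h6 : (oddSet y).card ≠ 0 := by
      intro h0
      have a1 : p ∉ oddSet y := by rw [Finset.card_eq_zero.1 h0]; simp
      have a2 : q ∉ oddSet y := by rw [Finset.card_eq_zero.1 h0]; simp
      rw [mem_oddSet] at a1 a2
      have := h1 p; have := h1 q; omega
    unfold sqNorm at hb'
    have h8 : (oddSet y).card = 8 := by rcases GC_card h3 with h | h | h | h | h <;> omega
    have h9 : ∀ i ∈ oddSet y, y i ^ 2 = 1 := by
      intro i hi
      have h10 : ∑ i, (if i ∈ oddSet y then (1 : ℤ) else 0) = ∑ i, y i ^ 2 := by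
        rw [sum_ite_mem_const, h8]; omega
      have := (Finset.sum_eq_sum_iff_of_le fun i _ => ?_).1 h10 i (Finset.mem_univ i)
      · rw [if_pos hi] at this; exact this.symm
      · split_ifs with h
        · exact one_le_sq_of_odd (mem_oddSet.1 h)
        · positivity
    obtain ⟨i, hi, j, hj, hij⟩ := exists_two_of_card (s := ((oddSet y).erase p).erase q) (by
      have := Finset.pred_card_le_card_erase (s := oddSet y) (a := p)
      have := Finset.pred_card_le_card_erase (s := (oddSet y).erase p) (a := q)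
      omega)
    simp only [Finset.mem_erase] at hi hj
    have b1 := h9 i hi.2.2
    have b2 := h9 j hj.2.2
    exact key i j hij hi.2.1 hi.1 hj.2.1 hj.1 (-y i) (-y j) (by simpa using b1) (by simpa using b2)
      (by rw [h1, h1]; linarith)
  · have hodd : ∀ i, x.1 i % 2 = 1 := fun i => by have := h1 i; omega
    obtain ⟨l, hl⟩ := exists_odd_shape hodd hb'
    have hrest : ∀ i, i ≠ l → x.1 i ^ 2 = 1 := fun i hi =>
      sq_eq_one_of_odd_rest hodd (by rcases hl with h | h <;> rw [hb', h] <;> norm_num) hi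
    by_cases hlp : l = p
    · have := eq_or_of_sq_one (hrest q (by rw [hlp]; exact hpq.symm))
      subst hlp
      refine ⟨v2 l q 1 (-1) (by norm_num), by rw [norm_v2 hpq]; norm_num, ?_, by rw [dot_v2]; omega⟩
      rw [dot_v2, v2_apply, v2_apply]; simp [hpq, hpq.symm]
    by_cases hlq : l = q
    · have := eq_or_of_sq_one (hrest p (by rw [hlq]; exact hpq))
      subst hlq
      refine ⟨v2 p l (-1) 1 (by norm_num), by rw [norm_v2 hpq]; norm_num, ?_, by rw [dot_v2]; omega⟩
      rw [dot_v2, v2_apply, v2_apply]; simp [hpq, hpq.symm]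
    obtain ⟨j, hj⟩ : (((Finset.univ.erase p).erase q).erase l).Nonempty := Finset.card_pos.1 (by
      have := card_erase_pt p
      have := Finset.pred_card_le_card_erase (s := Finset.univ.erase p) (a := q)
      have := Finset.pred_card_le_card_erase (s := (Finset.univ.erase p).erase q) (a := l)
      omega)
    simp only [Finset.mem_erase] at hj
    have b1 := hrest j hj.1
    rcases hl with h | h
    · exact key l j (Ne.symm hj.1) hlp hlq hj.2.2.1 hj.2.1 (-1) (-x.1 j) (by norm_num)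
        (by simpa using b1) (by rw [h]; linarith)
    · exact key l j (Ne.symm hj.1) hlp hlq hj.2.2.1 hj.2.1 1 (-x.1 j) (by norm_num)
        (by simpa using b1) (by rw [h]; linarith)

end H3
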