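import Cfsg.Prelude.Def_Sporadic_a
import Cfsg.Agent.S0359

set_option autoImplicit false

namespace H3
open Cfsg
open scoped Pointwise

/-- The Golay code as a family of subsets. -/
abbrev GC : Set (Finset GolayPt) := supports (golayCode : Set (GolayPt → ZMod 2))

/-- indicator word of a subset -/
def ind {α : Type*} [DecidableEq α] (c : Finset α) : α → ZMod 2 := fun i => if i ∈ c then 1 else 0

theorem zmod2_cases (a : ZMod 2) : a = 0 ∨ a = 1 := by
  revert a; decide

theorem support_ind {α : Type*} [Fintype α] [DecidableEq α] (c : Finset α) :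
    support₂ (ind c) = c := by
  ext i; simp [support₂, ind]

theorem ind_support {α : Type*} [Fintype α] [DecidableEq α] (w : α → ZMod 2) :
    ind (support₂ w) = w := by
  funext i
  rcases zmod2_cases (w i) with h | h <;> simp [support₂, ind, h]

theorem mem_supports_iff {α : Type*} [Fintype α] [DecidableEq α] (C : Set (α → ZMod 2))
    (c : Finset α) : c ∈ supports C ↔ ind c ∈ C := by
  constructor
  · rintro ⟨w, hw, rfl⟩
    rwa [ind_support]
  · intro h
    exact ⟨_, h, support_ind c⟩

theorem mem_GC (c : Finset GolayPt) : c ∈ GC ↔ ind c ∈ golayCode := mem_supports_iff _ c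

theorem support_mem_GC {w : GolayPt → ZMod 2} : support₂ w ∈ GC ↔ w ∈ golayCode := by
  rw [mem_GC, ind_support]

theorem ind_symmDiff {α : Type*} [DecidableEq α] (c d : Finset α) :
    ind (symmDiff c d) = ind c + ind d := by
  funext i
  by_cases hc : i ∈ c <;> by_cases hd : i ∈ d <;> simp [ind, Finset.mem_symmDiff, hc, hd]
  decide

theorem ind_compl {α : Type*} [Fintype α] [DecidableEq α] (c : Finset α) :
    ind cᶜ = ind c + 1 := by
  funext i
  by_cases hc : i ∈ c <;> simp [ind, hc]
  decide

theorem one_mem_golay : (1 : GolayPt → ZMod 2) ∈ golayCode :=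
  Submodule.subset_span (Set.mem_union_right _ rfl)

theorem GC_symmDiff {c d : Finset GolayPt} (hc : c ∈ GC) (hd : d ∈ GC) : symmDiff c d ∈ GC := by
  rw [mem_GC] at *
  rw [ind_symmDiff]
  exact add_mem hc hd

theorem GC_compl {c : Finset GolayPt} (hc : c ∈ GC) : cᶜ ∈ GC := by
  rw [mem_GC] at *
  rw [ind_compl]
  exact add_mem hc one_mem_golay

theorem GC_empty : (∅ : Finset GolayPt) ∈ GC := by
  rw [mem_GC]
  have : ind (∅ : Finset GolayPt) = 0 := by funext i; simp [ind]
  rw [this]; exact zero_mem _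

theorem GC_univ : (Finset.univ : Finset GolayPt) ∈ GC := by
  simpa using GC_compl GC_empty

theorem hammingNorm_eq_card_support {α : Type*} [Fintype α] (w : α → ZMod 2) :
    hammingNorm w = (support₂ w).card := by
  simp [hammingNorm, support₂]

theorem GC_card {c : Finset GolayPt} (hc : c ∈ GC) :
    c.card = 0 ∨ c.card = 8 ∨ c.card = 12 ∨ c.card = 16 ∨ c.card = 24 := by
  have := Cfsg.Agent.S0359.result _ ((mem_GC c).1 hc)
  rwa [hammingNorm_eq_card_support, support_ind] at this

theorem GC_four_dvd {c : Finset GolayPt} (hc : c ∈ GC) : 4 ∣ c.card := by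
  rcases GC_card hc with h | h | h | h | h <;> simp [h]

theorem card_symmDiff_add {α : Type*} [DecidableEq α] (c d : Finset α) :
    (symmDiff c d).card + 2 * (c ∩ d).card = c.card + d.card := by
  have h1 : (symmDiff c d).card = (c \ d).card + (d \ c).card := by
    rw [symmDiff_def, Finset.sup_eq_union, Finset.card_union_of_disjoint]
    exact disjoint_sdiff_sdiff
  have h2 := Finset.card_sdiff_add_card_inter c d
  have h3 := Finset.card_sdiff_add_card_inter d c
  rw [Finset.inter_comm d c] at h3
  omega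

theorem GC_inter_even {c d : Finset GolayPt} (hc : c ∈ GC) (hd : d ∈ GC) : 2 ∣ (c ∩ d).card := by
  have h := card_symmDiff_add c d
  have h1 := GC_four_dvd hc
  have h2 := GC_four_dvd hd
  have h3 := GC_four_dvd (GC_symmDiff hc hd)
  omega

theorem card_golayPt : Fintype.card GolayPt = 24 := by
  simp [GolayPt, ZMod.card]

theorem mem_octads {o : Finset GolayPt} : o ∈ octads ↔ o ∈ GC ∧ o.card = 8 := Iff.rfl

theorem mem_dodecads {o : Finset GolayPt} : o ∈ dodecads ↔ o ∈ GC ∧ o.card = 12 := Iff.rfl

/-- set of odd coordinates -/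
def oddSet {α : Type*} [Fintype α] (y : α → ℤ) : Finset α := Finset.univ.filter fun i => y i % 2 = 1

theorem mem_oddSet {α : Type*} [Fintype α] {y : α → ℤ} {i : α} : i ∈ oddSet y ↔ y i % 2 = 1 := by
  simp [oddSet]

theorem intCast_zmod2 (a : ℤ) : (a : ZMod 2) = if a % 2 = 1 then 1 else 0 := by
  have h : ((a % 2 : ℤ) : ZMod 2) = (a : ZMod 2) := by
    have := ZMod.intCast_mod a 2
    simpa using this
  rcases Int.emod_two_eq_zero_or_one a with h0 | h0
  · rw [← h, h0]; simp
  · rw [← h, h0]; simp

theorem ind_oddSet {α : Type*} [Fintype α] [DecidableEq α] (y : α → ℤ) :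
    ind (oddSet y) = fun i => (y i : ZMod 2) := by
  funext i
  simp [ind, mem_oddSet, intCast_zmod2]

theorem oddSet_add {α : Type*} [Fintype α] [DecidableEq α] (y z : α → ℤ) :
    oddSet (y + z) = symmDiff (oddSet y) (oddSet z) := by
  ext i
  simp only [mem_oddSet, Finset.mem_symmDiff, Pi.add_apply]
  omega

theorem oddSet_neg {α : Type*} [Fintype α] (y : α → ℤ) : oddSet (-y) = oddSet y := by
  ext i
  simp only [mem_oddSet, Pi.neg_apply]
  omega

theorem sum_ite_mem_const {α : Type*} [Fintype α] [DecidableEq α] (c : Finset α) (a : ℤ) :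
    ∑ i, (if i ∈ c then a else 0) = a * c.card := by
  rw [Finset.sum_ite_mem, Finset.univ_inter, Finset.sum_const]
  simp [mul_comm]

/-- the sum of `y` is congruent to the number of odd coordinates mod 2 -/
theorem two_dvd_sum_sub_card {α : Type*} [Fintype α] [DecidableEq α] (y : α → ℤ) :
    (2 : ℤ) ∣ ∑ i, y i - (oddSet y).card := by
  have h := sum_ite_mem_const (oddSet y) 1
  rw [one_mul] at h
  rw [← h, ← Finset.sum_sub_distrib]
  apply Finset.dvd_sum
  intro i _
  by_cases hi : i ∈ oddSet y
  · simp only [hi, if_true]; rw [mem_oddSet] at hi; omega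
  · simp only [hi, if_false]; rw [mem_oddSet] at hi; omega

/-- the sum of squares of `y` is congruent to the number of odd coordinates mod 4 -/
theorem four_dvd_sumsq_sub_card {α : Type*} [Fintype α] [DecidableEq α] (y : α → ℤ) :
    (4 : ℤ) ∣ ∑ i, y i ^ 2 - (oddSet y).card := by
  have h := sum_ite_mem_const (oddSet y) 1
  rw [one_mul] at h
  rw [← h, ← Finset.sum_sub_distrib]
  apply Finset.dvd_sum
  intro i _
  by_cases hi : i ∈ oddSet y
  · simp only [hi, if_true]; rw [mem_oddSet] at hi
    obtain ⟨k, hk⟩ : ∃ k, y i = 2 * k + 1 := ⟨y i / 2, by omega⟩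
    rw [hk]; exact ⟨k ^ 2 + k, by ring⟩
  · simp only [hi, if_false]; rw [mem_oddSet] at hi
    obtain ⟨k, hk⟩ : ∃ k, y i = 2 * k := ⟨y i / 2, by omega⟩
    rw [hk]; exact ⟨k ^ 2, by ring⟩

theorem card_oddSet_le_sumsq {α : Type*} [Fintype α] [DecidableEq α] (y : α → ℤ) :
    ((oddSet y).card : ℤ) ≤ ∑ i, y i ^ 2 := by
  have h := sum_ite_mem_const (oddSet y) 1
  rw [one_mul] at h
  rw [← h]
  apply Finset.sum_le_sum
  intro i _
  by_cases hi : i ∈ oddSet y
  · simp only [hi, if_true]; rw [mem_oddSet] at hi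
    have : y i ≠ 0 := by omega
    have := sq_pos_of_ne_zero this
    omega
  · simp only [hi, if_false]; positivity

/-- action of `M24` on the code -/
theorem M24_image_mem {σ : Equiv.Perm GolayPt} (hσ : σ ∈ M24) {c : Finset GolayPt} (hc : c ∈ GC) :
    c.image σ ∈ GC := by
  have h : σ • GC = GC := hσ
  have : σ • c ∈ σ • GC := Set.smul_mem_smul_set hc
  rw [h] at this
  exact this

theorem M24_preimage_mem {σ : Equiv.Perm GolayPt} (hσ : σ ∈ M24) {c : Finset GolayPt} (hc : c ∈ GC) :
    (Finset.univ.filter fun i => σ i ∈ c) ∈ GC := by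
  have := M24_image_mem (M24.inv_mem hσ) hc
  convert this using 1
  ext i
  simp only [Finset.mem_filter, Finset.mem_univ, true_and, Finset.mem_image]
  constructor
  · intro h; exact ⟨σ i, h, by simp⟩
  · rintro ⟨j, hj, rfl⟩; simpa using hj

theorem mem_M24_of_image {σ : Equiv.Perm GolayPt} (h : ∀ c ∈ GC, c.image σ ∈ GC) : σ ∈ M24 := by
  change σ • GC = GC
  apply Set.eq_of_subset_of_ncard_le
  · rintro _ ⟨c, hc, rfl⟩
    exact h c hc
  · rw [Set.ncard_smul_set]
  · exact Set.toFinite _

end H3
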