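import Cfsg.Agent.H3.Leech
import Cfsg.Agent.H2.Golay

set_option autoImplicit false

namespace H3
open Cfsg

/-- Digit extraction: counting the elements of given weight from a generating number. -/
theorem card_filter_eq_digit {α : Type*} (S : Finset α) (w : α → ℕ) (B n : ℕ) (hB : S.card < B) :
    (S.filter fun x => w x = n).card = (∑ x ∈ S, B ^ w x) / B ^ n % B := by
  classical
  have hB0 : 0 < B := by omega
  have e1 : ∑ x ∈ S, B ^ w x = ∑ x ∈ S with w x < n, B ^ w x +
      B ^ n * ((S.filter fun x => w x = n).card + B * ∑ x ∈ S with n < w x, B ^ (w x - n - 1)) := by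
    rw [← Finset.sum_filter_add_sum_filter_not S (fun x => w x < n),
      ← Finset.sum_filter_add_sum_filter_not (S.filter fun x => ¬ w x < n) (fun x => w x = n),
      Finset.filter_filter, Finset.filter_filter, mul_add, Finset.mul_sum, Finset.mul_sum]
    congr 2
    · have : (S.filter fun x => ¬ w x < n ∧ w x = n) = S.filter fun x => w x = n := by
        apply Finset.filter_congr; intro x _; omega
      rw [this, Finset.sum_congr rfl (g := fun _ => B ^ n), Finset.sum_const, smul_eq_mul, mul_comm]
      intro x hx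
      rw [(Finset.mem_filter.1 hx).2]
    · have : (S.filter fun x => ¬ w x < n ∧ ¬ w x = n) = S.filter fun x => n < w x := by
        apply Finset.filter_congr; intro x _; omega
      rw [this]
      apply Finset.sum_congr rfl
      intro x hx
      have := (Finset.mem_filter.1 hx).2
      rw [← pow_succ', ← pow_add]
      congr 1; omega
  have e2 : ∑ x ∈ S with w x < n, B ^ w x < B ^ n := by
    rcases n with _ | n
    · simp
    · calc ∑ x ∈ S with w x < n + 1, B ^ w x ≤ (S.filter fun x => w x < n + 1).card • B ^ n := by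
            apply Finset.sum_le_card_nsmul
            intro x hx
            exact Nat.pow_le_pow_right hB0 (by have := (Finset.mem_filter.1 hx).2; omega)
        _ ≤ S.card * B ^ n := by
            rw [smul_eq_mul]; exact Nat.mul_le_mul_right _ (Finset.card_filter_le _ _)
        _ < B ^ (n + 1) := by
            rw [pow_succ']; exact Nat.mul_lt_mul_of_pos_right hB (pow_pos hB0 _)
  rw [e1, Nat.add_mul_div_left _ _ (pow_pos hB0 _), Nat.div_eq_of_lt e2, zero_add,
    Nat.add_mul_mod_self_left, Nat.mod_eq_of_lt]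
  exact lt_of_le_of_lt (Finset.card_filter_le _ _) hB

/-- admissible coordinate values of residue `r` mod 4 -/
noncomputable def resSet (r : ℤ) : Finset ℤ := (Finset.Icc (-8 : ℤ) 8).filter fun t => t % 4 = r

/-- weight of a coordinate value -/
def wt (t : ℤ) : ℕ := 25 * t.natAbs ^ 2 + (t / 4 % 2).toNat

/-- generating number of a residue class -/
noncomputable def genR (r : ℤ) : ℕ := ∑ t ∈ resSet r, (2 ^ 56) ^ wt t

/-- number of vectors of parity `m`, with a code word of size `k`, of norm `n` -/
noncomputable def cntF (m : ℤ) (k n : ℕ) : ℕ :=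
  ∑ j ∈ (Finset.range 25).filter (fun j : ℕ => (j : ℤ) % 2 = m),
    (genR (m + 2) ^ k * genR m ^ (24 - k)) / (2 ^ 56) ^ (25 * n + j) % 2 ^ 56

theorem card_resSet_le (r : ℤ) : (resSet r).card ≤ 5 := by
  by_cases h : r = 0 ∨ r = 1 ∨ r = 2 ∨ r = 3
  · rcases h with rfl | rfl | rfl | rfl <;> decide
  · have : resSet r = ∅ := by
      apply Finset.filter_false_of_mem
      intro t _; omega
    rw [this]; simp

/-- the box of vectors with prescribed residues mod 4 -/
noncomputable def box (m : ℤ) (c : Finset GolayPt) : Finset (GolayPt → ℤ) :=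
  Fintype.piFinset fun i => resSet (if i ∈ c then m + 2 else m)

theorem card_box_lt (m : ℤ) (c : Finset GolayPt) : (box m c).card < 2 ^ 56 := by
  rw [box, Fintype.card_piFinset]
  calc ∏ i, (resSet (if i ∈ c then m + 2 else m)).card ≤ 5 ^ (Finset.univ : Finset GolayPt).card :=
        Finset.prod_le_pow_card _ _ _ fun i _ => card_resSet_le _
    _ < 2 ^ 56 := by rw [Finset.card_univ, card_golayPt]; norm_num

theorem sum_box (m : ℤ) (c : Finset GolayPt) :
    ∑ x ∈ box m c, (2 ^ 56) ^ (∑ i, wt (x i)) = genR (m + 2) ^ c.card * genR m ^ (24 - c.card) := by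
  have : ∀ x : GolayPt → ℤ, (2 ^ 56) ^ (∑ i, wt (x i)) = ∏ i, (2 ^ 56) ^ wt (x i) := fun x =>
    (Finset.prod_pow_eq_pow_sum _ _ _).symm
  simp_rw [this]
  rw [box, ← Finset.prod_univ_sum (fun i => resSet (if i ∈ c then m + 2 else m))
    (fun _ t => (2 ^ 56) ^ wt t)]
  have h2 : ∀ i, ∑ t ∈ resSet (if i ∈ c then m + 2 else m), (2 ^ 56) ^ wt t =
      if i ∈ c then genR (m + 2) else genR m := by
    intro i; split_ifs <;> rfl
  simp_rw [h2]
  rw [Finset.prod_ite, Finset.prod_const, Finset.prod_const]
  congr 2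
  · simp
  · rw [← card_golayPt, ← Finset.card_compl]; congr 1; ext i; simp

theorem mem_box {m : ℤ} {c : Finset GolayPt} {x : GolayPt → ℤ} :
    x ∈ box m c ↔ ∀ i, x i ∈ Finset.Icc (-8 : ℤ) 8 ∧ x i % 4 = if i ∈ c then m + 2 else m := by
  simp only [box, resSet, Finset.mem_filter, Fintype.mem_piFinset]

attribute [irreducible] box

theorem sum_wt (x : GolayPt → ℤ) :
    ((∑ i, wt (x i) : ℕ) : ℤ) = 25 * sqNorm x + (oddSet fun i => x i / 4).card := by
  have h := sum_ite_mem_const (oddSet fun i => x i / 4) 1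
  rw [one_mul] at h
  rw [← h, sqNorm, Finset.mul_sum, ← Finset.sum_add_distrib]
  push_cast
  apply Finset.sum_congr rfl
  intro i _
  simp only [wt, mem_oddSet]
  push_cast
  rw [sq_abs]
  congr 1
  split_ifs <;> omega

theorem card_box_filter (m : ℤ) (c : Finset GolayPt) (n : ℕ) :
    ((box m c).filter fun x => sqNorm x = n ∧ ((oddSet fun i => x i / 4).card : ℤ) % 2 = m).card =
      cntF m c.card n := by
  unfold cntF
  simp_rw [← sum_box, ← card_filter_eq_digit _ _ _ _ (card_box_lt m c)]
  rw [Finset.card_eq_sum_card_fiberwise (f := fun x => (oddSet fun i => x i / 4).card)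
    (t := (Finset.range 25).filter (fun j : ℕ => (j : ℤ) % 2 = m))]
  · apply Finset.sum_congr rfl
    intro j hj
    rw [Finset.filter_filter]
    refine congrArg Finset.card (Finset.filter_congr ?_)
    intro x _
    have h1 := sum_wt x
    have h2 : (oddSet fun i => x i / 4).card ≤ 24 := by
      rw [← card_golayPt]; exact Finset.card_le_univ _
    simp only [Finset.mem_filter, Finset.mem_range] at hj
    constructor
    · rintro ⟨⟨h3, -⟩, h4⟩; omega
    · intro h3
      have : (oddSet fun i => x i / 4).card = j := by omega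
      refine ⟨⟨by omega, by rw [this]; exact hj.2⟩, this⟩
  · intro x hx
    simp only [Finset.coe_filter, Finset.mem_range, Set.mem_ofPred_eq] at hx ⊢
    have h2 : (oddSet fun i => x i / 4).card ≤ 24 := by
      rw [← card_golayPt]; exact Finset.card_le_univ _
    exact ⟨by omega, hx.2.2⟩

/-- the code as a finset -/
noncomputable def GCf : Finset (Finset GolayPt) := (Set.toFinite GC).toFinset

theorem mem_GCf {c : Finset GolayPt} : c ∈ GCf ↔ c ∈ GC := by simp [GCf]

theorem sq_le_sqNorm {α : Type*} [Fintype α] (x : α → ℤ) (i : α) : x i ^ 2 ≤ sqNorm x :=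
  Finset.single_le_sum (f := fun i => x i ^ 2) (fun _ _ => sq_nonneg _) (Finset.mem_univ i)

theorem isL_iff_box {x : GolayPt → ℤ} {m : ℤ} (hm : m = 0 ∨ m = 1) {c : Finset GolayPt}
    (hc : c ∈ GC) (hx : ∀ i, x i % 4 = if i ∈ c then m + 2 else m) :
    IsL x ↔ ((oddSet fun i => x i / 4).card : ℤ) % 2 = m := by
  have hy : ∀ i, x i = m + 2 * (x i / 2) := by
    intro i; have := hx i; split_ifs at this <;> omega
  have ho : (oddSet fun i => x i / 2) = c := by
    ext i; have := hx i; rw [mem_oddSet]; split_ifs at this with h <;> simp only [h, iff_true, iff_false] <;> omega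
  have hs : ∑ i, x i / 2 = 2 * ∑ i, x i / 4 + c.card := by
    have h := sum_ite_mem_const c 1
    rw [one_mul] at h
    rw [← h, Finset.mul_sum, ← Finset.sum_add_distrib]
    apply Finset.sum_congr rfl
    intro i _
    have := hx i; split_ifs at this ⊢ <;> omega
  have h2 := two_dvd_sum_sub_card fun i => x i / 4
  have h4 := GC_four_dvd hc
  rcases hm with rfl | rfl
  · have e : x = fun i => 2 * (x i / 2) := by funext i; have := hy i; omega
    rw [e, isL_even_iff, ← e, ho]
    simp only [hc, and_true]
    omega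
  · have e : x = fun i => 1 + 2 * (x i / 2) := by funext i; have := hy i; omega
    rw [e, isL_odd_iff, ← e, ho]
    simp only [hc, and_true]
    omega

theorem ncard_norm (n : ℕ) (hn : n ≤ 64) :
    {x : GolayPt → ℤ | x ∈ leechLattice ∧ sqNorm x = n}.ncard =
      ∑ p ∈ ({0, 1} : Finset ℤ) ×ˢ GCf, cntF p.1 p.2.card n := by
  classical
  obtain ⟨T, hT'⟩ : ∃ T : Finset (GolayPt → ℤ), ∀ x, x ∈ T ↔
      (∀ i, x i ∈ Finset.Icc (-8 : ℤ) 8) ∧ IsL x ∧ sqNorm x = n :=
    ⟨(Fintype.piFinset fun _ => Finset.Icc (-8 : ℤ) 8).filter fun x => IsL x ∧ sqNorm x = n,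
      fun x => by rw [Finset.mem_filter, Fintype.mem_piFinset]⟩
  have hbd : ∀ x : GolayPt → ℤ, sqNorm x = n → ∀ i, x i ∈ Finset.Icc (-8 : ℤ) 8 := by
    intro x hx i
    have := sq_le_sqNorm x i
    rw [Finset.mem_Icc]
    constructor <;> nlinarith
  have hT : {x : GolayPt → ℤ | x ∈ leechLattice ∧ sqNorm x = n} = T := by
    ext x
    simp only [Set.mem_ofPred_eq, Finset.mem_coe, hT', mem_leech]
    exact ⟨fun h => ⟨hbd x h.2, h⟩, fun h => h.2⟩
  have hres : ∀ x, IsL x → x none % 2 ∈ ({0, 1} : Finset ℤ) ∧ (oddSet fun i => x i / 2) ∈ GC := by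
    intro x hx
    refine ⟨by simp only [Finset.mem_insert, Finset.mem_singleton]; omega, ?_⟩
    rcases hx.cases with ⟨y, h1, -, h3⟩ | ⟨y, h1, -, h3⟩
    · convert h3 using 2; funext i; have := h1 i; omega
    · convert h3 using 2; funext i; have := h1 i; omega
  rw [hT, Set.ncard_coe_finset, Finset.card_eq_sum_card_fiberwise
    (f := fun x => (x none % 2, oddSet fun i => x i / 2)) (t := ({0, 1} : Finset ℤ) ×ˢ GCf)]
  · apply Finset.sum_congr rfl
    rintro ⟨m, c⟩ hp
    simp only [Finset.mem_product, Finset.mem_insert, Finset.mem_singleton, mem_GCf] at hp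
    rw [← card_box_filter]
    refine congrArg Finset.card (Finset.ext fun x => ?_)
    simp only [hT', mem_box, Finset.mem_filter, Prod.mk.injEq]
    constructor
    · rintro ⟨⟨h1, h2, h3⟩, h4, h5⟩
      have hx : ∀ i, x i % 4 = if i ∈ c then m + 2 else m := by
        intro i
        have := h2.parity none i
        rw [← h5]
        simp only [mem_oddSet]
        split_ifs <;> omega
      exact ⟨fun i => ⟨h1 i, hx i⟩, h3, (isL_iff_box hp.1 hp.2 hx).1 h2⟩
    · rintro ⟨h1, h2, h3⟩
      have hx : ∀ i, x i % 4 = if i ∈ c then m + 2 else m := fun i => (h1 i).2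
      refine ⟨⟨fun i => (h1 i).1, (isL_iff_box hp.1 hp.2 hx).2 h3, h2⟩, ?_, ?_⟩
      · have := hx none; split_ifs at this <;> omega
      · ext i; have := hx i; rw [mem_oddSet]
        split_ifs at this with h <;> simp only [h, iff_true, iff_false] <;> omega
  · intro x hx
    rw [Finset.mem_coe, hT'] at hx
    have := hres x hx.2.1
    simp only [Finset.coe_product, Set.mem_prod, Finset.mem_coe, mem_GCf]
    exact this

theorem card_GCf_filter (k : ℕ) : (GCf.filter fun c => c.card = k).card =
    (List.range 4096).countP (fun m => Nat.beq (H2.pop (H2.enc m)) k) := by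
  rw [← H2.ncard_csets (fun s => s.card = k) (fun n => Nat.beq (H2.pop n) k)
    (fun n _ => by rw [H2.card_fs]; simp), ← Set.ncard_coe_finset]
  congr 1
  ext c; simp [mem_GCf]

theorem sum_GCf (g : ℕ → ℕ) :
    ∑ c ∈ GCf, g c.card = g 0 + 759 * g 8 + 2576 * g 12 + 759 * g 16 + g 24 := by
  rw [← Finset.sum_fiberwise_of_maps_to' (g := fun c : Finset GolayPt => c.card)
    (t := {0, 8, 12, 16, 24})]
  · simp only [Finset.sum_const, smul_eq_mul, card_GCf_filter]
    have h0 : (List.range 4096).countP (fun m => Nat.beq (H2.pop (H2.enc m)) 0) = 1 := by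
      decide +kernel
    have h8 : (List.range 4096).countP (fun m => Nat.beq (H2.pop (H2.enc m)) 8) = 759 := by
      decide +kernel
    have h12 : (List.range 4096).countP (fun m => Nat.beq (H2.pop (H2.enc m)) 12) = 2576 := by
      decide +kernel
    have h16 : (List.range 4096).countP (fun m => Nat.beq (H2.pop (H2.enc m)) 16) = 759 := by
      decide +kernel
    have h24 : (List.range 4096).countP (fun m => Nat.beq (H2.pop (H2.enc m)) 24) = 1 := by
      decide +kernel
    rw [Finset.sum_insert (by decide), Finset.sum_insert (by decide), Finset.sum_insert (by decide),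
      Finset.sum_insert (by decide), Finset.sum_singleton, h0, h8, h12, h16, h24]
    ring
  · intro c hc
    have := GC_card (mem_GCf.1 hc)
    simp only [Finset.mem_insert, Finset.mem_singleton]
    exact this

/-- total count -/
noncomputable def cntT (n : ℕ) : ℕ :=
  (cntF 0 0 n + 759 * cntF 0 8 n + 2576 * cntF 0 12 n + 759 * cntF 0 16 n + cntF 0 24 n) +
  (cntF 1 0 n + 759 * cntF 1 8 n + 2576 * cntF 1 12 n + 759 * cntF 1 16 n + cntF 1 24 n)

theorem ncard_norm_eq (n : ℕ) (hn : n ≤ 64) :
    {x : GolayPt → ℤ | x ∈ leechLattice ∧ sqNorm x = n}.ncard = cntT n := by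
  rw [ncard_norm n hn, Finset.sum_product, Finset.sum_insert (by decide), Finset.sum_singleton,
    sum_GCf (fun k => cntF 0 k n), sum_GCf (fun k => cntF 1 k n)]
  rfl

theorem cntT_32 : cntT 32 = 196560 := by decide +kernel
theorem cntT_48 : cntT 48 = 16773120 := by decide +kernel
theorem cntT_64 : cntT 64 = 398034000 := by decide +kernel

theorem ncard_norm32 : {x : GolayPt → ℤ | x ∈ leechLattice ∧ sqNorm x = 32}.ncard = 196560 :=
  (ncard_norm_eq 32 (by norm_num)).trans cntT_32

theorem ncard_norm48 : {x : GolayPt → ℤ | x ∈ leechLattice ∧ sqNorm x = 48}.ncard = 16773120 :=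
  (ncard_norm_eq 48 (by norm_num)).trans cntT_48

theorem ncard_norm64 : {x : GolayPt → ℤ | x ∈ leechLattice ∧ sqNorm x = 64}.ncard = 398034000 :=
  (ncard_norm_eq 64 (by norm_num)).trans cntT_64

end H3
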