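import Cfsg.Agent.H3.Index

set_option autoImplicit false

namespace H3
open Cfsg

/-- Hypotheses of Conway's characterisation of the Leech lattice. -/
structure LeechLike {L : Type*} [AddCommGroup L] (β : L →+ L →+ ℤ) : Prop where
  symm : ∀ x y, β x y = β y x
  pos : ∀ x, x ≠ 0 → 0 < β x x
  even : ∀ x, (2 : ℤ) ∣ β x x
  no2 : ∀ x, β x x ≠ 2
  rank : ∀ s : Finset L, (∀ x ∈ s, x ≠ 0) → (∀ x ∈ s, ∀ y ∈ s, x ≠ y → β x y = 0) → s.card ≤ 24
  idx : (dbl L).range.index = 2 ^ 24
  h4 : {x | β x x = 4}.ncard = 196560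
  h6 : {x | β x x = 6}.ncard = 16773120
  h8 : {x | β x x = 8}.ncard = 398034000

variable {L : Type*} [AddCommGroup L] {β : L →+ L →+ ℤ}

theorem LeechLike.four_le (h : LeechLike β) {x : L} (hx : x ≠ 0) : 4 ≤ β x x := by
  have := h.pos x hx
  have := h.even x
  have := h.no2 x
  omega

theorem LeechLike.nonneg (h : LeechLike β) (x : L) : 0 ≤ β x x := by
  by_cases hx : x = 0
  · simp [hx]
  · exact (h.pos x hx).le

theorem LeechLike.eq_zero (h : LeechLike β) {x : L} (hx : β x x = 0) : x = 0 := by
  by_contra hne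
  have := h.pos x hne
  omega

theorem LeechLike.short_class (h : LeechLike β) {x y z : L} (hx : β x x ≤ 8) (hy : β y y ≤ 8)
    (hz : x - y = (2 : ℕ) • z) : x = y ∨ x = -y ∨ (β x x = 8 ∧ β y y = 8 ∧ β x y = 0) := by
  have ex : x = y + z + z := by rw [two_nsmul] at hz; rw [add_assoc, ← hz]; abel
  by_cases h1 : z = 0
  · left; rw [ex, h1]; simp
  by_cases h2 : y + z = 0
  · right; left
    rw [ex, h2, zero_add]; exact eq_neg_of_add_eq_zero_right h2
  right; right
  have a1 := h.four_le h1
  have a2 := h.four_le h2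
  have s := h.symm y z
  subst ex
  simp only [map_add, AddMonoidHom.add_apply] at *
  refine ⟨?_, ?_, ?_⟩ <;> omega

/-- weight of a short vector -/
def swt (n : ℤ) : ℕ := if n = 0 then 48 else if n = 8 then 1 else 24

theorem LeechLike.finite_short (h : LeechLike β) : {x | β x x ≤ 8}.Finite := by
  have f4 : {x | β x x = 4}.Finite := Set.finite_of_ncard_ne_zero (by rw [h.h4]; norm_num)
  have f6 : {x | β x x = 6}.Finite := Set.finite_of_ncard_ne_zero (by rw [h.h6]; norm_num)
  have f8 : {x | β x x = 8}.Finite := Set.finite_of_ncard_ne_zero (by rw [h.h8]; norm_num)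
  refine (((Set.finite_singleton (0 : L)).union f4).union (f6.union f8)).subset ?_
  intro x hx
  simp only [Set.mem_union, Set.mem_singleton_iff, Set.mem_ofPred_eq] at *
  by_cases h0 : x = 0
  · exact Or.inl (Or.inl h0)
  · have := h.four_le h0
    have := h.even x
    omega

theorem LeechLike.sum_swt (h : LeechLike β) :
    ∑ x ∈ h.finite_short.toFinset, swt (β x x) = 48 * 2 ^ 24 := by
  classical
  rw [← Finset.sum_fiberwise_of_maps_to' (g := fun x => β x x) (t := {0, 4, 6, 8})]
  · have key : ∀ n : ℤ, n ≤ 8 → (h.finite_short.toFinset.filter fun x => β x x = n).card =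
        {x | β x x = n}.ncard := by
      intro n hn
      rw [← Set.ncard_coe_finset]
      congr 1
      ext x
      simp only [Finset.coe_filter, Set.Finite.mem_toFinset, Set.mem_ofPred_eq]
      exact ⟨fun h => h.2, fun h => ⟨by omega, h⟩⟩
    have h0 : {x | β x x = 0}.ncard = 1 := by
      have : {x | β x x = 0} = {0} := by
        ext x
        simp only [Set.mem_ofPred_eq, Set.mem_singleton_iff]
        exact ⟨h.eq_zero, fun h => by simp [h]⟩
      rw [this, Set.ncard_singleton]
    simp only [Finset.sum_const, smul_eq_mul]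
    rw [Finset.sum_insert (by decide), Finset.sum_insert (by decide), Finset.sum_insert (by decide),
      Finset.sum_singleton, key 0 (by norm_num), key 4 (by norm_num), key 6 (by norm_num),
      key 8 (by norm_num), h0, h.h4, h.h6, h.h8]
    decide
  · intro x hx
    simp only [Set.Finite.mem_toFinset, Set.mem_ofPred_eq] at hx
    simp only [Finset.mem_insert, Finset.mem_singleton]
    by_cases h0 : x = 0
    · simp [h0]
    · have := h.four_le h0
      have := h.even x
      omega

/-- a maximal orthogonal subset of a class of norm 8 vectors -/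
theorem LeechLike.exists_orth (h : LeechLike β) (F : Finset L) (hF : ∀ x ∈ F, β x x = 8)
    (hc : ∀ x ∈ F, ∀ y ∈ F, ∃ z, x - y = (2 : ℕ) • z) {f : L} (hf : f ∈ F) :
    ∃ s ⊆ F, f ∈ s ∧ (∀ x ∈ s, ∀ y ∈ s, x ≠ y → β x y = 0) ∧ s.card ≤ 24 ∧ F.card ≤ 2 * s.card := by
  classical
  obtain ⟨s, hs, hmax⟩ := Finset.exists_max_image
    (F.powerset.filter fun s => f ∈ s ∧ ∀ x ∈ s, ∀ y ∈ s, x ≠ y → β x y = 0) Finset.card
    ⟨{f}, by simp [hf]⟩
  simp only [Finset.mem_filter, Finset.mem_powerset] at hs hmax
  obtain ⟨hsF, hfs, horth⟩ := hs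
  refine ⟨s, hsF, hfs, horth, h.rank s (fun x hx h0 => ?_) horth, ?_⟩
  · have := hF x (hsF hx)
    simp [h0] at this
  · have hsub : F ⊆ s ∪ s.image (fun x => -x) := by
      intro y hy
      by_contra hn
      simp only [Finset.mem_union, Finset.mem_image, not_or, not_exists, not_and] at hn
      have ho : ∀ x ∈ s, β y x = 0 := by
        intro x hx
        obtain ⟨z, hz⟩ := hc y hy x (hsF hx)
        rcases h.short_class (hF y hy).le (hF x (hsF hx)).le hz with e | e | e
        · exact absurd (e ▸ hx) hn.1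
        · exact absurd e.symm (hn.2 x hx)
        · exact e.2.2
      have := hmax (insert y s) ⟨Finset.insert_subset hy hsF, Finset.mem_insert_of_mem hfs, ?_⟩
      · rw [Finset.card_insert_of_notMem hn.1] at this; omega
      · intro a ha b hb hab
        rw [Finset.mem_insert] at ha hb
        rcases ha with rfl | ha <;> rcases hb with rfl | hb
        · exact absurd rfl hab
        · exact ho b hb
        · rw [h.symm]; exact ho a ha
        · exact horth a ha b hb hab
    calc F.card ≤ (s ∪ s.image (fun x => -x)).card := Finset.card_le_card hsub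
      _ ≤ s.card + (s.image (fun x => -x)).card := Finset.card_union_le _ _
      _ ≤ s.card + s.card := Nat.add_le_add_left Finset.card_image_le _
      _ = 2 * s.card := by ring

theorem mk_eq_iff_dbl (x y : L) :
    (QuotientAddGroup.mk x : L ⧸ (dbl L).range) = QuotientAddGroup.mk y ↔
      ∃ z, x - y = (2 : ℕ) • z := by
  rw [QuotientAddGroup.eq_iff_sub_mem, AddMonoidHom.mem_range]
  exact ⟨fun ⟨z, hz⟩ => ⟨z, hz.symm⟩, fun ⟨z, hz⟩ => ⟨z, hz.symm⟩⟩

open Classical in
/-- the short vectors of a class -/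
noncomputable def LeechLike.fib (h : LeechLike β) (q : L ⧸ (dbl L).range) : Finset L :=
  h.finite_short.toFinset.filter fun x => (QuotientAddGroup.mk x : L ⧸ (dbl L).range) = q

theorem LeechLike.mem_fib (h : LeechLike β) {q : L ⧸ (dbl L).range} {x : L} :
    x ∈ h.fib q ↔ β x x ≤ 8 ∧ (QuotientAddGroup.mk x : L ⧸ (dbl L).range) = q := by
  simp [LeechLike.fib]

theorem LeechLike.fib_cong (h : LeechLike β) {q : L ⧸ (dbl L).range} :
    ∀ x ∈ h.fib q, ∀ y ∈ h.fib q, ∃ z, x - y = (2 : ℕ) • z := by
  intro x hx y hy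
  rw [← mk_eq_iff_dbl, (h.mem_fib.1 hx).2, (h.mem_fib.1 hy).2]

theorem LeechLike.sum_fib_le (h : LeechLike β) (q : L ⧸ (dbl L).range) :
    ∑ x ∈ h.fib q, swt (β x x) ≤ 48 := by
  classical
  by_cases h8 : ∀ x ∈ h.fib q, β x x = 8
  · rw [Finset.sum_congr rfl (g := fun _ => 1) (fun x hx => by rw [h8 x hx]; rfl)]
    rcases (h.fib q).eq_empty_or_nonempty with he | ⟨f, hf⟩
    · simp [he]
    · obtain ⟨s, -, -, -, h1, h2⟩ := h.exists_orth _ h8 h.fib_cong hf
      simp only [Finset.sum_const, smul_eq_mul, mul_one]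
      omega
  · push Not at h8
    obtain ⟨x, hx, hx8⟩ := h8
    have hsub : h.fib q ⊆ {x, -x} := by
      intro y hy
      obtain ⟨z, hz⟩ := h.fib_cong y hy x hx
      rcases h.short_class (h.mem_fib.1 hy).1 (h.mem_fib.1 hx).1 hz with e | e | e
      · simp [e]
      · simp [e]
      · exact absurd e.2.1 hx8
    refine (Finset.sum_le_sum_of_subset hsub).trans ?_
    by_cases h0 : x = 0
    · simp [h0, swt]
    · have h1 : β x x ≠ 0 := fun e => h0 (h.eq_zero e)
      have h2 : swt (β x x) = 24 := by simp [swt, h1, hx8]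
      by_cases hxx : x = -x
      · rw [← hxx]; simp [h2]
      · rw [Finset.sum_pair hxx]; simp [h2]

theorem LeechLike.sum_fib (h : LeechLike β) (q : L ⧸ (dbl L).range) :
    ∑ x ∈ h.fib q, swt (β x x) = 48 := by
  classical
  have hc : Nat.card (L ⧸ (dbl L).range) = 2 ^ 24 := h.idx
  have : Finite (L ⧸ (dbl L).range) := Nat.finite_of_card_ne_zero (by rw [hc]; norm_num)
  have := Fintype.ofFinite (L ⧸ (dbl L).range)
  have h1 : ∑ q, ∑ x ∈ h.fib q, swt (β x x) = ∑ _q : L ⧸ (dbl L).range, 48 := by
    have := Finset.sum_fiberwise h.finite_short.toFinset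
      (fun x => (QuotientAddGroup.mk x : L ⧸ (dbl L).range)) (fun x => swt (β x x))
    rw [h.sum_swt] at this
    rw [Finset.sum_const, Finset.card_univ, ← Nat.card_eq_fintype_card, hc, smul_eq_mul, mul_comm,
      ← this]
    apply Finset.sum_congr rfl
    intro q _
    unfold LeechLike.fib
    congr
  exact (Finset.sum_eq_sum_iff_of_le (fun q _ => h.sum_fib_le q)).1 h1 q (Finset.mem_univ _)

/-- every class mod `2L` contains a short vector -/
theorem LeechLike.exists_short (h : LeechLike β) (x : L) :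
    ∃ y z, β y y ≤ 8 ∧ x - y = (2 : ℕ) • z := by
  have h1 := h.sum_fib (QuotientAddGroup.mk x)
  rcases (h.fib (QuotientAddGroup.mk x)).eq_empty_or_nonempty with he | ⟨y, hy⟩
  · simp [he] at h1
  · obtain ⟨z, hz⟩ := (mk_eq_iff_dbl x y).1 (h.mem_fib.1 hy).2.symm
    exact ⟨y, z, (h.mem_fib.1 hy).1, hz⟩

/-- every vector of norm 8 lies in a frame -/
theorem LeechLike.exists_frame (h : LeechLike β) {f : L} (hf : β f f = 8) :
    ∃ g : Fin 24 → L, g 0 = f ∧ (∀ i j, β (g i) (g j) = if i = j then 8 else 0) ∧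
      ∀ i j, ∃ z, g i - g j = (2 : ℕ) • z := by
  classical
  have hfm : f ∈ h.fib (QuotientAddGroup.mk f) := h.mem_fib.2 ⟨hf.le, rfl⟩
  have h8 : ∀ x ∈ h.fib (QuotientAddGroup.mk f), β x x = 8 := by
    intro x hx
    obtain ⟨z, hz⟩ := h.fib_cong x hx f hfm
    rcases h.short_class (h.mem_fib.1 hx).1 hf.le hz with e | e | e
    · rw [e, hf]
    · rw [e]; simpa using hf
    · exact e.1
  have h1 := h.sum_fib (QuotientAddGroup.mk f)
  rw [Finset.sum_congr rfl (g := fun _ => 1) (fun x hx => by rw [h8 x hx]; rfl)] at h1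
  simp only [Finset.sum_const, smul_eq_mul, mul_one] at h1
  obtain ⟨s, hs, hfs, horth, h2, h3⟩ := h.exists_orth _ h8 h.fib_cong hfm
  have hcard : s.card = 24 := by omega
  let e0 : Fin 24 ≃ s := (Finset.equivFinOfCardEq hcard).symm
  let e : Fin 24 ≃ s := (Equiv.swap 0 (e0.symm ⟨f, hfs⟩)).trans e0
  refine ⟨fun i => e i, by simp [e], fun i j => ?_, fun i j => ?_⟩
  · split_ifs with hij
    · rw [hij]; exact h8 _ (hs (e j).2)
    · exact horth _ (e i).2 _ (e j).2 fun h => hij (e.injective (Subtype.ext h))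
  · exact h.fib_cong _ (hs (e i).2) _ (hs (e j).2)

/-- expansion in a frame -/
theorem LeechLike.frame_expand (h : LeechLike β) {g : Fin 24 → L}
    (hg : ∀ i j, β (g i) (g j) = if i = j then 8 else 0) (x : L) :
    (8 : ℤ) • x = ∑ i, β x (g i) • g i := by
  classical
  by_contra hne
  set y := (8 : ℤ) • x - ∑ i, β x (g i) • g i with hy
  have hy0 : y ≠ 0 := fun e => hne (sub_eq_zero.1 e)
  have horth : ∀ j, β y (g j) = 0 := by
    intro j
    simp only [hy, map_sub, map_zsmul, map_sum, AddMonoidHom.sub_apply, AddMonoidHom.smul_apply,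
      AddMonoidHom.finsetSum_apply, hg, smul_eq_mul, mul_ite, mul_zero, Finset.sum_ite_eq',
      Finset.mem_univ, if_true]
    ring
  have hinj : Function.Injective g := by
    intro i j hij
    by_contra hne
    have h1 := hg i j
    have h2 := hg j j
    rw [hij, h2] at h1
    simp [hne] at h1
  have hnm : y ∉ Finset.univ.image g := by
    simp only [Finset.mem_image, Finset.mem_univ, true_and, not_exists]
    intro j hj
    have h1 := horth j
    rw [← hj, hg] at h1
    simp at h1
  have := h.rank (insert y (Finset.univ.image g)) ?_ ?_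
  · rw [Finset.card_insert_of_notMem hnm, Finset.card_image_of_injective _ hinj] at this
    simp at this
  · intro a ha
    simp only [Finset.mem_insert, Finset.mem_image, Finset.mem_univ, true_and] at ha
    rcases ha with rfl | ⟨j, rfl⟩
    · exact hy0
    · intro h0
      have := hg j j
      simp [h0] at this
  · intro a ha b hb hab
    simp only [Finset.mem_insert, Finset.mem_image, Finset.mem_univ, true_and] at ha hb
    rcases ha with rfl | ⟨i, rfl⟩ <;> rcases hb with rfl | ⟨j, rfl⟩
    · exact absurd rfl hab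
    · exact horth j
    · rw [h.symm]; exact horth i
    · rw [hg, if_neg]; rintro rfl; exact hab rfl

theorem LeechLike.frame_dot (h : LeechLike β) {g : Fin 24 → L}
    (hg : ∀ i j, β (g i) (g j) = if i = j then 8 else 0) (x y : L) :
    ∑ i, β x (g i) * β y (g i) = 8 * β x y := by
  have := congrArg (fun t => β t y) (h.frame_expand hg x)
  simp only [map_zsmul, map_sum, AddMonoidHom.smul_apply, AddMonoidHom.finsetSum_apply,
    smul_eq_mul] at this
  rw [this]
  exact Finset.sum_congr rfl fun i _ => by rw [h.symm y]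

end H3
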