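import Cfsg.Agent.H3.Index

set_option autoImplicit false
set_option linter.unusedSectionVars false

namespace H3
open Cfsg

section
variable {ι : Type*} [Fintype ι] [DecidableEq ι]

theorem sqNorm_add (x y : ι → ℤ) : sqNorm (x + y) = sqNorm x + sqNorm y + 2 * dotInt x y := by
  unfold sqNorm dotInt
  rw [Finset.mul_sum, ← Finset.sum_add_distrib, ← Finset.sum_add_distrib]
  exact Finset.sum_congr rfl fun i _ => by simp only [Pi.add_apply]; ring

theorem sqNorm_sub (x y : ι → ℤ) : sqNorm (x - y) = sqNorm x + sqNorm y - 2 * dotInt x y := by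
  unfold sqNorm dotInt
  rw [Finset.mul_sum, ← Finset.sum_add_distrib, ← Finset.sum_sub_distrib]
  exact Finset.sum_congr rfl fun i _ => by simp only [Pi.sub_apply]; ring

theorem dotInt_single (x : ι → ℤ) (i : ι) (a : ℤ) : dotInt x (Pi.single i a) = x i * a := by
  unfold dotInt
  rw [Finset.sum_eq_single i] <;> simp +contextual

/-- A lattice in coordinates given by a frame. -/
structure FrameLat (A : AddSubgroup (ι → ℤ)) : Prop where
  dvd : ∀ x ∈ A, (16 : ℤ) ∣ sqNorm x
  ne16 : ∀ x ∈ A, sqNorm x ≠ 16
  four : ∀ t : ι → ℤ, (2 : ℤ) ∣ ∑ i, t i → (fun i => 4 * t i) ∈ A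

variable {A : AddSubgroup (ι → ℤ)}

theorem FrameLat.dot_dvd (h : FrameLat A) {x y : ι → ℤ} (hx : x ∈ A) (hy : y ∈ A) :
    (8 : ℤ) ∣ dotInt x y := by
  have h1 := h.dvd _ (add_mem hx hy)
  have h2 := h.dvd _ hx
  have h3 := h.dvd _ hy
  rw [sqNorm_add] at h1
  omega

theorem FrameLat.parity (h : FrameLat A) {x : ι → ℤ} (hx : x ∈ A) (i j : ι) :
    x i % 2 = x j % 2 := by
  have h1 := h.four (Pi.single i 1 + Pi.single j 1) (by simp [Finset.sum_add_distrib])
  have h2 := h.dot_dvd hx h1
  have : dotInt x (fun k => 4 * (Pi.single i 1 + Pi.single j 1 : ι → ℤ) k) = 4 * (x i + x j) := by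
    have e1 := dotInt_single x i 1
    have e2 := dotInt_single x j 1
    unfold dotInt at *
    rw [mul_one] at e1 e2
    rw [← e1, ← e2, ← Finset.sum_add_distrib, Finset.mul_sum]
    exact Finset.sum_congr rfl fun k _ => by simp only [Pi.add_apply]; ring
  omega

/-- the code attached to the lattice -/
def CS (A : AddSubgroup (ι → ℤ)) : Set (Finset ι) :=
  {c | ∃ y : ι → ℤ, (fun i => 2 * y i) ∈ A ∧ oddSet y = c}

theorem CS_symmDiff {c d : Finset ι} (hc : c ∈ CS A) (hd : d ∈ CS A) : symmDiff c d ∈ CS A := by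
  obtain ⟨y, hy, rfl⟩ := hc
  obtain ⟨z, hz, rfl⟩ := hd
  refine ⟨y + z, ?_, oddSet_add y z⟩
  convert add_mem hy hz using 1
  funext i; simp only [Pi.add_apply]; ring

theorem CS_empty : ∅ ∈ CS A := by
  refine ⟨0, ?_, ?_⟩
  · convert A.zero_mem using 1
    funext i; simp
  · ext i; simp [mem_oddSet]

theorem FrameLat.four_dvd_card (h : FrameLat A) {c : Finset ι} (hc : c ∈ CS A) : 4 ∣ c.card := by
  obtain ⟨y, hy, rfl⟩ := hc
  have h1 := h.dvd _ hy
  rw [sqNorm_two_mul] at h1
  have h2 := four_dvd_sumsq_sub_card y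
  unfold sqNorm at h1
  omega

theorem FrameLat.card_ne_four (h : FrameLat A) {c : Finset ι} (hc : c ∈ CS A) : c.card ≠ 4 := by
  obtain ⟨y, hy, rfl⟩ := hc
  intro h4
  obtain ⟨i0, hi0⟩ : (oddSet y).Nonempty := Finset.card_pos.1 (by omega)
  have key : ∀ t : ι → ℤ, (2 : ℤ) ∣ ∑ i, t i →
      (∀ i, (y i - 2 * t i) ^ 2 = if i ∈ oddSet y then 1 else 0) → False := by
    intro t ht hsq
    have hm := sub_mem hy (h.four t ht)
    apply h.ne16 _ hm
    have : ((fun i => 2 * y i) - fun i => 4 * t i) = fun i => 2 * (y i - 2 * t i) := by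
      funext i; simp only [Pi.sub_apply]; ring
    rw [this, sqNorm_two_mul, sqNorm]
    simp_rw [hsq]
    rw [sum_ite_mem_const, h4]; norm_num
  rcases Int.emod_two_eq_zero_or_one (∑ i, y i / 2) with hp | hp
  · refine key (fun i => y i / 2) (by omega) fun i => ?_
    simp only [mem_oddSet]
    split_ifs with hi
    · have : y i - 2 * (y i / 2) = 1 := by omega
      rw [this]; norm_num
    · have : y i - 2 * (y i / 2) = 0 := by omega
      rw [this]; norm_num
  · refine key (fun i => y i / 2 + (Pi.single i0 1 : ι → ℤ) i) ?_ fun i => ?_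
    · rw [Finset.sum_add_distrib]; simp only [Finset.sum_pi_single', Finset.mem_univ, if_true]; omega
    · rw [mem_oddSet] at hi0
      simp only [mem_oddSet, Pi.single_apply]
      split_ifs with h1 h2 h2
      · have : y i - 2 * (y i / 2 + 1) = -1 := by omega
        rw [this]; norm_num
      · exact absurd (h1 ▸ hi0) h2
      · have : y i - 2 * (y i / 2 + 0) = 1 := by omega
        rw [this]; norm_num
      · have : y i - 2 * (y i / 2 + 0) = 0 := by omega
        rw [this]; norm_num

/-- the code as a subspace -/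
def codeOf (A : AddSubgroup (ι → ℤ)) : Submodule (ZMod 2) (ι → ZMod 2) :=
  AddSubgroup.toZModSubmodule 2 ((A.comap (dbl _)).map (red2 ι))

theorem mem_codeOf {w : ι → ZMod 2} : w ∈ codeOf A ↔ support₂ w ∈ CS A := by
  have e : ∀ y : ι → ℤ, dbl _ y = fun i => 2 * y i := fun y => by funext i; simp [dbl_apply]
  unfold codeOf
  rw [AddSubgroup.mem_toZModSubmodule, AddSubgroup.mem_map]
  constructor
  · rintro ⟨y, hy, rfl⟩
    refine ⟨y, by rw [← e]; exact hy, ?_⟩
    rw [← support_ind (oddSet y), ind_oddSet]; rfl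
  · rintro ⟨y, hy, h2⟩
    refine ⟨y, by rw [AddSubgroup.mem_comap, e]; exact hy, ?_⟩
    rw [← ind_support w, ← h2, ind_oddSet]; rfl

theorem FrameLat.code_orth (h : FrameLat A) {v w : ι → ZMod 2} (hv : v ∈ codeOf A)
    (hw : w ∈ codeOf A) : ∑ i, v i * w i = 0 := by
  obtain ⟨y, hy, h1⟩ := mem_codeOf.1 hv
  obtain ⟨z, hz, h2⟩ := mem_codeOf.1 hw
  rw [← ind_support v, ← ind_support w, ← h1, ← h2, ind_oddSet, ind_oddSet]
  have h3 := h.dot_dvd hy hz
  have : dotInt (fun i => 2 * y i) (fun i => 2 * z i) = 4 * ∑ i, y i * z i := by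
    unfold dotInt
    rw [Finset.mul_sum]; exact Finset.sum_congr rfl fun i _ => by ring
  have h4 : ((∑ i, y i * z i : ℤ) : ZMod 2) = 0 := by
    rw [intCast_zmod2, if_neg]; omega
  push_cast at h4
  exact h4

theorem four_le_sq {a : ℤ} (h : a % 4 = 2) : 4 ≤ a ^ 2 := by
  have : a ≤ -2 ∨ 2 ≤ a := by omega
  rcases this with h | h <;> nlinarith

theorem sqNorm_ge_of_two_mod_four {x : ι → ℤ} (hx : ∀ i, x i % 4 = 2) :
    4 * (Fintype.card ι : ℤ) ≤ sqNorm x := by
  have : ∑ _i : ι, (4 : ℤ) ≤ sqNorm x := Finset.sum_le_sum fun i _ => four_le_sq (hx i)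
  rw [Finset.sum_const, Finset.card_univ, nsmul_eq_mul] at this
  linarith

theorem FrameLat.tetrad (h : FrameLat A) (hι : Fintype.card ι = 24) (p : ι)
    (hd : ∀ f ∈ A, sqNorm f = 64 → ∃ g, ∃ z ∈ A, sqNorm g = 64 ∧ f - g = (2 : ℕ) • z ∧ g p ≠ 0)
    (T : Finset ι) (hT : T.card = 4) :
    ∃ T' : Finset ι, (T'.erase p).card ≤ 3 ∧ symmDiff T T' ∈ CS A := by
  have hf := h.four (fun i => if i ∈ T then 1 else 0) (by rw [sum_ite_mem_const, hT]; norm_num)
  obtain ⟨g, z, hz, hg, hfg, hp⟩ := hd _ hf (by
    have : ∀ i, (4 * (if i ∈ T then 1 else 0 : ℤ)) ^ 2 = if i ∈ T then 16 else 0 := by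
      intro i; split_ifs <;> norm_num
    unfold sqNorm
    simp_rw [this]
    rw [sum_ite_mem_const, hT]; norm_num)
  have hgi : ∀ i, g i = 4 * (if i ∈ T then 1 else 0) - 2 * z i := by
    intro i
    have := congrFun hfg i
    simp only [Pi.sub_apply, Pi.smul_apply, nsmul_eq_mul] at this
    omega
  have hev : ∀ i, z i % 2 = 0 := by
    by_contra hn
    push Not at hn
    obtain ⟨j, hj⟩ := hn
    have := sqNorm_ge_of_two_mod_four (x := g) fun i => by
      have := h.parity hz i j
      have := hgi i
      omega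
    rw [hι, hg] at this
    norm_num at this
  let u : ι → ℤ := fun i => (if i ∈ T then 1 else 0) - z i / 2
  have hu : ∀ i, g i = 4 * u i := fun i => by have := hgi i; have := hev i; simp only [u]; omega
  refine ⟨oddSet u, ?_, fun i => z i / 2, ?_, ?_⟩
  · have h1 : ∑ i, u i ^ 2 = 4 := by
      have : sqNorm g = 16 * ∑ i, u i ^ 2 := by
        unfold sqNorm
        rw [Finset.mul_sum]; exact Finset.sum_congr rfl fun i _ => by rw [hu i]; ring
      omega
    have h2 := card_oddSet_le_sumsq (Function.update u p 0)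
    have h3 : oddSet (Function.update u p 0) = (oddSet u).erase p := by
      ext i
      by_cases hi : i = p <;> simp [mem_oddSet, hi]
    have h4 : ∑ i, Function.update u p 0 i ^ 2 + u p ^ 2 = ∑ i, u i ^ 2 := by
      rw [← Finset.add_sum_erase _ _ (Finset.mem_univ p),
        ← Finset.add_sum_erase _ (fun i => u i ^ 2) (Finset.mem_univ p)]
      have : ∑ x ∈ Finset.univ.erase p, Function.update u p 0 x ^ 2 =
          ∑ x ∈ Finset.univ.erase p, u x ^ 2 :=
        Finset.sum_congr rfl fun i hi => by rw [Function.update_of_ne (Finset.ne_of_mem_erase hi)]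
      rw [this]; simp [add_comm]
    have h5 : u p ≠ 0 := fun e => hp (by rw [hu p, e]; rfl)
    have := sq_pos_of_ne_zero h5
    rw [h3] at h2
    omega
  · convert hz using 1
    funext i; have := hev i; beta_reduce; omega
  · ext i
    have := hev i
    by_cases hi : i ∈ T <;> simp only [mem_oddSet, Finset.mem_symmDiff, u, hi, if_true, if_false,
      not_true, not_false_iff, and_true, and_false, true_and, false_and, or_false, false_or] <;> omega

theorem FrameLat.cover (h : FrameLat A) (hι : Fintype.card ι = 24) (p : ι)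
    (hd : ∀ f ∈ A, sqNorm f = 64 → ∃ g, ∃ z ∈ A, sqNorm g = 64 ∧ f - g = (2 : ℕ) • z ∧ g p ≠ 0)
    (s : Finset ι) : ∃ c ∈ CS A, ((symmDiff c s).erase p).card ≤ 3 := by
  induction hn : (s.erase p).card using Nat.strong_induction_on generalizing s with
  | _ n ih =>
  by_cases h3 : n ≤ 3
  · refine ⟨∅, CS_empty, ?_⟩
    have : symmDiff ∅ s = s := bot_symmDiff s
    rw [this]; omega
  · obtain ⟨T, hTs, hT⟩ := Finset.exists_subset_card_eq (s := s.erase p) (n := 4) (by omega)
    obtain ⟨T', h1, h2⟩ := h.tetrad hι p hd T hT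
    have hlt : ((symmDiff (symmDiff T T') s).erase p).card < n := by
      have hsub : (symmDiff (symmDiff T T') s).erase p ⊆ (s.erase p \ T) ∪ T'.erase p := by
        intro i hi
        have := @hTs i
        simp only [Finset.mem_erase, Finset.mem_symmDiff, Finset.mem_union, Finset.mem_sdiff] at *
        tauto
      have := Finset.card_le_card hsub
      have := Finset.card_union_le (s.erase p \ T) (T'.erase p)
      have := Finset.card_sdiff_of_subset hTs
      omega
    obtain ⟨c, hc, h4⟩ := ih _ hlt _ rfl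
    exact ⟨symmDiff c (symmDiff T T'), CS_symmDiff hc h2, by rwa [symmDiff_assoc]⟩

theorem card_small (hι : Fintype.card ι = 24) (p : ι) :
    (Finset.univ.filter fun s : Finset ι => (s.erase p).card ≤ 3).card = 4096 := by
  rw [Finset.card_eq_sum_card_fiberwise (f := fun s => s.erase p)
    (t := (Finset.range 4).biUnion fun k => Finset.powersetCard k (Finset.univ.erase p))]
  · rw [Finset.sum_congr rfl (g := fun _ => 2), Finset.sum_const, Finset.card_biUnion]
    · simp only [Finset.card_powersetCard, Finset.card_erase_of_mem (Finset.mem_univ p),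
        Finset.card_univ, hι]
      decide
    · intro a _ b _ hab
      exact Finset.pairwise_disjoint_powersetCard _ hab
    · intro t ht
      simp only [Finset.mem_biUnion, Finset.mem_range, Finset.mem_powersetCard] at ht
      obtain ⟨k, hk, h1, h2⟩ := ht
      have hp : p ∉ t := fun h => by simpa using h1 h
      rw [Finset.card_eq_two]
      refine ⟨t, insert p t, fun e => hp (e ▸ Finset.mem_insert_self p t), ?_⟩
      ext s
      simp only [Finset.mem_filter, Finset.mem_univ, true_and, Finset.mem_insert,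
        Finset.mem_singleton]
      constructor
      · rintro ⟨-, rfl⟩
        by_cases hs : p ∈ s
        · right; rw [Finset.insert_erase hs]
        · left; rw [Finset.erase_eq_of_notMem hs]
      · rintro (rfl | rfl)
        · rw [Finset.erase_eq_of_notMem hp]; exact ⟨by omega, rfl⟩
        · rw [Finset.erase_insert hp]; exact ⟨by omega, rfl⟩
  · intro s hs
    simp only [Finset.coe_filter, Finset.mem_univ, true_and, Set.mem_ofPred_eq] at hs
    simp only [Finset.coe_biUnion, Finset.coe_range, Set.mem_Iio, Set.mem_iUnion, Finset.mem_coe,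
      Finset.mem_powersetCard]
    exact ⟨_, by omega, Finset.erase_subset_erase _ (Finset.subset_univ s), rfl⟩

theorem FrameLat.finrank_code (h : FrameLat A) (hι : Fintype.card ι = 24) (p : ι)
    (hd : ∀ f ∈ A, sqNorm f = 64 → ∃ g, ∃ z ∈ A, sqNorm g = 64 ∧ f - g = (2 : ℕ) • z ∧ g p ≠ 0) :
    Module.finrank (ZMod 2) (codeOf A) = 12 := by
  let S := {s : Finset ι // (s.erase p).card ≤ 3}
  let F : codeOf A × S → Finset ι := fun q => symmDiff (support₂ q.1.1) q.2.1
  have hF : Function.Bijective F := by
    constructor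
    · rintro ⟨⟨v, hv⟩, ⟨s, hs⟩⟩ ⟨⟨w, hw⟩, ⟨t, ht⟩⟩ he
      simp only [F] at he
      have h1 := CS_symmDiff (mem_codeOf.1 hv) (mem_codeOf.1 hw)
      have h2 : symmDiff (support₂ v) (support₂ w) = symmDiff s t := by
        have : support₂ v = symmDiff (symmDiff (support₂ w) t) s := by
          rw [← he, symmDiff_symmDiff_cancel_right]
        rw [this]
        ext i
        simp only [Finset.mem_symmDiff]
        tauto
      have h3 : (symmDiff s t).card ≤ 7 := by
        have hsub : symmDiff s t ⊆ insert p (s.erase p ∪ t.erase p) := by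
          intro i hi
          simp only [Finset.mem_erase, Finset.mem_symmDiff, Finset.mem_union, Finset.mem_insert] at *
          tauto
        have := Finset.card_le_card hsub
        have := Finset.card_insert_le p (s.erase p ∪ t.erase p)
        have := Finset.card_union_le (s.erase p) (t.erase p)
        omega
      have h4 := h.four_dvd_card h1
      have h5 := h.card_ne_four h1
      rw [h2] at h4 h5
      have h6 : symmDiff s t = ∅ := Finset.card_eq_zero.1 (by omega)
      have h7 : s = t := by simpa using h6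
      have h8 : support₂ v = support₂ w := by simpa [h6] using h2
      have h9 : v = w := by rw [← ind_support v, h8, ind_support]
      subst h7 h9; rfl
    · intro s
      obtain ⟨c, hc, h1⟩ := h.cover hι p hd s
      refine ⟨⟨⟨ind c, mem_codeOf.2 (by rwa [support_ind])⟩, ⟨_, h1⟩⟩, ?_⟩
      simp [F, support_ind]
  have h1 := Nat.card_eq_of_bijective F hF
  have h2 : Nat.card S = 4096 := by
    rw [← card_small hι p, Nat.card_eq_fintype_card, Fintype.card_subtype]
  rw [Nat.card_prod, h2, Nat.card_eq_fintype_card (α := Finset ι), Fintype.card_finset, hι,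
    Module.natCard_eq_pow_finrank (K := ZMod 2), Nat.card_zmod] at h1
  have h3 : 2 ^ Module.finrank (ZMod 2) (codeOf A) = 2 ^ 12 := by omega
  exact Nat.pow_right_injective (le_refl 2) h3

theorem FrameLat.exists_odd (h : FrameLat A) (hι : Fintype.card ι = 24)
    (hc : ∀ x ∈ A, ∃ y, ∃ z ∈ A, sqNorm y ≤ 64 ∧ x - y = (2 : ℕ) • z)
    (h1 : Finset.univ ∈ CS A) : ∃ z ∈ A, ∀ i, z i % 2 = 1 := by
  obtain ⟨y, hy, h2⟩ := h1
  obtain ⟨x, z, hz, h3, h4⟩ := hc _ hy
  refine ⟨z, hz, ?_⟩
  by_contra hn
  push Not at hn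
  obtain ⟨j, hj⟩ := hn
  have := sqNorm_ge_of_two_mod_four (x := x) fun i => by
    have h5 := h.parity hz i j
    have h6 : i ∈ oddSet y := h2 ▸ Finset.mem_univ i
    rw [mem_oddSet] at h6
    have := congrFun h4 i
    simp only [Pi.sub_apply, Pi.smul_apply, nsmul_eq_mul] at this
    omega
  rw [hι] at this
  omega

end

/-- A frame lattice whose code is the Golay code and which contains a vector `≡ 1 mod 4`
is the Leech lattice. -/
theorem FrameLat.eq_leech {A : AddSubgroup (GolayPt → ℤ)} (h : FrameLat A) (hC : CS A = GC)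
    {z : GolayPt → ℤ} (hz : z ∈ A) (hz1 : ∀ i, z i % 4 = 1) : A = leechLattice := by
  have hu : oddVec none ∈ A := by
    rcases Int.emod_two_eq_zero_or_one (∑ i, z i / 4) with hp | hp
    · exfalso
      have h1 := h.dvd _ (sub_mem hz (h.four (fun i => z i / 4) (by omega)))
      have : (z - fun i => 4 * (z i / 4)) = fun _ => 1 := by
        funext i; have := hz1 i; simp only [Pi.sub_apply]; omega
      rw [this, sqNorm] at h1
      simp only [one_pow, sum_const_golay] at h1
      omega
    · have h1 := sub_mem hz (h.four (fun i => z i / 4 + (Pi.single none 1 : GolayPt → ℤ) i) (by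
        rw [Finset.sum_add_distrib]; simp only [Finset.sum_pi_single', Finset.mem_univ, if_true]
        omega))
      convert h1 using 1
      funext i
      have := hz1 i
      simp only [oddVec, Pi.sub_apply, Pi.single_apply]
      split_ifs <;> omega
  have hsum : ∀ y : GolayPt → ℤ, (fun i => 2 * y i) ∈ A → (4 : ℤ) ∣ ∑ i, y i := by
    intro y hy
    have h1 := h.dot_dvd hy hu
    have : dotInt (fun i => 2 * y i) (oddVec none) = 2 * ∑ i, y i - 8 * y none := by
      have e := dotInt_single y none 8
      unfold dotInt at *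
      rw [mul_comm 8, ← e, Finset.mul_sum, ← Finset.sum_sub_distrib]
      apply Finset.sum_congr rfl
      intro i _
      simp only [oddVec, Pi.single_apply]
      split_ifs <;> ring
    omega
  have heven : ∀ y : GolayPt → ℤ, (fun i => 2 * y i) ∈ A ↔ (fun i => 2 * y i) ∈ leechLattice := by
    intro y
    rw [mem_leech, isL_even_iff, ← hC]
    refine ⟨fun hy => ⟨hsum y hy, y, hy, rfl⟩, ?_⟩
    rintro ⟨h1, y', h2, h3⟩
    have h4 : ∀ i, y i = y' i + 2 * ((y i - y' i) / 2) := by
      intro i
      have : i ∈ oddSet y' ↔ i ∈ oddSet y := by rw [h3]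
      rw [mem_oddSet, mem_oddSet] at this
      omega
    have h5 : ∑ i, y i = ∑ i, y' i + 2 * ∑ i, (y i - y' i) / 2 := by
      rw [Finset.mul_sum, ← Finset.sum_add_distrib]
      exact Finset.sum_congr rfl fun i _ => h4 i
    have h6 := hsum y' h2
    convert add_mem h2 (h.four (fun i => (y i - y' i) / 2) (by omega)) using 1
    funext i
    have := h4 i
    simp only [Pi.add_apply]; omega
  have hu' : oddVec none ∈ leechLattice := (mem_leech _).2 (isL_oddVec _)
  have key : ∀ x : GolayPt → ℤ, (∀ i, x i % 2 = x none % 2) → (x ∈ A ↔ x ∈ leechLattice) := by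
    intro x hx
    rcases Int.emod_two_eq_zero_or_one (x none) with hp | hp
    · have : x = fun i => 2 * (x i / 2) := by funext i; have := hx i; omega
      rw [this]; exact heven _
    · have : x - oddVec none = fun i => 2 * ((x i - oddVec none i) / 2) := by
        funext i; have := hx i
        simp only [Pi.sub_apply, oddVec]
        split_ifs <;> omega
      have h2 := heven fun i => (x i - oddVec none i) / 2
      rw [← this] at h2
      constructor
      · intro hx; simpa using add_mem (h2.1 (sub_mem hx hu)) hu'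
      · intro hx; simpa using add_mem (h2.2 (sub_mem hx hu')) hu
  ext x
  constructor
  · intro hx; exact (key x fun i => h.parity hx i none).1 hx
  · intro hx; exact (key x fun i => ((mem_leech x).1 hx).parity i none).2 hx

end H3
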