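import Cfsg.Agent.H3.Frame1
import Cfsg.Agent.H3.Frame2
import Cfsg.Agent.S0375

set_option autoImplicit false
set_option linter.unusedSectionVars false

namespace H3
open Cfsg

variable {L : Type*} [AddCommGroup L] {β : L →+ L →+ ℤ}

section
variable {ι : Type*} [Fintype ι] [DecidableEq ι]

/-- coordinate frames -/
structure IsFrame (β : L →+ L →+ ℤ) (g : ι → L) : Prop where
  orth : ∀ i j, β (g i) (g j) = if i = j then 8 else 0
  cong : ∀ i j, ∃ z, g i - g j = (2 : ℕ) • z
  dot : ∀ x y, ∑ i, β x (g i) * β y (g i) = 8 * β x y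

/-- coordinates in a frame -/
def coord (β : L →+ L →+ ℤ) (g : ι → L) : L →+ (ι → ℤ) where
  toFun x := fun i => β x (g i)
  map_zero' := by funext i; simp
  map_add' x y := by funext i; simp

theorem coord_apply (g : ι → L) (x : L) (i : ι) : coord β g x i = β x (g i) := rfl

theorem IsFrame.sqNorm_coord {g : ι → L} (hg : IsFrame β g) (x : L) :
    sqNorm (coord β g x) = 8 * β x x := by
  rw [← hg.dot, sqNorm]
  exact Finset.sum_congr rfl fun i _ => by rw [coord_apply, sq]

theorem IsFrame.injective (h : LeechLike β) {g : ι → L} (hg : IsFrame β g) :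
    Function.Injective (coord β g) := by
  rw [injective_iff_map_eq_zero]
  intro x hx
  have := hg.sqNorm_coord x
  rw [hx] at this
  apply h.eq_zero
  simp only [sqNorm, Pi.zero_apply] at this
  simp at this
  exact this

theorem IsFrame.frameLat (h : LeechLike β) {g : ι → L} (hg : IsFrame β g) (p : ι) :
    FrameLat (coord β g).range := by
  refine ⟨?_, ?_, ?_⟩
  · rintro _ ⟨x, rfl⟩
    have := h.even x
    rw [hg.sqNorm_coord]; omega
  · rintro _ ⟨x, rfl⟩
    have := h.no2 x
    rw [hg.sqNorm_coord]; omega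
  · rintro t ⟨k, hk⟩
    choose z hz using fun i => hg.cong i p
    have hz' : ∀ i j, β (z i) (g j) = (if i = j then 4 else 0) - (if p = j then 4 else 0) := by
      intro i j
      have := congrArg (fun t => β t (g j)) (hz i)
      simp only [map_sub, AddMonoidHom.sub_apply, hg.orth, map_nsmul, AddMonoidHom.smul_apply,
        nsmul_eq_mul] at this
      split_ifs at this ⊢ <;> omega
    refine ⟨∑ i, t i • z i + k • g p, ?_⟩
    funext j
    simp only [coord_apply, map_add, map_sum, map_zsmul, AddMonoidHom.add_apply,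
      AddMonoidHom.finsetSum_apply, AddMonoidHom.smul_apply, hz', hg.orth, smul_eq_mul, mul_sub,
      Finset.sum_sub_distrib, mul_ite, mul_zero, Finset.sum_ite_eq', Finset.mem_univ, if_true]
    split_ifs
    · rw [← Finset.sum_mul, hk]; ring
    · simp [mul_comm]

theorem IsFrame.short (h : LeechLike β) {g : ι → L} (hg : IsFrame β g) :
    ∀ x ∈ (coord β g).range, ∃ y, ∃ z ∈ (coord β g).range, sqNorm y ≤ 64 ∧ x - y = (2 : ℕ) • z := by
  rintro _ ⟨x, rfl⟩
  obtain ⟨y, z, h1, h2⟩ := h.exists_short x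
  refine ⟨coord β g y, coord β g z, ⟨z, rfl⟩, by rw [hg.sqNorm_coord]; omega, ?_⟩
  rw [← map_sub, h2, map_nsmul]

end

theorem LeechLike.exists_isFrame (h : LeechLike β) {f : L} (hf : β f f = 8) :
    ∃ g : Fin 24 → L, g 0 = f ∧ IsFrame β g := by
  obtain ⟨g, h0, h1, h2⟩ := h.exists_frame hf
  exact ⟨g, h0, h1, h2, h.frame_dot h1⟩

theorem IsFrame.spans {ι : Type*} [Fintype ι] [DecidableEq ι] (h : LeechLike β) {g : ι → L}
    (hg : IsFrame β g) (p : ι) : ∀ f ∈ (coord β g).range, sqNorm f = 64 →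
      ∃ g', ∃ z ∈ (coord β g).range, sqNorm g' = 64 ∧ f - g' = (2 : ℕ) • z ∧ g' p ≠ 0 := by
  rintro _ ⟨f, rfl⟩ hf
  rw [hg.sqNorm_coord] at hf
  obtain ⟨k, h0, hk⟩ := h.exists_isFrame (f := f) (by omega)
  have h1 := hk.dot (g p) (g p)
  rw [hg.orth, if_pos rfl] at h1
  obtain ⟨j, hj⟩ : ∃ j, β (g p) (k j) ≠ 0 := by
    by_contra hn
    push Not at hn
    simp [hn] at h1
  obtain ⟨z, hz⟩ := hk.cong 0 j
  refine ⟨coord β g (k j), coord β g z, ⟨z, rfl⟩, ?_, ?_, ?_⟩
  · rw [hg.sqNorm_coord, hk.orth, if_pos rfl]; norm_num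
  · rw [← map_sub, ← h0, hz, map_nsmul]
  · rw [coord_apply, h.symm]; exact hj

/-- Conway's characterisation, with control of one vector of norm 8. -/
theorem LeechLike.exists_iso (h : LeechLike β) {f : L} (hf : β f f = 8) :
    ∃ Φ : L ≃+ leechLattice, (∀ x, sqNorm (Φ x : GolayPt → ℤ) = 8 * β x x) ∧
      ∃ p : GolayPt, (Φ f : GolayPt → ℤ) = Pi.single p 8 ∨ (Φ f : GolayPt → ℤ) = Pi.single p (-8) := by
  obtain ⟨g, h0, hg⟩ := h.exists_isFrame hf
  have hA := hg.frameLat h 0
  obtain ⟨e, he⟩ := Cfsg.Agent.S0375.result (codeOf (coord β g).range)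
    (hA.finrank_code (by simp) 0 (hg.spans h 0)) (fun v hv w hw => hA.code_orth hv hw)
    (fun w hw => by rw [hammingNorm_eq_card_support]; exact hA.four_dvd_card (mem_codeOf.1 hw))
    (fun w hw => by rw [hammingNorm_eq_card_support]; exact hA.card_ne_four (mem_codeOf.1 hw))
  have hone : Finset.univ ∈ CS (coord β g).range := by
    have := mem_codeOf.1 ((he 1).1 one_mem_golay)
    convert this using 1
    ext i; simp [support₂]
  obtain ⟨_, ⟨x0, rfl⟩, hx0⟩ := hA.exists_odd (by simp) (hg.short h) hone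
  let s : Fin 24 → ℤ := fun i => if β x0 (g i) % 4 = 1 then 1 else -1
  have hs : ∀ i, s i = 1 ∨ s i = -1 := fun i => by simp only [s]; split_ifs <;> simp
  have hss : ∀ i, s i * s i = 1 := fun i => by rcases hs i with h | h <;> simp [h]
  let g' : GolayPt → L := fun p => s (e.symm p) • g (e.symm p)
  have hβ : ∀ x p, β x (g' p) = s (e.symm p) * β x (g (e.symm p)) := by
    intro x p; simp [g']
  have hg' : IsFrame β g' := by
    refine ⟨fun p q => ?_, fun p q => ?_, fun x y => ?_⟩
    · simp only [g', map_zsmul, AddMonoidHom.smul_apply, hg.orth, smul_eq_mul,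
        EmbeddingLike.apply_eq_iff_eq]
      split_ifs with hpq
      · rw [hpq, ← mul_assoc, hss]; rfl
      · simp
    · obtain ⟨z, hz⟩ := hg.cong (e.symm p) (e.symm q)
      simp only [g']
      rcases hs (e.symm p) with h1 | h1 <;> rcases hs (e.symm q) with h2 | h2 <;> rw [h1, h2]
      · exact ⟨z, by simpa using hz⟩
      · exact ⟨z + g (e.symm q), by rw [nsmul_add, ← hz, two_nsmul]; simp⟩
      · exact ⟨z - g (e.symm p), by rw [nsmul_sub, ← hz, two_nsmul]; simp; abel⟩
      · exact ⟨-z, by rw [neg_nsmul, ← hz]; simp; abel⟩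
    · rw [← hg.dot, ← Equiv.sum_comp e.symm]
      apply Finset.sum_congr rfl
      intro p _
      rw [hβ, hβ, mul_mul_mul_comm, hss, one_mul]
  have hA' := hg'.frameLat h none
  have hC : CS (coord β g').range = GC := by
    ext c
    rw [mem_GC, he, mem_codeOf]
    constructor
    · rintro ⟨y, ⟨x, hx⟩, rfl⟩
      refine ⟨fun i => s i * y (e i), ⟨x, ?_⟩, ?_⟩
      · funext i
        have := congrFun hx (e i)
        rw [coord_apply, hβ, Equiv.symm_apply_apply] at this
        rw [coord_apply]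
        beta_reduce
        rcases hs i with h1 | h1 <;> rw [h1] at this ⊢ <;> omega
      · ext i
        simp only [mem_oddSet, support₂, ind, Finset.mem_filter, Finset.mem_univ, true_and]
        rcases hs i with h1 | h1 <;> rw [h1] <;> split_ifs <;> simp <;> omega
    · rintro ⟨y, ⟨x, hx⟩, hy⟩
      refine ⟨fun p => s (e.symm p) * y (e.symm p), ⟨x, ?_⟩, ?_⟩
      · funext p
        have := congrFun hx (e.symm p)
        rw [coord_apply] at this
        rw [coord_apply, hβ, this]; ring
      · ext p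
        have : e.symm p ∈ oddSet y ↔ e.symm p ∈ support₂ fun i => ind c (e i) := by rw [hy]
        have h2 : e.symm p ∈ support₂ (fun i => ind c (e i)) ↔ p ∈ c := by simp [support₂, ind]
        rw [← h2, ← this, mem_oddSet, mem_oddSet]
        rcases hs (e.symm p) with h1 | h1 <;> rw [h1] <;> omega
  have hEq : (coord β g').range = leechLattice := by
    refine hA'.eq_leech hC (z := coord β g' x0) ⟨x0, rfl⟩ fun p => ?_
    have := hx0 (e.symm p)
    rw [coord_apply] at this
    rw [coord_apply, hβ]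
    simp only [s]
    split_ifs <;> omega
  let Φ : L ≃+ leechLattice :=
    (AddMonoidHom.ofInjective (hg'.injective h)).trans (AddEquiv.addSubgroupCongr hEq)
  have hΦ : ∀ x, (Φ x : GolayPt → ℤ) = coord β g' x := fun x => rfl
  refine ⟨Φ, fun x => by rw [hΦ, hg'.sqNorm_coord], e 0, ?_⟩
  have : ∀ p, (Φ f : GolayPt → ℤ) p = (Pi.single (e 0) (s 0 * 8) : GolayPt → ℤ) p := by
    intro p
    rw [hΦ, coord_apply, hβ, ← h0, hg.orth, Pi.single_apply]
    by_cases hp : p = e 0
    · simp [hp]
    · rw [if_neg, if_neg hp, mul_zero]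
      intro h; apply hp; rw [h]; simp
  rcases hs 0 with h1 | h1
  · left; funext p; rw [this, h1]; rfl
  · right; funext p; rw [this, h1]; rfl

end H3
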