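import Cfsg.Agent.H3.Frame3
import Cfsg.Agent.H3.Count

set_option autoImplicit false
set_option linter.unusedSectionVars false

namespace H3
open Cfsg

theorem rank_le {L : Type*} [AddCommGroup L] (β : L →+ L →+ ℤ) (hpos : ∀ x, x ≠ 0 → 0 < β x x)
    {ι : Type*} [Fintype ι] (j : L →+ (ι → ℤ)) (hj : Function.Injective j) (s : Finset L)
    (h0 : ∀ x ∈ s, x ≠ 0) (horth : ∀ x ∈ s, ∀ y ∈ s, x ≠ y → β x y = 0) :
    s.card ≤ Fintype.card ι := by
  classical
  have hli : LinearIndependent ℤ (fun x : s => j x) := by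
    rw [Fintype.linearIndependent_iff]
    intro c hc x
    have h1 : ∑ i : s, c i • (i : L) = 0 := by
      apply hj
      rw [map_sum, map_zero, ← hc]
      exact Finset.sum_congr rfl fun i _ => map_zsmul _ _ _
    have h2 := congrArg (fun t => β t x) h1
    simp only [map_sum, map_zsmul, AddMonoidHom.finsetSum_apply, AddMonoidHom.smul_apply,
      smul_eq_mul, map_zero, AddMonoidHom.zero_apply] at h2
    rw [Finset.sum_eq_single x] at h2
    · have := hpos x (h0 x x.2)
      rcases mul_eq_zero.1 h2 with h | h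
      · exact h
      · omega
    · intro y _ hyx
      rw [horth y y.2 x x.2 (fun e => hyx (Subtype.ext e)), mul_zero]
    · simp
  have := hli.fintype_card_le_finrank
  simpa using this

theorem dotInt_comm {α : Type*} [Fintype α] (x y : α → ℤ) : dotInt x y = dotInt y x :=
  Finset.sum_congr rfl fun _ _ => mul_comm _ _

theorem dotInt_self {α : Type*} [Fintype α] (x : α → ℤ) : dotInt x x = sqNorm x :=
  Finset.sum_congr rfl fun _ _ => (sq _).symm

theorem dotInt_add_left {α : Type*} [Fintype α] (x y z : α → ℤ) :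
    dotInt (x + y) z = dotInt x z + dotInt y z := by
  unfold dotInt
  rw [← Finset.sum_add_distrib]
  exact Finset.sum_congr rfl fun i _ => by simp only [Pi.add_apply]; ring

theorem dotInt_add_right {α : Type*} [Fintype α] (x y z : α → ℤ) :
    dotInt x (y + z) = dotInt x y + dotInt x z := by
  rw [dotInt_comm, dotInt_add_left, dotInt_comm y, dotInt_comm z]

theorem dotInt_neg_left {α : Type*} [Fintype α] (x z : α → ℤ) : dotInt (-x) z = -dotInt x z := by
  unfold dotInt
  rw [← Finset.sum_neg_distrib]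
  exact Finset.sum_congr rfl fun i _ => by simp only [Pi.neg_apply]; ring

theorem dotInt_neg_right {α : Type*} [Fintype α] (x z : α → ℤ) : dotInt x (-z) = -dotInt x z := by
  rw [dotInt_comm, dotInt_neg_left, dotInt_comm]

theorem dotInt_sub_left {α : Type*} [Fintype α] (x y z : α → ℤ) :
    dotInt (x - y) z = dotInt x z - dotInt y z := by
  rw [sub_eq_add_neg, dotInt_add_left, dotInt_neg_left, sub_eq_add_neg]

theorem dotInt_sub_right {α : Type*} [Fintype α] (x y z : α → ℤ) :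
    dotInt x (y - z) = dotInt x y - dotInt x z := by
  rw [sub_eq_add_neg, dotInt_add_right, dotInt_neg_right, sub_eq_add_neg]

theorem dotInt_zero_left {α : Type*} [Fintype α] (z : α → ℤ) : dotInt 0 z = 0 := by
  simp [dotInt]

theorem IsL.eight_dvd_dot {x y : GolayPt → ℤ} (hx : IsL x) (hy : IsL y) : (8 : ℤ) ∣ dotInt x y := by
  have h1 := (hx.add hy).sixteen_dvd
  have h2 := hx.sixteen_dvd
  have h3 := hy.sixteen_dvd
  rw [sqNorm_add] at h1
  omega

theorem isL_coe (x : leechLattice) : IsL (x : GolayPt → ℤ) := (mem_leech _).1 x.2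

/-- the inner product of the Leech lattice -/
def lβ : leechLattice →+ leechLattice →+ ℤ :=
  AddMonoidHom.mk' (fun x => AddMonoidHom.mk' (fun y => dotInt (x : GolayPt → ℤ) y / 8) (by
    intro y z
    have h1 := (isL_coe x).eight_dvd_dot (isL_coe y)
    have h2 := (isL_coe x).eight_dvd_dot (isL_coe z)
    simp only [AddSubgroup.coe_add, dotInt_add_right]
    omega)) (by
    intro x y
    ext z
    have h1 := (isL_coe x).eight_dvd_dot (isL_coe z)
    have h2 := (isL_coe y).eight_dvd_dot (isL_coe z)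
    simp only [AddSubgroup.coe_add, dotInt_add_left, AddMonoidHom.mk'_apply,
      AddMonoidHom.add_apply]
    omega)

theorem lβ_apply (x y : leechLattice) : 8 * lβ x y = dotInt (x : GolayPt → ℤ) y := by
  have h1 := (isL_coe x).eight_dvd_dot (isL_coe y)
  simp only [lβ, AddMonoidHom.mk'_apply]
  omega

theorem lβ_self (x : leechLattice) : 8 * lβ x x = sqNorm (x : GolayPt → ℤ) := by
  rw [lβ_apply, dotInt_self]

theorem ncard_leech_norm (n : ℤ) : {x : leechLattice | sqNorm (x : GolayPt → ℤ) = n}.ncard =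
    {x : GolayPt → ℤ | x ∈ leechLattice ∧ sqNorm x = n}.ncard := by
  rw [← Set.ncard_image_of_injective _ Subtype.val_injective]
  congr 1
  ext x
  simp only [Set.mem_image, Set.mem_ofPred_eq, Subtype.exists, exists_and_right, exists_eq_right]
  exact ⟨fun ⟨h1, h2⟩ => ⟨h1, h2⟩, fun ⟨h1, h2⟩ => ⟨h1, h2⟩⟩

theorem leechLike_leech : LeechLike lβ := by
  have hpos : ∀ x : leechLattice, x ≠ 0 → 32 ≤ sqNorm (x : GolayPt → ℤ) := fun x hx =>
    (isL_coe x).min_norm fun h => hx (Subtype.ext h)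
  have hpos' : ∀ x : leechLattice, x ≠ 0 → 0 < lβ x x := fun x hx => by
    have := hpos x hx; have := lβ_self x; omega
  have hn : ∀ n : ℤ, {x | lβ x x = n}.ncard =
      {x : GolayPt → ℤ | x ∈ leechLattice ∧ sqNorm x = 8 * n}.ncard := by
    intro n
    rw [← ncard_leech_norm]
    congr 1
    ext x
    have := lβ_self x
    simp only [Set.mem_ofPred_eq]; omega
  refine ⟨fun x y => ?_, hpos', fun x => ?_, fun x hx => ?_, fun s h0 h1 => ?_, index_dbl_leech,
    ?_, ?_, ?_⟩
  · have := lβ_apply x y; have := lβ_apply y x; have := dotInt_comm (x : GolayPt → ℤ) y; omega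
  · have := lβ_self x; have := (isL_coe x).sixteen_dvd; omega
  · have := lβ_self x
    have := hpos x (by rintro rfl; simp at hx)
    omega
  · rw [← card_golayPt]
    exact rank_le lβ hpos' leechLattice.subtype Subtype.val_injective s h0 h1
  · rw [hn]; exact ncard_norm32
  · rw [hn]; exact ncard_norm48
  · rw [hn]; exact ncard_norm64

/-- `Co0` is transitive on frames. -/
theorem exists_Co0_frame (f : leechLattice) (hf : sqNorm (f : GolayPt → ℤ) = 64) :
    ∃ g : Co0, ∃ p : GolayPt, ((g • f : leechLattice) : GolayPt → ℤ) = Pi.single p 8 ∨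
      ((g • f : leechLattice) : GolayPt → ℤ) = Pi.single p (-8) := by
  obtain ⟨Φ, h1, h2⟩ := leechLike_leech.exists_iso (f := f) (by have := lβ_self f; omega)
  exact ⟨⟨Φ.toEquiv, fun v w => Φ.map_add v w, fun v => (h1 v).trans (lβ_self v)⟩, h2⟩

open Matrix in
theorem leech_characterisation (B : Matrix (Fin 24) (Fin 24) ℤ) (hsymm : B.IsSymm)
    (hpos : ∀ x : Fin 24 → ℤ, x ≠ 0 → 0 < x ⬝ᵥ (B *ᵥ x))
    (heven : ∀ x : Fin 24 → ℤ, (2 : ℤ) ∣ x ⬝ᵥ (B *ᵥ x)) (h2 : ∀ x : Fin 24 → ℤ, x ⬝ᵥ (B *ᵥ x) ≠ 2)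
    (h4 : {x : Fin 24 → ℤ | x ⬝ᵥ (B *ᵥ x) = 4}.ncard = 196560)
    (h6 : {x : Fin 24 → ℤ | x ⬝ᵥ (B *ᵥ x) = 6}.ncard = 16773120)
    (h8 : {x : Fin 24 → ℤ | x ⬝ᵥ (B *ᵥ x) = 8}.ncard = 398034000) :
    ∃ f : (Fin 24 → ℤ) ≃+ leechLattice, ∀ x : Fin 24 → ℤ,
      sqNorm ((f x : leechLattice) : GolayPt → ℤ) = 8 * (x ⬝ᵥ (B *ᵥ x)) := by
  let β : (Fin 24 → ℤ) →+ (Fin 24 → ℤ) →+ ℤ :=
    AddMonoidHom.mk' (fun x => AddMonoidHom.mk' (fun y => x ⬝ᵥ (B *ᵥ y)) (by
      intro y z; rw [mulVec_add, dotProduct_add])) (by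
      intro x y; ext z; simp)
  have hβ : LeechLike β := by
    refine ⟨fun x y => ?_, hpos, heven, h2, fun s h0 h1 => ?_, ?_, h4, h6, h8⟩
    · change x ⬝ᵥ (B *ᵥ y) = y ⬝ᵥ (B *ᵥ x)
      rw [dotProduct_mulVec, ← mulVec_transpose, hsymm.eq, dotProduct_comm]
    · simpa using rank_le β hpos (AddMonoidHom.id _) Function.injective_id s h0 h1
    · simpa using index_dbl_range (Fin 24)
  obtain ⟨f, hf⟩ : {x : Fin 24 → ℤ | x ⬝ᵥ (B *ᵥ x) = 8}.Nonempty :=
    Set.nonempty_of_ncard_ne_zero (by rw [h8]; norm_num)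
  obtain ⟨Φ, h1, -⟩ := hβ.exists_iso (f := f) hf
  exact ⟨Φ, h1⟩

end H3
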