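import Cfsg.Agent.H3.Leech
import Cfsg.Agent.S0358

set_option autoImplicit false

namespace H3
open Cfsg
open scoped Pointwise

/-- reduction mod 2 -/
def red2 (α : Type*) : (α → ℤ) →+ (α → ZMod 2) where
  toFun y := fun i => (y i : ZMod 2)
  map_zero' := by funext i; simp
  map_add' x y := by funext i; simp

theorem red2_surjective (α : Type*) : Function.Surjective (red2 α) := by
  intro w
  exact ⟨fun i => (w i).val, by funext i; simp [red2]⟩

/-- doubling -/
def dbl (A : Type*) [AddCommGroup A] : A →+ A where
  toFun y := (2 : ℕ) • y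
  map_zero' := by simp
  map_add' x y := by simp

theorem dbl_apply {A : Type*} [AddCommGroup A] (x : A) : dbl A x = (2 : ℕ) • x := rfl

theorem dbl_injective (α : Type*) : Function.Injective (dbl (α → ℤ)) := by
  intro x y h
  funext i
  have := congrFun h i
  simp only [dbl_apply, Pi.smul_apply, nsmul_eq_mul] at this
  omega

theorem dbl_range_eq_ker (α : Type*) : (dbl (α → ℤ)).range = (red2 α).ker := by
  ext x
  simp only [AddMonoidHom.mem_range, AddMonoidHom.mem_ker]
  constructor
  · rintro ⟨y, rfl⟩
    funext i
    change (((2 : ℕ) • y i : ℤ) : ZMod 2) = 0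
    rw [intCast_zmod2, if_neg]
    simp only [nsmul_eq_mul]; omega
  · intro h
    refine ⟨fun i => x i / 2, ?_⟩
    funext i
    have := congrFun h i
    simp only [red2, AddMonoidHom.coe_mk, ZeroHom.coe_mk, Pi.zero_apply, intCast_zmod2] at this
    simp only [dbl_apply, Pi.smul_apply, nsmul_eq_mul]
    split_ifs at this with h1
    · exact absurd this one_ne_zero
    · omega

theorem index_dbl_range (α : Type*) [Fintype α] :
    (dbl (α → ℤ)).range.index = 2 ^ Fintype.card α := by
  classical
  rw [dbl_range_eq_ker, AddSubgroup.index_ker, AddMonoidHom.range_eq_top.2 (red2_surjective α),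
    AddSubgroup.card_top, Nat.card_eq_fintype_card, Fintype.card_fun, ZMod.card]

theorem card_golayCode : Nat.card golayCode = 4096 := by
  rw [Module.natCard_eq_pow_finrank (K := ZMod 2), Cfsg.Agent.S0358.result, Nat.card_zmod]
  norm_num

theorem ncard_GC : GC.ncard = 4096 := by
  rw [← card_golayCode]
  unfold GC supports
  rw [Set.ncard_image_of_injective]
  · rfl
  · intro v w h
    rw [← ind_support v, h, ind_support]

theorem index_golayCode : golayCode.toAddSubgroup.index = 2 ^ 12 := by
  have h := golayCode.toAddSubgroup.card_mul_index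
  have h1 : Nat.card golayCode.toAddSubgroup = 4096 := card_golayCode
  rw [h1, Nat.card_eq_fintype_card, Fintype.card_fun, ZMod.card, card_golayPt] at h
  omega

/-- vectors whose odd positions form a codeword -/
def subB : AddSubgroup (GolayPt → ℤ) := golayCode.toAddSubgroup.comap (red2 GolayPt)

theorem mem_subB (y : GolayPt → ℤ) : y ∈ subB ↔ oddSet y ∈ GC := by
  rw [mem_GC, ind_oddSet]; rfl

/-- halves of the even Leech vectors -/
def subB' : AddSubgroup (GolayPt → ℤ) := leechLattice.comap (dbl _)

theorem mem_subB' (y : GolayPt → ℤ) : y ∈ subB' ↔ (4 : ℤ) ∣ ∑ i, y i ∧ oddSet y ∈ GC := by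
  rw [← isL_even_iff, ← mem_leech]
  have : (fun i => 2 * y i) = dbl _ y := by funext i; simp [dbl_apply]
  rw [this]; rfl

theorem index_subB : subB.index = 2 ^ 12 := by
  rw [subB, AddSubgroup.index_comap_of_surjective _ (red2_surjective _), index_golayCode]

theorem index_subB' : subB'.index = 2 ^ 13 := by
  have hle : subB' ≤ subB := fun y hy => (mem_subB y).2 ((mem_subB' y).1 hy).2
  have h2 : subB'.relIndex subB = 2 := by
    rw [AddSubgroup.relIndex_eq_two_iff_exists_notMem_and]
    have ho : oddSet (Pi.single none 2 : GolayPt → ℤ) = ∅ := by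
      ext i; by_cases hi : i = none <;> simp [mem_oddSet, hi]
    refine ⟨Pi.single none 2, ?_, ?_, ?_⟩
    · rw [mem_subB, ho]; exact GC_empty
    · rw [mem_subB']; simp
    · intro b hb
      rw [mem_subB] at hb
      rw [mem_subB', mem_subB', oddSet_add, ho]
      simp only [Pi.add_apply, Finset.sum_add_distrib, Finset.sum_pi_single', Finset.mem_univ,
        if_true]
      have h1 := two_dvd_sum_sub_card b
      have h3 := GC_four_dvd hb
      have : symmDiff (oddSet b) ∅ = oddSet b := by simp
      rw [this]
      simp only [hb, and_true]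
      omega
  rw [← AddSubgroup.relIndex_mul_index hle, h2, index_subB]; norm_num

/-- the vector `(-3, 1^23)` with `-3` at `j` -/
def oddVec (j : GolayPt) : GolayPt → ℤ := fun i => if i = j then -3 else 1

theorem isL_oddVec (j : GolayPt) : IsL (oddVec j) := by
  refine ⟨1, Pi.single j (-2), fun i => ?_, by simp, ?_⟩
  · by_cases hi : i = j <;> simp [oddVec, hi]
  · convert GC_empty using 1
    ext i; by_cases hi : i = j <;> simp [mem_oddSet, hi]

theorem index_leech : leechLattice.index = 2 ^ 36 := by
  have h1 : (subB'.map (dbl _)).index = 2 ^ 37 := by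
    rw [AddSubgroup.index_map_of_injective _ (dbl_injective _), index_subB', index_dbl_range,
      card_golayPt]
    norm_num
  have hle : subB'.map (dbl _) ≤ leechLattice := AddSubgroup.map_comap_le _ _
  have hmem : ∀ x ∈ leechLattice, x none % 2 = 0 → x ∈ subB'.map (dbl _) := by
    intro x hx h0
    have hp := ((mem_leech x).1 hx).parity none
    have e : dbl _ (fun i => x i / 2) = x := by
      funext i; have := hp i; simp only [dbl_apply, Pi.smul_apply, nsmul_eq_mul]; omega
    refine ⟨fun i => x i / 2, ?_, e⟩
    change dbl _ (fun i => x i / 2) ∈ leechLattice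
    rw [e]; exact hx
  have h2 : (subB'.map (dbl _)).relIndex leechLattice = 2 := by
    rw [AddSubgroup.relIndex_eq_two_iff_exists_notMem_and]
    refine ⟨oddVec none, (mem_leech _).2 (isL_oddVec _), ?_, ?_⟩
    · rintro ⟨y, -, hy⟩
      have := congrFun hy none
      simp only [dbl_apply, Pi.smul_apply, nsmul_eq_mul, oddVec, if_true] at this
      omega
    · intro b hb
      rcases Int.emod_two_eq_zero_or_one (b none) with h | h
      · exact Or.inr (hmem b hb h)
      · refine Or.inl (hmem _ (add_mem hb ((mem_leech _).2 (isL_oddVec _))) ?_)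
        simp only [Pi.add_apply, oddVec, if_true]; omega
  have := AddSubgroup.relIndex_mul_index hle
  rw [h1, h2] at this
  omega

/-- `2Λ` has index `2^24` in `Λ`. -/
theorem index_dbl_leech : (dbl leechLattice).range.index = 2 ^ 24 := by
  have h1 : (leechLattice.map (dbl _)).index = 2 ^ 60 := by
    rw [AddSubgroup.index_map_of_injective _ (dbl_injective _), index_leech, index_dbl_range,
      card_golayPt]
    norm_num
  have h2 : ((dbl leechLattice).range).map leechLattice.subtype = leechLattice.map (dbl _) := by
    ext x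
    simp only [AddSubgroup.mem_map, AddMonoidHom.mem_range]
    constructor
    · rintro ⟨_, ⟨y, rfl⟩, rfl⟩
      exact ⟨y, y.2, rfl⟩
    · rintro ⟨y, hy, rfl⟩
      exact ⟨_, ⟨⟨y, hy⟩, rfl⟩, rfl⟩
  have h3 := AddSubgroup.index_map_subtype (dbl leechLattice).range
  rw [h2, h1, index_leech] at h3
  omega

end H3
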