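import Cfsg.Agent.H3.ZCor
import Cfsg.Agent.H3.SLTwo
import Cfsg.Agent.H7.CyclicTwo

/-! Abelian `2`-subgroups of `PSL(2, q)`; automorphisms centralizing an abelian Sylow
`2`-subgroup. -/

set_option autoImplicit false
set_option linter.unusedSectionVars false

namespace H3

open Subgroup Cfsg MatrixGroups

section

variable {G : Type*} [Group G] [Finite G]

theorem SLLike.eq_of_commute {L : Subgroup G} {z : G} (h : SLLike L z) {v u c : G} (hv : v ∈ L)
    (hu : u ∈ L) (hc : c ∈ L) (hvu : v * u = z * (u * v)) (h1 : c * v = v * c)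
    (h2 : c * u = u * c) : c = 1 ∨ c = z := by
  have h3 := h.anti _ (mul_mem hc hv) u hu (by
    rw [mul_assoc, hvu, ← mul_assoc, h.comm c hc, mul_assoc, ← mul_assoc c, h2, mul_assoc])
  rw [Commute.mul_mul_mul_comm h1.symm, h.anti v hv u hu hvu, mul_eq_right] at h3
  exact h.inv c hc h3

theorem SLLike.exists_gen {L T : Subgroup G} {z : G} (h : SLLike L z) (hT : T ≤ L)
    (h2 : IsPGroup 2 T) (hab : ∀ a ∈ T, ∀ b ∈ T, a * b = b * a ∨ a * b = z * (b * a))
    {v : G} (hv : v ∈ T) (hv1 : v ≠ 1) (hvz : v ≠ z) :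
    ∃ u ∈ T, ∀ K : Subgroup G, z ∈ K → v ∈ K → u ∈ K → T ≤ K := by
  by_cases hc : ∀ a ∈ T, ∀ b ∈ T, a * b = b * a
  · rcases H7.isCyclic_or_quaternion h2 (H7.rank_le_one_of_unique_involution fun x y hx hy => by
      have aux : ∀ x : T, orderOf x = 2 → (x : G) = z := fun x hx =>
        (h.inv x (hT x.2) (congrArg Subtype.val (_root_.L.mul_self_of_orderOf hx))).resolve_left
          fun e => by rw [OneMemClass.coe_eq_one.mp e] at hx; simp at hx
      exact Subtype.ext ((aux x hx).trans (aux y hy).symm)) with hcyc | ⟨n, ⟨e⟩⟩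
    · obtain ⟨u, hu⟩ := hcyc.exists_generator
      refine ⟨u, u.2, fun K _ _ hK s hs => ?_⟩
      obtain ⟨k, hk⟩ := hu ⟨s, hs⟩
      rw [show s = (u : G) ^ k from (congrArg Subtype.val hk).symm]
      exact zpow_mem hK k
    · exfalso
      have h3 : e.symm (.a 1) * e.symm (.xa 0) = e.symm (.xa 0) * e.symm (.a 1) :=
        Subtype.ext (hc _ (e.symm _).2 _ (e.symm _).2)
      rw [← map_mul, ← map_mul, e.symm.apply_eq_iff_eq, QuaternionGroup.a_mul_xa,
        QuaternionGroup.xa_mul_a, QuaternionGroup.xa.injEq] at h3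
      have h4 : ((2 : ℕ) : ZMod (2 * 2 ^ (n + 1))) = 0 := by
        push_cast; linear_combination -h3
      have h5 := Nat.le_of_dvd two_pos ((ZMod.natCast_eq_zero_iff _ _).1 h4)
      have h6 : 0 < 2 ^ n := Nat.two_pow_pos n
      rw [pow_succ] at h5
      omega
  push Not at hc
  obtain ⟨a, ha, b, hb, hne⟩ := hc
  obtain ⟨u, hu, hvu⟩ : ∃ u ∈ T, v * u = z * (u * v) := by
    by_contra hcon
    push Not at hcon
    rcases h.eq_of_commute (hT ha) (hT hb) (hT hv) ((hab a ha b hb).resolve_left hne)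
      ((hab v hv a ha).resolve_right (hcon a ha)) ((hab v hv b hb).resolve_right (hcon b hb))
      with e | e
    exacts [hv1 e, hvz e]
  refine ⟨u, hu, fun K hz hvK huK s hs => ?_⟩
  have key : ∀ c ∈ T, c * v = v * c → c * u = u * c → c ∈ K := fun c hc h1 h2 => by
    rcases h.eq_of_commute (hT hv) (hT hu) (hT hc) hvu h1 h2 with rfl | rfl
    exacts [one_mem _, hz]
  have huv : u * v = z * (v * u) := by rw [hvu, ← mul_assoc, h.sq, one_mul]
  have cz : ∀ c ∈ T, ∀ x : G, c * (z * x) = z * (c * x) := fun c hc x => by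
    rw [← mul_assoc, h.comm c (hT hc), mul_assoc]
  have zz : ∀ x : G, z * (z * x) = x := fun x => by rw [← mul_assoc, h.sq, one_mul]
  have key2 : ∀ c ∈ T, c * v = v * c → c ∈ K := fun c hc h1 => by
    rcases hab c hc u hu with e | e
    · exact key c hc h1 e
    · refine (mul_mem_cancel_right hvK).1 (key _ (mul_mem hc hv) ?_ ?_)
      · rw [← mul_assoc, ← h1]
      · rw [mul_assoc, hvu, cz c hc, ← mul_assoc c, e, mul_assoc z, zz, mul_assoc]
  rcases hab s hs v hv with e | e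
  · exact key2 s hs e
  · refine (mul_mem_cancel_right huK).1 (key2 _ (mul_mem hs hu) ?_)
    rw [mul_assoc, huv, cz s hs, ← mul_assoc s, e, mul_assoc z, zz, mul_assoc]

theorem exists_gen_psl {F : Type*} [Field F] [Fintype F] (hF : Odd (Fintype.card F))
    (ρ : PSL(2, F) →* G) (hρ : Function.Injective ρ) {P : Subgroup G} (hP : P ≤ ρ.range)
    (h2 : IsPGroup 2 P) (hab : ∀ a ∈ P, ∀ b ∈ P, a * b = b * a) {v : G} (hv : v ∈ P)
    (hv1 : v ≠ 1) : ∃ u ∈ P, ∀ K : Subgroup G, v ∈ K → u ∈ K → P ≤ K := by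
  have h := slLike_top hF
  set σ : SL(2, F) →* G := ρ.comp (QuotientGroup.mk' _) with hσ
  have hker : ∀ x, σ x = 1 ↔ x = 1 ∨ x = -1 := fun x => by
    rw [hσ, MonoidHom.comp_apply, map_eq_one_iff ρ hρ, QuotientGroup.mk'_apply,
      QuotientGroup.eq_one_iff]
    constructor
    · intro hx
      obtain ⟨r, hr, e⟩ := Matrix.SpecialLinearGroup.mem_center_iff.mp hx
      refine h.inv x trivial (Subtype.ext ?_)
      rw [Matrix.SpecialLinearGroup.coe_mul, ← e, ← map_mul, ← pow_two,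
        show r ^ 2 = 1 by simpa using hr, map_one]
      rfl
    · rintro (rfl | rfl)
      · exact one_mem _
      · exact mem_center_iff.mpr fun g => by simp
  have hsur : ∀ x ∈ P, ∃ y, σ y = x := fun x hx => by
    obtain ⟨y, rfl⟩ := hP hx
    obtain ⟨y, rfl⟩ := QuotientGroup.mk'_surjective _ y
    exact ⟨y, rfl⟩
  obtain ⟨w, rfl⟩ := hsur v hv
  obtain ⟨u, hu, hK⟩ := h.exists_gen (T := P.comap σ) le_top
    (h2.comap_of_ker_isPGroup σ fun x => ⟨1, Subtype.ext (by
      rcases (hker x).1 x.2 with e | e <;> simp [e])⟩)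
    (fun a ha b hb => by
      have h1 : σ (a * b * (b * a)⁻¹) = 1 := by
        rw [map_mul, map_inv, map_mul, map_mul, hab _ ha _ hb, mul_inv_cancel]
      rwa [hker, mul_inv_eq_one, mul_inv_eq_iff_eq_mul] at h1)
    (v := w) hv (fun e => hv1 ((hker w).2 (Or.inl e))) (fun e => hv1 ((hker w).2 (Or.inr e)))
  refine ⟨σ u, hu, fun K h1 h2 x hx => ?_⟩
  obtain ⟨y, rfl⟩ := hsur x hx
  exact hK (K.comap σ) (by rw [mem_comap, (hker _).2 (Or.inr rfl)]; exact one_mem _) h1 h2 hx

theorem exists_involution_psl (F : Type*) [Field F] [Fintype F] :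
    ∃ x : PSL(2, F), orderOf x = 2 := by
  obtain ⟨l, l1, l2, l3, l4⟩ := exists_sl (F := F) (a := 0) (b := -1) (c := 1) (d := 0) (by ring)
  refine ⟨QuotientGroup.mk l, orderOf_eq_prime ?_ ?_⟩
  · have : l * l = -1 := by
      rw [sl_eq_neg_one_iff]
      simp [sl_mul, l1, l2, l3, l4]
    rw [pow_two, ← QuotientGroup.mk_mul, this, QuotientGroup.eq_one_iff]
    exact mem_center_iff.mpr fun g => by simp
  · rw [Ne, QuotientGroup.eq_one_iff, Matrix.SpecialLinearGroup.mem_center_iff]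
    rintro ⟨r, -, e⟩
    have := congrFun (congrFun e 1) 0
    rw [l3] at this
    simp at this

/-- A `2`-automorphism of a nonabelian simple group fixing an abelian Sylow `2`-subgroup is
inner. -/
theorem inner_of_fixes_abelian_sylow [IsSimpleGroup G] (hG : ¬ IsMulCommutative G) {t : G}
    (ht : orderOf t = 2) (S : Sylow 2 G)
    (hab : ∀ a ∈ (S : Subgroup G), ∀ b ∈ (S : Subgroup G), a * b = b * a) (φ : MulAut G)
    (hφ : L.PElt 2 φ) (hS : ∀ s ∈ (S : Subgroup G), φ s = s) :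
    ∃ g : G, ∀ x : G, φ x = g * x * g⁻¹ := by
  have hZ : center G = ⊥ := (IsSimpleGroup.eq_bot_or_eq_top_of_normal _ inferInstance).resolve_right
    fun h => hG ⟨⟨fun a b => mem_center_iff.mp (h ▸ mem_top b) a⟩⟩
  have hconj : ∀ (ψ : MulAut G) (g : G), ψ * MulAut.conj g * ψ⁻¹ = MulAut.conj (ψ g) :=
    fun ψ g => by ext x; simp
  have hinj : Function.Injective (MulAut.conj : G →* MulAut G) := by
    rw [injective_iff_map_eq_one]
    intro g hg
    rw [← mem_bot, ← hZ, mem_center_iff]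
    intro x
    have := DFunLike.congr_fun hg x
    rw [MulAut.conj_apply, MulAut.one_apply, mul_inv_eq_iff_eq_mul] at this
    exact this.symm
  have hn : ((⊤ : Subgroup G).map (MulAut.conj : G →* MulAut G)).Normal :=
    ⟨by rintro _ ⟨g, -, rfl⟩ ψ; exact ⟨ψ g, trivial, (hconj ψ g).symm⟩⟩
  have e : G ≃* ((⊤ : Subgroup G).map (MulAut.conj : G →* MulAut G)) :=
    topEquiv.symm.trans (equivMapOfInjective _ _ hinj)
  have := e.symm.isSimpleGroup
  obtain ⟨g, -, hg⟩ := mem_of_centralizes_abelian_sylow (hF := hn) (p := φ) (eq_bot_iff.mpr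
    fun ψ hψ => by
      rw [mem_bot]
      ext g
      have h1 := hψ _ (mem_map_of_mem _ (mem_top g))
      rw [eq_comm, ← mul_inv_eq_iff_eq_mul, hconj] at h1
      exact hinj h1)
    (oddCore_eq_bot_of_simple (t := e t) (by rw [MulEquiv.orderOf_eq, ht]))
    ((H5.isSylowOf_top S).map MulAut.conj) (by
      rintro _ ⟨a, ha, rfl⟩ _ ⟨b, hb, rfl⟩
      rw [← map_mul, ← map_mul, hab a ha b hb]) hφ (by
      rintro _ ⟨s, hs, rfl⟩
      rw [eq_comm, ← mul_inv_eq_iff_eq_mul, hconj, hS s hs])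
  exact ⟨g, fun x => by rw [← hg]; rfl⟩

end

end H3
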