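import Cfsg.Agent.H3.Code

set_option autoImplicit false

namespace H3
open Cfsg
open scoped Pointwise

/-- Working description of the Leech lattice. -/
def IsL (x : GolayPt → ℤ) : Prop :=
  ∃ (m : ℤ) (y : GolayPt → ℤ), (∀ i, x i = m + 2 * y i) ∧ (4 : ℤ) ∣ (∑ i, y i) - 2 * m ∧ oddSet y ∈ GC

theorem sum_const_golay (m : ℤ) : ∑ _i : GolayPt, m = 24 * m := by
  rw [Finset.sum_const, Finset.card_univ, card_golayPt]; simp

theorem sum_lin (m : ℤ) (y : GolayPt → ℤ) : ∑ i, (m + 2 * y i) = 24 * m + 2 * ∑ i, y i := by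
  rw [Finset.sum_add_distrib, sum_const_golay, Finset.mul_sum]

theorem mem_leechSet_iff (x : GolayPt → ℤ) : x ∈ leechSet ↔ IsL x := by
  constructor
  · rintro ⟨m, h1, h2, h3⟩
    have hx : ∀ i, x i = m + 2 * ((x i - m) / 2) := by
      intro i
      have := h1 i
      unfold Int.ModEq at this
      omega
    refine ⟨m, fun i => (x i - m) / 2, hx, ?_, ?_⟩
    · have hs : ∑ i, x i = 24 * m + 2 * ∑ i, (x i - m) / 2 := by
        rw [← sum_lin]; exact Finset.sum_congr rfl fun i _ => hx i
      unfold Int.ModEq at h2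
      beta_reduce
      omega
    · convert h3 (m + 2) using 1
      ext i
      simp only [mem_oddSet, Finset.mem_filter, Finset.mem_univ, true_and]
      have := h1 i
      unfold Int.ModEq at *
      omega
  · rintro ⟨m, y, h1, h2, h3⟩
    refine ⟨m, fun i => ?_, ?_, fun k => ?_⟩
    · have := h1 i
      unfold Int.ModEq
      omega
    · have hs : ∑ i, x i = 24 * m + 2 * ∑ i, y i := by
        rw [← sum_lin]; exact Finset.sum_congr rfl fun i _ => h1 i
      unfold Int.ModEq
      omega
    · have hk : (k - m) % 2 = 1 ∨ (k - m) % 4 = 0 ∨ (k - m) % 4 = 2 := by omega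
      rcases hk with hk | hk | hk
      · convert GC_empty using 1
        ext i
        have := h1 i
        simp only [Finset.mem_filter, Finset.mem_univ, true_and, Finset.notMem_empty, iff_false]
        unfold Int.ModEq
        omega
      · convert GC_compl h3 using 1
        ext i
        have := h1 i
        simp only [Finset.mem_filter, Finset.mem_univ, true_and, Finset.mem_compl, mem_oddSet]
        unfold Int.ModEq
        omega
      · convert h3 using 1
        ext i
        have := h1 i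
        simp only [Finset.mem_filter, Finset.mem_univ, true_and, mem_oddSet]
        unfold Int.ModEq
        omega

theorem IsL.zero : IsL 0 := by
  refine ⟨0, 0, by simp, by simp, ?_⟩
  convert GC_empty using 1
  ext i; simp [mem_oddSet]

theorem IsL.add {x y : GolayPt → ℤ} (hx : IsL x) (hy : IsL y) : IsL (x + y) := by
  obtain ⟨m, a, h1, h2, h3⟩ := hx
  obtain ⟨n, b, k1, k2, k3⟩ := hy
  refine ⟨m + n, a + b, fun i => ?_, ?_, ?_⟩
  · simp only [Pi.add_apply, h1 i, k1 i]; ring
  · simp only [Pi.add_apply, Finset.sum_add_distrib]; omega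
  · rw [oddSet_add]; exact GC_symmDiff h3 k3

theorem IsL.neg {x : GolayPt → ℤ} (hx : IsL x) : IsL (-x) := by
  obtain ⟨m, a, h1, h2, h3⟩ := hx
  refine ⟨-m, -a, fun i => ?_, ?_, ?_⟩
  · simp only [Pi.neg_apply, h1 i]; ring
  · simp only [Pi.neg_apply, Finset.sum_neg_distrib]; omega
  · rw [oddSet_neg]; exact h3

/-- The Leech set as a subgroup. -/
def leechSub : AddSubgroup (GolayPt → ℤ) where
  carrier := {x | IsL x}
  zero_mem' := IsL.zero
  add_mem' := IsL.add
  neg_mem' := IsL.neg

theorem leechSub_coe : (leechSub : Set (GolayPt → ℤ)) = leechSet := by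
  ext x; exact (mem_leechSet_iff x).symm

theorem leechLattice_eq : leechLattice = leechSub := by
  unfold leechLattice
  rw [← leechSub_coe, AddSubgroup.closure_eq]

theorem mem_leech (x : GolayPt → ℤ) : x ∈ leechLattice ↔ IsL x := by
  rw [leechLattice_eq]; rfl

/-- even vectors -/
theorem isL_even_iff (y : GolayPt → ℤ) :
    IsL (fun i => 2 * y i) ↔ (4 : ℤ) ∣ ∑ i, y i ∧ oddSet y ∈ GC := by
  constructor
  · rintro ⟨m, a, h1, h2, h3⟩
    beta_reduce at h1
    have hm : m = 2 * (m / 2) := by have := h1 none; omega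
    have hy : ∀ i, y i = m / 2 + a i := fun i => by have := h1 i; omega
    have hs : ∑ i, y i = 24 * (m / 2) + ∑ i, a i := by
      rw [← sum_const_golay, ← Finset.sum_add_distrib]; exact Finset.sum_congr rfl fun i _ => hy i
    refine ⟨by omega, ?_⟩
    rcases Int.emod_two_eq_zero_or_one (m / 2) with h | h
    · convert h3 using 1
      ext i; have := hy i; simp only [mem_oddSet]; omega
    · convert GC_compl h3 using 1
      ext i; have := hy i; simp only [mem_oddSet, Finset.mem_compl]; omega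
  · rintro ⟨h1, h2⟩
    exact ⟨0, y, by simp, by simpa using h1, h2⟩

/-- odd vectors -/
theorem isL_odd_iff (y : GolayPt → ℤ) :
    IsL (fun i => 1 + 2 * y i) ↔ (4 : ℤ) ∣ ∑ i, y i - 2 ∧ oddSet y ∈ GC := by
  constructor
  · rintro ⟨m, a, h1, h2, h3⟩
    beta_reduce at h1
    have hm : m = 2 * (m / 2) + 1 := by have := h1 none; omega
    have hy : ∀ i, y i = m / 2 + a i := fun i => by have := h1 i; omega
    have hs : ∑ i, y i = 24 * (m / 2) + ∑ i, a i := by
      rw [← sum_const_golay, ← Finset.sum_add_distrib]; exact Finset.sum_congr rfl fun i _ => hy i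
    refine ⟨by omega, ?_⟩
    rcases Int.emod_two_eq_zero_or_one (m / 2) with h | h
    · convert h3 using 1
      ext i; have := hy i; simp only [mem_oddSet]; omega
    · convert GC_compl h3 using 1
      ext i; have := hy i; simp only [mem_oddSet, Finset.mem_compl]; omega
  · rintro ⟨h1, h2⟩
    exact ⟨1, y, by simp, by simpa using h1, h2⟩

/-- every Leech vector is even or odd, in normal form -/
theorem IsL.cases {x : GolayPt → ℤ} (hx : IsL x) :
    (∃ y : GolayPt → ℤ, (∀ i, x i = 2 * y i) ∧ (4 : ℤ) ∣ ∑ i, y i ∧ oddSet y ∈ GC) ∨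
    (∃ y : GolayPt → ℤ, (∀ i, x i = 1 + 2 * y i) ∧ (4 : ℤ) ∣ ∑ i, y i - 2 ∧ oddSet y ∈ GC) := by
  have hx' := hx
  obtain ⟨m, a, h1, -, -⟩ := hx'
  rcases Int.emod_two_eq_zero_or_one m with h | h
  · left
    have e : x = fun i => 2 * (x i / 2) := by funext i; have := h1 i; omega
    refine ⟨fun i => x i / 2, fun i => congrFun e i, ?_⟩
    rw [← isL_even_iff, ← e]; exact hx
  · right
    have e : x = fun i => 1 + 2 * (x i / 2) := by funext i; have := h1 i; omega
    refine ⟨fun i => x i / 2, fun i => congrFun e i, ?_⟩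
    rw [← isL_odd_iff, ← e]; exact hx

theorem IsL.parity {x : GolayPt → ℤ} (hx : IsL x) (i j : GolayPt) : x i % 2 = x j % 2 := by
  obtain ⟨m, a, h1, -, -⟩ := hx
  have := h1 i; have := h1 j; omega

theorem IsL.sixteen_dvd {x : GolayPt → ℤ} (hx : IsL x) : (16 : ℤ) ∣ sqNorm x := by
  obtain ⟨m, y, h1, h2, h3⟩ := hx
  have e : sqNorm x = 24 * m ^ 2 + 4 * m * ∑ i, y i + 4 * ∑ i, y i ^ 2 := by
    unfold sqNorm
    rw [← sum_const_golay, Finset.mul_sum, Finset.mul_sum, ← Finset.sum_add_distrib,
      ← Finset.sum_add_distrib]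
    exact Finset.sum_congr rfl fun i _ => by rw [h1 i]; ring
  obtain ⟨k, hk⟩ := h2
  obtain ⟨l, hl⟩ := four_dvd_sumsq_sub_card y
  obtain ⟨n, hn⟩ := GC_four_dvd h3
  have e1 : ∑ i, y i = 2 * m + 4 * k := by omega
  have e2 : ∑ i, y i ^ 2 = 4 * (l + n) := by rw [hn] at hl; push_cast at hl; omega
  rw [e, e1, e2]
  exact ⟨2 * m ^ 2 + m * k + l + n, by ring⟩

theorem sqNorm_nonneg {α : Type*} [Fintype α] (x : α → ℤ) : 0 ≤ sqNorm x :=
  Finset.sum_nonneg fun _ _ => sq_nonneg _

theorem sqNorm_eq_zero {α : Type*} [Fintype α] {x : α → ℤ} (h : sqNorm x = 0) : x = 0 := by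
  funext i
  have := (Finset.sum_eq_zero_iff_of_nonneg (fun _ _ => sq_nonneg _)).1 h i (Finset.mem_univ _)
  simpa using this

theorem sqNorm_two_mul {α : Type*} [Fintype α] (y : α → ℤ) :
    sqNorm (fun i => 2 * y i) = 4 * sqNorm y := by
  unfold sqNorm
  rw [Finset.mul_sum]; exact Finset.sum_congr rfl fun i _ => by ring

theorem one_le_sq_of_odd {a : ℤ} (h : a % 2 = 1) : 1 ≤ a ^ 2 := by
  have : a ≠ 0 := by omega
  have := sq_pos_of_ne_zero this
  omega

theorem two_dvd_sumsq_sub_sum {α : Type*} [Fintype α] (z : α → ℤ) :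
    (2 : ℤ) ∣ ∑ i, z i ^ 2 - ∑ i, z i := by
  rw [← Finset.sum_sub_distrib]
  apply Finset.dvd_sum
  intro i _
  have : z i ^ 2 - z i = (z i - 1) * (z i - 1 + 1) := by ring
  rw [this]
  exact (Int.even_mul_succ_self _).two_dvd

theorem IsL.min_norm {x : GolayPt → ℤ} (hx : IsL x) (h0 : x ≠ 0) : 32 ≤ sqNorm x := by
  have h16 := hx.sixteen_dvd
  have hnn := sqNorm_nonneg x
  have hne : sqNorm x ≠ 0 := fun h => h0 (sqNorm_eq_zero h)
  by_contra hlt
  have h : sqNorm x = 16 := by omega
  rcases hx.cases with ⟨y, h1, h2, h3⟩ | ⟨y, h1, h2, h3⟩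
  · have e : x = fun i => 2 * y i := funext h1
    rw [e, sqNorm_two_mul] at h
    have h4 : ∑ i, y i ^ 2 = 4 := by unfold sqNorm at h; omega
    have h5 := card_oddSet_le_sumsq y
    have h6 : (oddSet y).card = 0 := by
      rcases GC_card h3 with h | h | h | h | h <;> omega
    have h7 : ∀ i, y i = 2 * (y i / 2) := by
      intro i
      have : i ∉ oddSet y := by rw [Finset.card_eq_zero.1 h6]; simp
      rw [mem_oddSet] at this; omega
    have h8 : ∑ i, y i ^ 2 = 4 * ∑ i, (y i / 2) ^ 2 := by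
      rw [Finset.mul_sum]; exact Finset.sum_congr rfl fun i _ => by rw [h7 i]; ring_nf; simp
    have h9 : ∑ i, y i = 2 * ∑ i, (y i / 2) := by
      rw [Finset.mul_sum]; exact Finset.sum_congr rfl fun i _ => h7 i
    have := two_dvd_sumsq_sub_sum (fun i => y i / 2)
    omega
  · have : ∑ _i : GolayPt, (1 : ℤ) ≤ sqNorm x := by
      apply Finset.sum_le_sum
      intro i _
      exact one_le_sq_of_odd (by have := h1 i; omega)
    rw [sum_const_golay] at this
    omega

theorem IsL.perm {x : GolayPt → ℤ} (hx : IsL x) {σ : Equiv.Perm GolayPt} (hσ : σ ∈ M24) :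
    IsL (fun i => x (σ i)) := by
  obtain ⟨m, y, h1, h2, h3⟩ := hx
  refine ⟨m, fun i => y (σ i), fun i => h1 _, ?_, ?_⟩
  · rw [Equiv.sum_comp σ y]; exact h2
  · convert M24_preimage_mem hσ h3 using 1
    ext i; simp [mem_oddSet]

theorem two_dvd_sum_mem_sub_card (c : Finset GolayPt) (y : GolayPt → ℤ) :
    (2 : ℤ) ∣ ∑ i ∈ c, y i - (c ∩ oddSet y).card := by
  have h := two_dvd_sum_sub_card (fun i => if i ∈ c then y i else 0)
  have e1 : ∑ i, (if i ∈ c then y i else 0) = ∑ i ∈ c, y i := by
    rw [Finset.sum_ite_mem, Finset.univ_inter]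
  have e2 : oddSet (fun i => if i ∈ c then y i else 0) = c ∩ oddSet y := by
    ext i
    by_cases hi : i ∈ c <;> simp [mem_oddSet, hi]
  rwa [e1, e2] at h

theorem IsL.sign {x : GolayPt → ℤ} (hx : IsL x) {c : Finset GolayPt} (hc : c ∈ GC) :
    IsL (fun i => if i ∈ c then -x i else x i) := by
  obtain ⟨m, y, h1, h2, h3⟩ := hx
  refine ⟨m, fun i => y i - (if i ∈ c then m + 2 * y i else 0), fun i => ?_, ?_, ?_⟩
  · by_cases hi : i ∈ c <;> simp only [hi, if_true, if_false, h1 i] <;> ring
  · rw [Finset.sum_sub_distrib, Finset.sum_ite_mem, Finset.univ_inter, Finset.sum_add_distrib,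
      Finset.sum_const, ← Finset.mul_sum]
    obtain ⟨k, hk⟩ := GC_four_dvd hc
    obtain ⟨l, hl⟩ := GC_inter_even hc h3
    have := two_dvd_sum_mem_sub_card c y
    rw [hl] at this
    rw [hk]
    simp only [nsmul_eq_mul]
    push_cast at *
    have e : (4 : ℤ) * k * m = 4 * (k * m) := by ring
    rw [e]
    omega
  · rcases Int.emod_two_eq_zero_or_one m with h | h
    · convert h3 using 1
      ext i
      by_cases hi : i ∈ c <;> simp only [mem_oddSet, hi, if_true, if_false] <;> omega
    · convert GC_symmDiff h3 hc using 1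
      ext i
      by_cases hi : i ∈ c <;>
        simp only [mem_oddSet, hi, if_true, if_false, Finset.mem_symmDiff, not_true, not_false_iff,
          and_true, and_false, false_or, true_and, false_and, or_false] <;> omega

end H3
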